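import Cfsg.Agent.H906.E6.SixC

/-!
# S5927, S5928, `p = 2`, three-fold cover of `A₆`: three-dimensional modules (helper906)

Involutions act as transvections; the Klein groups `E₀`, `E₁` have a common centre or a common axis. Klein lemma;
the tensor product of two modules of different types is irreducible.
-/

set_option autoImplicit false
set_option linter.unusedSectionVars false

namespace Cfsg.Agent.H906.E6.Hexa

open Module Equiv

/-- `(0 1)(4 5)`; the second Klein group is `{1, a1, k2, k3}` -/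
def k2 : A6 := mk (swap 0 1 * swap 4 5) (by decide)
def k3 : A6 := mk (swap 2 3 * swap 4 5) (by decide)

section tv

variable {F : Type*} [Field F] [CharP F 2] {U : Type*} [AddCommGroup U] [Module F U]

omit [CharP F 2] in
/-- a functional with value 1 -/
theorem exists_one {l : U →ₗ[F] F} (hl : l ≠ 0) : ∃ x, l x = 1 := by
  by_contra hn
  apply hl
  apply LinearMap.ext
  intro x
  by_contra hx
  exact hn ⟨(l x)⁻¹ • x, by rw [map_smul, smul_eq_mul, inv_mul_cancel₀ hx]⟩

omit [CharP F 2] in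
/-- proportional functionals -/
theorem smul_of_ker_le {l m : U →ₗ[F] F} (hl : l ≠ 0) (h : ∀ x, l x = 0 → m x = 0) : ∃ c : F, ∀ x, m x = c * l x := by
  obtain ⟨x0, hx0⟩ := exists_one hl
  refine ⟨m x0, fun x => ?_⟩
  have h1 := h (x - l x • x0) (by rw [map_sub, map_smul, hx0, smul_eq_mul, mul_one, sub_self])
  rw [map_sub, map_smul, smul_eq_mul] at h1
  linear_combination h1

/-- a transvection -/
structure Tv (t : U →ₗ[F] U) (a : U) (l : U →ₗ[F] F) : Prop where
  a0 : a ≠ 0
  l0 : l ≠ 0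
  la : l a = 0
  eq : ∀ x, t x = x + l x • a

/-- involutions on a 3-dimensional space are transvections -/
theorem exists_tv [Module.Finite F U] (h3 : finrank F U = 3) {t : U →ₗ[F] U} (ht : ∀ x, t (t x) = x) (h1 : t ≠ 1) :
    ∃ a l, Tv t a l := by
  let n : U →ₗ[F] U := t - 1
  have hn : ∀ x, n x = t x - x := fun x => rfl
  have hnn : ∀ x, n (n x) = 0 := by
    intro x
    rw [hn, hn, map_sub, ht]
    have h2 := add_self F (x - t x)
    rw [← h2]
    abel
  have hle : LinearMap.range n ≤ LinearMap.ker n := by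
    rintro _ ⟨x, rfl⟩
    exact hnn x
  have hd := LinearMap.finrank_range_add_finrank_ker n
  have hd' := Submodule.finrank_mono hle
  rw [h3] at hd
  obtain ⟨x0, hx0⟩ : ∃ x, n x ≠ 0 := by
    by_contra hne
    push Not at hne
    apply h1
    apply LinearMap.ext
    intro x
    have h2 := hne x
    rw [hn, sub_eq_zero] at h2
    exact h2
  have hmem : ∀ x, ∃ c : F, n x = c • n x0 := by
    intro x
    have h2 : finrank F (LinearMap.range n) = 1 := by
      have h4 : 0 < finrank F (LinearMap.range n) := by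
        rw [Module.finrank_pos_iff_exists_ne_zero]
        exact ⟨⟨n x0, x0, rfl⟩, fun he => hx0 (congrArg Subtype.val he)⟩
      omega
    have h4 := (finrank_eq_one_iff_of_nonzero' (⟨n x0, x0, rfl⟩ : LinearMap.range n)
      (fun he => hx0 (congrArg Subtype.val he))).1 h2 ⟨n x, x, rfl⟩
    obtain ⟨c, hc⟩ := h4
    exact ⟨c, (congrArg Subtype.val hc).symm⟩
  obtain ⟨f, hf⟩ : ∃ f : U →ₗ[F] F, f (n x0) = 1 := by
    obtain ⟨g, hg⟩ : ∃ g : Module.Dual F U, g (n x0) ≠ 0 := by
      by_contra hcon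
      push Not at hcon
      exact hx0 ((Module.forall_dual_apply_eq_zero_iff F _).1 hcon)
    exact ⟨(g (n x0))⁻¹ • g, by
      rw [LinearMap.smul_apply, smul_eq_mul, inv_mul_cancel₀ hg]⟩
  refine ⟨n x0, f ∘ₗ n, hx0, ?_, ?_, ?_⟩
  · intro h2
    have h4 := LinearMap.congr_fun h2 x0
    rw [LinearMap.comp_apply, hf] at h4
    exact one_ne_zero h4
  · rw [LinearMap.comp_apply, hnn, map_zero]
  · intro x
    obtain ⟨c, hc⟩ := hmem x
    rw [LinearMap.comp_apply, hc, map_smul, hf, smul_eq_mul, mul_one, ← hc, hn]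
    abel

/-- a Klein group with a common centre -/
structure Cc (t1 t2 : U →ₗ[F] U) (a : U) (l1 l2 : U →ₗ[F] F) : Prop where
  v1 : Tv t1 a l1
  v2 : Tv t2 a l2

/-- a Klein group with a common axis -/
structure Ca (t1 t2 : U →ₗ[F] U) (l : U →ₗ[F] F) (a1 a2 : U) : Prop where
  v1 : Tv t1 a1 l
  v2 : Tv t2 a2 l

theorem dich [Module.Finite F U] (h3 : finrank F U = 3) {t1 t2 : U →ₗ[F] U} (h11 : ∀ x, t1 (t1 x) = x)
    (h22 : ∀ x, t2 (t2 x) = x) (h12 : ∀ x, t1 (t2 x) = t2 (t1 x)) (n1 : t1 ≠ 1) (n2 : t2 ≠ 1) (n12 : t1 * t2 ≠ 1) :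
    (∃ a l1 l2, Cc t1 t2 a l1 l2) ∨ ∃ l a1 a2, Ca t1 t2 l a1 a2 := by
  obtain ⟨a1, l1, v1⟩ := exists_tv h3 h11 n1
  obtain ⟨a2, l2, v2⟩ := exists_tv h3 h22 n2
  obtain ⟨a3, l3, v3⟩ := exists_tv (t := t1 * t2) h3 (fun x => by
    show t1 (t2 (t1 (t2 x))) = x
    rw [← h12, h11, h22]) n12
  by_cases hc : ∃ c : F, a2 = c • a1
  · obtain ⟨c, rfl⟩ := hc
    have hc0 : c ≠ 0 := by
      rintro rfl
      exact v2.a0 (zero_smul _ _)
    refine Or.inl ⟨a1, l1, c • l2, v1, v1.a0, ?_, ?_, ?_⟩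
    · exact smul_ne_zero hc0 v2.l0
    · have h4 := v2.la
      rw [map_smul, smul_eq_mul] at h4
      rw [LinearMap.smul_apply, smul_eq_mul]
      exact h4
    · intro x
      rw [v2.eq, LinearMap.smul_apply, smul_eq_mul, smul_smul, mul_comm]
  · right
    have key : ∀ x, (l2 x * l1 a2) • a1 = (l1 x * l2 a1) • a2 := by
      intro x
      have h4 := h12 x
      rw [v1.eq (t2 x), v2.eq x, v2.eq (t1 x), v1.eq x, map_add, map_add, map_smul, map_smul, smul_eq_mul,
        smul_eq_mul, add_smul, add_smul] at h4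
      have h5 : x + l2 x • a2 + (l1 x • a1 + (l2 x * l1 a2) • a1) - (x + l1 x • a1 + (l2 x • a2 + (l1 x * l2 a1) • a2)) =
          (l2 x * l1 a2) • a1 - (l1 x * l2 a1) • a2 := by abel
      rw [h4, sub_self] at h5
      exact (sub_eq_zero.1 h5.symm)
    have hl12 : l2 a1 = 0 := by
      by_contra hne
      obtain ⟨x, hx⟩ := exists_one v1.l0
      refine hc ⟨(l2 a1)⁻¹ * (l2 x * l1 a2), ?_⟩
      rw [mul_smul, key x, hx, one_mul, smul_smul, inv_mul_cancel₀ hne, one_smul]
    have hl21 : l1 a2 = 0 := by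
      by_contra hne
      obtain ⟨x, hx⟩ := exists_one v2.l0
      have h4 := key x
      rw [hl12, mul_zero, zero_smul, hx, one_mul] at h4
      exact v1.a0 ((smul_eq_zero.1 h4).resolve_left hne)
    have e3 : ∀ x, l1 x • a1 + l2 x • a2 = l3 x • a3 := by
      intro x
      have h4 : t1 (t2 x) = x + l3 x • a3 := v3.eq x
      rw [v1.eq, v2.eq, map_add, map_smul, hl21, smul_zero, add_zero] at h4
      have h5 : x + l2 x • a2 + l1 x • a1 - x = x + l3 x • a3 - x := by rw [h4]
      rw [add_sub_cancel_left] at h5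
      rw [← h5]
      abel
    have hcase : (∀ x, l1 x = 0 → l2 x = 0) ∨ (∀ x, l2 x = 0 → l1 x = 0) := by
      by_contra hcon
      push Not at hcon
      obtain ⟨⟨x, hx1, hx2⟩, ⟨y, hy2, hy1⟩⟩ := hcon
      have h4 := e3 x
      have h5 := e3 y
      rw [hx1, zero_smul, zero_add] at h4
      rw [hy2, zero_smul, add_zero] at h5
      have h6 : l3 y ≠ 0 := by
        intro h0
        rw [h0, zero_smul] at h5
        exact v1.a0 ((smul_eq_zero.1 h5).resolve_left hy1)
      refine hc ⟨(l2 x)⁻¹ * (l3 x * ((l3 y)⁻¹ * l1 y)), ?_⟩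
      rw [mul_smul, mul_smul, mul_smul, h5, smul_smul (l3 y)⁻¹, inv_mul_cancel₀ h6, one_smul, ← h4, smul_smul,
        inv_mul_cancel₀ hx2, one_smul]
    have hker : ∀ x, l1 x = 0 → l2 x = 0 := by
      rcases hcase with h4 | h4
      · exact h4
      · obtain ⟨c, hcc⟩ := smul_of_ker_le v2.l0 h4
        have hc0 : c ≠ 0 := by
          rintro rfl
          obtain ⟨x, hx⟩ := exists_one v1.l0
          rw [hcc, zero_mul] at hx
          exact zero_ne_one hx
        intro x hx
        rw [hcc] at hx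
        exact (mul_eq_zero.1 hx).resolve_left hc0
    obtain ⟨c, hcc⟩ := smul_of_ker_le v1.l0 hker
    have hc0 : c ≠ 0 := by
      rintro rfl
      obtain ⟨x, hx⟩ := exists_one v2.l0
      rw [hcc, zero_mul] at hx
      exact zero_ne_one hx
    refine ⟨l1, a1, c • a2, v1, smul_ne_zero hc0 v2.a0, v1.l0, ?_, ?_⟩
    · rw [map_smul, hl21, smul_zero]
    · intro x
      rw [v2.eq, hcc, smul_smul, mul_comm]

omit [CharP F 2] in
theorem Tv.comm {t t' : U →ₗ[F] U} {a a' : U} {l l' : U →ₗ[F] F} (v : Tv t a l) (v' : Tv t' a' l')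
    (h : (∃ c : F, a' = c • a) ∨ ∃ c : F, ∀ x, l' x = c * l x) (x : U) : t (t' x) = t' (t x) := by
  have h1 : l a' = 0 ∧ l' a = 0 := by
    rcases h with ⟨c, rfl⟩ | ⟨c, hc⟩
    · have hc0 : c ≠ 0 := by
        rintro rfl
        exact v'.a0 (zero_smul _ _)
      have h2 := v'.la
      rw [map_smul, smul_eq_mul] at h2
      exact ⟨by rw [map_smul, v.la, smul_zero], (mul_eq_zero.1 h2).resolve_left hc0⟩
    · have hc0 : c ≠ 0 := by
        rintro rfl
        obtain ⟨x, hx⟩ := exists_one v'.l0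
        rw [hc, zero_mul] at hx
        exact zero_ne_one hx
      have h2 := v'.la
      rw [hc] at h2
      exact ⟨(mul_eq_zero.1 h2).resolve_left hc0, by rw [hc, v.la, mul_zero]⟩
  rw [v'.eq x, v.eq x, map_add, map_add, map_smul, map_smul, v.eq x, v'.eq x, v.eq a', v'.eq a, h1.1, h1.2, zero_smul,
    zero_smul, add_zero, add_zero]
  abel

omit [CharP F 2] in
/-- the centre is unique -/
theorem Tv.centre {t : U →ₗ[F] U} {a a' : U} {l l' : U →ₗ[F] F} (v : Tv t a l) (v' : Tv t a' l') :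
    ∃ c : F, a' = c • a := by
  obtain ⟨x, hx⟩ := exists_one v'.l0
  have h1 := v.eq x
  rw [v'.eq x, hx, one_smul] at h1
  exact ⟨l x, add_left_cancel h1⟩

omit [CharP F 2] in
/-- the axis is unique -/
theorem Tv.axis {t : U →ₗ[F] U} {a a' : U} {l l' : U →ₗ[F] F} (v : Tv t a l) (v' : Tv t a' l') :
    ∃ c : F, ∀ x, l' x = c * l x := by
  refine smul_of_ker_le v.l0 fun x hx => ?_
  have h1 := v.eq x
  rw [v'.eq x, hx, zero_smul] at h1
  exact (smul_eq_zero.1 (add_left_cancel h1)).resolve_right v'.a0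

end tv

/-! ### three-dimensional modules -/

section tri

variable {F : Type*} [Field F] [CharP F 2] {U : Type*} [AddCommGroup U] [Module F U] [Module.Finite F U]
  {P : Type*} [Group P] {π : P →* A6} {ρ : Representation F P U} {x y : P} {ω : F}

/-- a three-dimensional module -/
structure Tri (π : P →* A6) (ρ : Representation F P U) (x y : P) (ω : F) : Prop where
  T : XY π ρ x y ω
  dim : finrank F U = 3
  ker : ∀ z, π z = 1 → ∃ c : F, ∀ u, ρ z u = c • u

omit [CharP F 2] in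
theorem Tri.stable (M : Tri π ρ x y ω) {W : Submodule F U} (hW : ∀ b, ∀ w ∈ W, ρ b w ∈ W) : W = ⊥ ∨ W = ⊤ := by
  obtain ⟨k, hk⟩ := M.T.three_dvd W hW
  have h1 := Submodule.finrank_le W
  rw [M.dim] at h1
  have h2 : k = 0 ∨ k = 1 := by omega
  rcases h2 with rfl | rfl
  · exact Or.inl (Submodule.finrank_eq_zero.1 (by omega))
  · exact Or.inr (Submodule.eq_top_of_finrank_eq (by rw [M.dim]; omega))

/-- involutions act non-trivially -/
theorem Tri.nt (M : Tri π ρ x y ω) (h : Ext π) {a : A6} (ha : a * a = 1) (hc : ∃ c : A6, c * a * c⁻¹ = a1) :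
    ρ (h.s a) ≠ 1 := by
  intro h1
  have hcj : ∀ (a b c : A6), a * a = 1 → c * a * c⁻¹ = b → ρ (h.s a) = 1 → ρ (h.s b) = 1 := by
    intro a b c ha hcb h1
    obtain ⟨g, rfl⟩ := h.surj c
    have h2 := h.s_conj ha g
    rw [hcb] at h2
    rw [← h2, map_mul, map_mul, h1, mul_one, ← map_mul, mul_inv_cancel, map_one]
  obtain ⟨c, hc⟩ := hc
  have e1 := hcj a a1 c ha hc h1
  have e2 := hcj a1 g1 (Hexa.mk (swap 2 3 * swap 3 4) (by decide)) (by decide) (by decide +kernel) e1
  have e3 := hcj a1 (Hexa.mk (swap 1 2 * swap 3 4) (by decide))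
    (Hexa.mk (swap 0 1 * swap 1 2 * swap 2 3 * swap 3 4) (by decide)) (by decide) (by decide +kernel) e1
  have hs1 := (h.s_spec (a := g1) (by decide)).1
  have hs2 := (h.s_spec (a := Hexa.mk (swap 1 2 * swap 3 4) (by decide)) (by decide)).1
  obtain ⟨k, hk⟩ : ∃ k, k = (h.s g1 * h.s (Hexa.mk (swap 1 2 * swap 3 4) (by decide)))⁻¹ * x := ⟨_, rfl⟩
  have hk1 : π k = 1 := by
    rw [hk, map_mul, map_inv, map_mul, hs1, hs2, M.T.hx, inv_mul_eq_one]
    decide +kernel
  have hx : x = h.s g1 * h.s (Hexa.mk (swap 1 2 * swap 3 4) (by decide)) * k := by rw [hk, mul_inv_cancel_left]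
  obtain ⟨d, hd⟩ := M.ker k hk1
  have hxd : ∀ u, ρ x u = d • u := by
    intro u
    rw [hx, map_mul, map_mul, e2, e3, mul_one]
    show ρ k u = d • u
    exact hd u
  obtain ⟨u, hu⟩ : ∃ u : U, u ≠ 0 := by
    have : 0 < finrank F U := by rw [M.dim]; norm_num
    exact Module.finrank_pos_iff_exists_ne_zero.1 this
  have hd0 : d ≠ 0 := by
    rintro rfl
    have h2 := hxd u
    rw [zero_smul] at h2
    exact hu (rho_inj x (h2.trans (map_zero (ρ x)).symm))
  have h3 := M.T.comm u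
  rw [hxd, hxd, map_smul] at h3
  have h4 : (d - ω * d) • ρ y u = 0 := by rw [sub_smul, h3, mul_smul, sub_self]
  rcases smul_eq_zero.1 h4 with h5 | h5
  · have h6 : (1 - ω) * d = 0 := by linear_combination h5
    exact M.T.ne (sub_eq_zero.1 ((mul_eq_zero.1 h6).resolve_right hd0)).symm
  · exact hu (rho_inj y (h5.trans (map_zero (ρ y)).symm))

theorem Tri.nt1 (M : Tri π ρ x y ω) (h : Ext π) : ρ (h.s a1) ≠ 1 := M.nt h (by decide) ⟨1, by decide⟩

theorem Tri.nt2 (M : Tri π ρ x y ω) (h : Ext π) : ρ (h.s a2) ≠ 1 :=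
  M.nt h (by decide) ⟨Hexa.mk (swap 1 2 * swap 4 5) (by decide), by decide +kernel⟩

theorem Tri.nt3 (M : Tri π ρ x y ω) (h : Ext π) : ρ (h.s a3) ≠ 1 :=
  M.nt h (by decide) ⟨Hexa.mk (swap 1 3 * swap 4 5) (by decide), by decide +kernel⟩

theorem Tri.ntk2 (M : Tri π ρ x y ω) (h : Ext π) : ρ (h.s k2) ≠ 1 :=
  M.nt h (by decide) ⟨Hexa.mk (swap 2 4 * swap 3 5) (by decide), by decide +kernel⟩

theorem Tri.ntk3 (M : Tri π ρ x y ω) (h : Ext π) : ρ (h.s k3) ≠ 1 :=
  M.nt h (by decide) ⟨Hexa.mk (swap 0 4 * swap 1 5) (by decide), by decide +kernel⟩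

omit [CharP F 2] [Module.Finite F U] in
theorem inv_inv (h : Ext π) {a : A6} (ha : a * a = 1) (u : U) : ρ (h.s a) (ρ (h.s a) u) = u := by
  rw [← rho_mul, (h.s_spec ha).2, rho_one]

omit [CharP F 2] [Module.Finite F U] in
theorem inv_comm (h : Ext π) {a b : A6} (ha : a * a = 1) (hb : b * b = 1) (hab : a * b = b * a) (u : U) :
    ρ (h.s a) (ρ (h.s b) u) = ρ (h.s b) (ρ (h.s a) u) := by
  rw [← rho_mul, ← rho_mul, h.s_mul ha hb hab, h.s_mul hb ha hab.symm, hab]

/-- the images of the two Klein groups do not commute -/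
theorem Tri.not_comm (M : Tri π ρ x y ω) (h : Ext π) : ¬ ∀ u, ρ (h.s a2) (ρ (h.s k2) u) = ρ (h.s k2) (ρ (h.s a2) u) := by
  intro hc
  apply M.nt1 h
  apply LinearMap.ext
  intro u
  have h1 := push (h := h) (ρ := ρ) (a := k2) (by decide) (h.s a2) u
  rw [hc, (h.s_spec (a := a2) (by decide)).1, show a2 * k2 * a2⁻¹ = a1 * k2 by decide +kernel,
    ← h.s_mul (by decide) (by decide) (by decide +kernel), rho_mul] at h1
  show ρ (h.s a1) u = u
  have h2 := congrArg (ρ (h.s k2)) h1
  rw [inv_inv h (by decide), inv_comm h (by decide) (by decide) (by decide +kernel), inv_inv h (by decide)] at h2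
  exact (rho_inj (h.s a2) (h2.trans (inv_comm h (by decide) (by decide) (by decide +kernel) u).symm)).symm

/-- the types: a common centre or a common axis of the first Klein group -/
theorem Tri.dich0 (M : Tri π ρ x y ω) (h : Ext π) :
    (∃ a l1 l2, Cc (ρ (h.s a1)) (ρ (h.s a2)) a l1 l2) ∨ ∃ l b1 b2, Ca (ρ (h.s a1)) (ρ (h.s a2)) l b1 b2 := by
  refine dich M.dim (inv_inv h (by decide)) (inv_inv h (by decide))
    (inv_comm h (by decide) (by decide) (by decide +kernel)) (M.nt1 h) (M.nt2 h) ?_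
  rw [← map_mul, h.s_mul (by decide) (by decide) (by decide +kernel), show a1 * a2 = a3 by decide +kernel]
  exact M.nt3 h

theorem Tri.dich1 (M : Tri π ρ x y ω) (h : Ext π) :
    (∃ a l1 l2, Cc (ρ (h.s a1)) (ρ (h.s k2)) a l1 l2) ∨ ∃ l b1 b2, Ca (ρ (h.s a1)) (ρ (h.s k2)) l b1 b2 := by
  refine dich M.dim (inv_inv h (by decide)) (inv_inv h (by decide))
    (inv_comm h (by decide) (by decide) (by decide +kernel)) (M.nt1 h) (M.ntk2 h) ?_
  rw [← map_mul, h.s_mul (by decide) (by decide) (by decide +kernel), show a1 * k2 = k3 by decide +kernel]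
  exact M.ntk3 h

omit [CharP F 2] [Module.Finite F U] in
theorem Tv.smul {t : U →ₗ[F] U} {a : U} {l : U →ₗ[F] F} (v : Tv t a l) {c : F} (hc : c ≠ 0) :
    Tv t (c • a) (c⁻¹ • l) := by
  refine ⟨smul_ne_zero hc v.a0, smul_ne_zero (inv_ne_zero hc) v.l0, ?_, fun x => ?_⟩
  · rw [LinearMap.smul_apply, map_smul, v.la, smul_zero, smul_zero]
  · rw [v.eq, LinearMap.smul_apply, smul_eq_mul, smul_smul, mul_comm c⁻¹, mul_assoc, inv_mul_cancel₀ hc, mul_one]

/-- common centre of the first Klein group: common axis of the second one, and the axes of the first one differ -/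
theorem Tri.centre (M : Tri π ρ x y ω) (h : Ext π) {a : U} {l1 l2 : U →ₗ[F] F}
    (hc : Cc (ρ (h.s a1)) (ρ (h.s a2)) a l1 l2) : (∃ l b1 b2, Ca (ρ (h.s a1)) (ρ (h.s k2)) l b1 b2) ∧
    ¬ ∃ c : F, ∀ u, l2 u = c * l1 u := by
  rcases M.dich1 h with ⟨a', l1', l2', hk⟩ | ⟨l, b1, b2, hk⟩
  · exfalso
    obtain ⟨c, hc'⟩ := hc.v1.centre hk.v1
    exact M.not_comm h (hc.v2.comm hk.v2 (Or.inl ⟨c, hc'⟩))
  · refine ⟨⟨l, b1, b2, hk⟩, ?_⟩
    rintro ⟨c, hcc⟩
    obtain ⟨d, hd⟩ := hc.v1.axis hk.v1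
    have hc0 : c ≠ 0 := by
      rintro rfl
      obtain ⟨u, hu⟩ := exists_one hc.v2.l0
      rw [hcc, zero_mul] at hu
      exact zero_ne_one hu
    refine M.not_comm h (hc.v2.comm hk.v2 (Or.inr ⟨d * c⁻¹, fun u => ?_⟩))
    rw [hcc, hd, mul_assoc, inv_mul_cancel_left₀ hc0]

/-- common axis of the first Klein group -/
theorem Tri.axis (M : Tri π ρ x y ω) (h : Ext π) {l : U →ₗ[F] F} {b1 b2 : U}
    (hc : Ca (ρ (h.s a1)) (ρ (h.s a2)) l b1 b2) : (∃ a l1 l2, Cc (ρ (h.s a1)) (ρ (h.s k2)) a l1 l2) ∧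
    ¬ ∃ c : F, b2 = c • b1 := by
  rcases M.dich1 h with ⟨a', l1', l2', hk⟩ | ⟨l', b1', b2', hk⟩
  · refine ⟨⟨a', l1', l2', hk⟩, ?_⟩
    rintro ⟨c, hcc⟩
    obtain ⟨d, hd⟩ := hc.v1.centre hk.v1
    have hc0 : c ≠ 0 := by
      rintro rfl
      exact hc.v2.a0 (hcc.trans (zero_smul _ _))
    refine M.not_comm h (hc.v2.comm hk.v2 (Or.inl ⟨d * c⁻¹, ?_⟩))
    rw [hcc, hd, smul_smul, mul_assoc, inv_mul_cancel₀ hc0, mul_one]
  · exfalso
    obtain ⟨c, hc'⟩ := hc.v1.axis hk.v1
    exact M.not_comm h (hc.v2.comm hk.v2 (Or.inr ⟨c, hc'⟩))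

end tri

/-! ### the Klein lemma -/

section klein

variable {F : Type*} [Field F] [CharP F 2] {U : Type*} [AddCommGroup U] [Module F U]
  {Y : Type*} [AddCommGroup Y] [Module F Y] {P : Type*} [Group P] {π : P →* A6} {ρ : Representation F P U}
  {ρ' : Representation F P Y}

/-- an equivariant alternating form `β` and an equivariant quadratic map `s` with polar form `β` -/
structure QD (ρ : Representation F P U) (ρ' : Representation F P Y) (β : U → U → Y) (s : U → Y) : Prop where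
  add : ∀ u u' w, β (u + u') w = β u w + β u' w
  smul : ∀ (c : F) u w, β (c • u) w = c • β u w
  symm : ∀ u w, β u w = β w u
  alt : ∀ u, β u u = 0
  act : ∀ b u w, ρ' b (β u w) = β (ρ b u) (ρ b w)
  inj : ∀ u w, u ≠ 0 → β u w = 0 → ∃ c : F, w = c • u
  sadd : ∀ u w, s (u + w) = s u + s w + β u w
  ssmul : ∀ (c : F) u, s (c • u) = (c * c) • s u
  sact : ∀ b u, ρ' b (s u) = s (ρ b u)
  span : ∀ u, s u ∈ Submodule.span F {y | ∃ v w, y = β v w}

variable {β : U → U → Y} {s : U → Y}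

theorem QD.add' (Q : QD ρ ρ' β s) (u w w' : U) : β u (w + w') = β u w + β u w' := by
  rw [Q.symm, Q.add, Q.symm w, Q.symm w']

theorem QD.smul' (Q : QD ρ ρ' β s) (c : F) (u w : U) : β u (c • w) = c • β u w := by
  rw [Q.symm, Q.smul, Q.symm]

theorem QD.sub' (Q : QD ρ ρ' β s) (u w w' : U) : β u (w - w') = β u w - β u w' := by
  have h1 := Q.smul' (-1) u w'
  rw [neg_one_smul, neg_one_smul] at h1
  rw [sub_eq_add_neg, Q.add', h1, sub_eq_add_neg]

/-- the value at the centre of a transvection -/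
theorem QD.at_centre (Q : QD ρ ρ' β s) {b : P} {a : U} {l : U →ₗ[F] F} (v : Tv (ρ b) a l) :
    ∃ p, l p = 1 ∧ s a = β a p := by
  obtain ⟨x0, hx0⟩ := exists_one v.l0
  have key : ∀ y ∈ Submodule.span F {y | ∃ v w, y = β v w}, ∃ q, l q = 0 ∧ ρ' b y - y = β a q := by
    intro y hy
    induction hy using Submodule.span_induction with
    | mem y hy =>
      obtain ⟨u, w, rfl⟩ := hy
      refine ⟨l w • u + l u • w, ?_, ?_⟩
      · rw [map_add, map_smul, map_smul, smul_eq_mul, smul_eq_mul, mul_comm]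
        exact CharTwo.add_self_eq_zero _
      · rw [Q.act, v.eq, v.eq, Q.add, Q.add', Q.add', Q.smul, Q.smul, Q.smul', Q.smul', Q.alt, smul_zero, smul_zero,
          add_zero, Q.add', Q.smul', Q.smul', Q.symm u a]
        abel
    | zero => exact ⟨0, map_zero l, by
        rw [map_zero, sub_zero]
        have h1 := Q.smul' 0 a 0
        rw [zero_smul, zero_smul] at h1
        exact h1.symm⟩
    | add y y' _ _ h1 h2 =>
      obtain ⟨q, hq, e1⟩ := h1
      obtain ⟨q', hq', e2⟩ := h2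
      refine ⟨q + q', by rw [map_add, hq, hq', add_zero], ?_⟩
      rw [Q.add', ← e1, ← e2, map_add]
      abel
    | smul c y _ h1 =>
      obtain ⟨q, hq, e1⟩ := h1
      refine ⟨c • q, by rw [map_smul, hq, smul_zero], ?_⟩
      rw [Q.smul', ← e1, map_smul, smul_sub]
  obtain ⟨q, hq, e1⟩ := key _ (Q.span x0)
  rw [Q.sact, v.eq, hx0, one_smul, Q.sadd] at e1
  refine ⟨q + x0, by rw [map_add, hq, hx0, zero_add], ?_⟩
  rw [Q.add', ← e1, Q.symm x0 a]
  have h2 := add_self F (β a x0)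
  calc s a = s a + (β a x0 + β a x0) := by rw [h2, add_zero]
    _ = _ := by abel

/-- a Klein group with a common centre excludes `s` -/
theorem QD.false_of_cc (Q : QD ρ ρ' β s) {b1 b2 : P} {a : U} {l1 l2 : U →ₗ[F] F} (hc : Cc (ρ b1) (ρ b2) a l1 l2)
    (hne : ρ (b1 * b2) ≠ 1) : False := by
  have v3 : Tv (ρ (b1 * b2)) a (l1 + l2) := by
    have he : ∀ u, ρ (b1 * b2) u = u + (l1 + l2) u • a := by
      intro u
      rw [rho_mul, hc.v2.eq, map_add, map_smul, hc.v1.eq u, hc.v1.eq a, hc.v1.la, zero_smul, add_zero,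
        LinearMap.add_apply, add_smul]
      abel
    refine ⟨hc.v1.a0, ?_, by rw [LinearMap.add_apply, hc.v1.la, hc.v2.la, add_zero], he⟩
    intro h0
    apply hne
    apply LinearMap.ext
    intro u
    rw [he, h0, LinearMap.zero_apply, zero_smul, add_zero]
    rfl
  obtain ⟨p1, h1, e1⟩ := Q.at_centre hc.v1
  obtain ⟨p2, h2, e2⟩ := Q.at_centre hc.v2
  obtain ⟨p3, h3, e3⟩ := Q.at_centre v3
  have hd : ∀ p p', s a = β a p → s a = β a p' → ∃ c : F, p = p' + c • a := by
    intro p p' h h'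
    obtain ⟨c, hc'⟩ := Q.inj a (p - p') hc.v1.a0 (by rw [Q.sub', ← h, ← h', sub_self])
    exact ⟨c, by rw [← hc', add_sub_cancel]⟩
  obtain ⟨c, rfl⟩ := hd p2 p1 e2 e1
  obtain ⟨c', rfl⟩ := hd p3 p1 e3 e1
  rw [map_add, map_smul, hc.v2.la, smul_zero, add_zero] at h2
  rw [map_add, map_smul, v3.la, smul_zero, add_zero, LinearMap.add_apply, h1, h2] at h3
  rw [CharTwo.add_self_eq_zero] at h3
  exact zero_ne_one h3

/-- **Klein lemma** -/
theorem QD.false [Module.Finite F U] {x y : P} {ω : F} (Q : QD ρ ρ' β s) (h : Ext π) (M : Tri π ρ x y ω) : False := by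
  have e2 : ρ (h.s a1 * h.s a2) ≠ 1 := by
    rw [h.s_mul (by decide) (by decide) (by decide +kernel), show a1 * a2 = a3 by decide +kernel]
    exact M.nt3 h
  have e3 : ρ (h.s a1 * h.s k2) ≠ 1 := by
    rw [h.s_mul (by decide) (by decide) (by decide +kernel), show a1 * k2 = k3 by decide +kernel]
    exact M.ntk3 h
  rcases M.dich0 h with ⟨a, l1, l2, hc⟩ | ⟨l, b1, b2, hc⟩
  · exact Q.false_of_cc hc e2
  · obtain ⟨a, l1, l2, hc'⟩ := (M.axis h hc).1
    exact Q.false_of_cc hc' e3

end klein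

/-! ### the product of two modules of different types -/

section prod

/-- the stabilizer of the pair and `g1` generate everything -/
theorem gen_all {P : Type*} [Group P] {π : P →* A6} (h : Ext π) {C : P → Prop} (hmul : ∀ a b, C a → C b → C (a * b))
    (hpr : ∀ n, Pr (π n) → C n) (hg : C (h.s g1)) (b : P) : C b := by
  have hs1 := (h.s_spec (a := g1) (by decide)).1
  have hs2 := (h.s_spec (a := g2) (by decide)).1
  have hg2 : C (h.s g2) := by
    obtain ⟨n0, hn0⟩ := h.surj tx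
    obtain ⟨n1, hn1⟩ := h.surj (mk (swap 4 5 * swap 0 3) (by decide))
    obtain ⟨n2, hn2⟩ : ∃ n2, n2 = (n0 * h.s g1 * n1 * h.s g1)⁻¹ * h.s g2 := ⟨_, rfl⟩
    have e1 : h.s g2 = n0 * h.s g1 * n1 * h.s g1 * n2 := by rw [hn2, mul_inv_cancel_left]
    rw [e1]
    refine hmul _ _ (hmul _ _ (hmul _ _ (hmul _ _ (hpr _ ?_) hg) (hpr _ ?_)) hg) (hpr _ ?_)
    · rw [hn0]; decide
    · rw [hn1]; decide
    · rw [hn2, map_mul, map_inv, map_mul, map_mul, map_mul, hn0, hn1, hs1, hs2]
      decide +kernel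
  have hne : (π b : Perm (Fin 6)) 4 ≠ (π b : Perm (Fin 6)) 5 := by
    intro he
    have h45 : (4 : Fin 6) = 5 := (π b : Perm (Fin 6)).injective he
    exact absurd h45 (by decide)
  obtain ⟨n, -, hn, k, hk, hb⟩ := pairs ((π b : Perm (Fin 6)) 4) ((π b : Perm (Fin 6)) 5) hne
  obtain ⟨bn, rfl⟩ := h.surj n
  have hkk : k * k = 1 := by
    have : ∀ k ∈ ([1, g1, g2] : List A6), k * k = 1 := by decide +kernel
    exact this k hk
  have hs := (h.s_spec hkk).1
  obtain ⟨b', rfl⟩ : ∃ b', b = bn * (h.s k) * b' := ⟨(bn * h.s k)⁻¹ * b, by group⟩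
  have hb' : Pr (π b') := by
    have h1 : π (bn * h.s k * b') = (π bn * k) * π b' := by rw [map_mul, map_mul, hs]
    rw [h1] at hb
    have h2 : ∀ i : Fin 6, (((π bn * k : A6)⁻¹ : A6) : Perm (Fin 6)) ((((π bn * k) * π b' : A6) : Perm (Fin 6)) i)
        = (π b' : Perm (Fin 6)) i := by
      intro i
      have h3 : (π bn * k : A6)⁻¹ * ((π bn * k) * π b') = π b' := inv_mul_cancel_left _ _
      have h4 := congrArg (fun t : A6 => (t : Perm (Fin 6)) i) h3
      exact h4
    rw [h2, h2] at hb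
    exact hb
  refine hmul _ _ (hmul _ _ (hpr _ hn) ?_) (hpr _ hb')
  simp only [List.mem_cons, List.not_mem_nil, or_false] at hk
  rcases hk with rfl | rfl | rfl
  · rw [h.s_one]
    exact hpr _ (by rw [map_one]; decide)
  · exact hg
  · exact hg2

variable {F : Type*} [Field F] [CharP F 2] {P : Type*} [Group P] {π : P →* A6} {x y : P} {ω ω' ω'' : F}
  {U : Type*} [AddCommGroup U] [Module F U] [Module.Finite F U] {ρ : Representation F P U}
  {U' : Type*} [AddCommGroup U'] [Module F U'] [Module.Finite F U'] {ρ' : Representation F P U'}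
  {U'' : Type*} [AddCommGroup U''] [Module F U''] [Module.Finite F U''] {ρ'' : Representation F P U''}

/-- conjugates of elements of the Klein group -/
theorem conj_E0 (n : A6) (hn : Pr n) {e : A6} (he : e ∈ E0) : n * e * n⁻¹ ∈ E0 := by
  rw [mem_E0] at he ⊢
  obtain ⟨h1, h4, h5⟩ := he
  refine ⟨?_, ?_, ?_⟩
  · have : n * e * n⁻¹ * (n * e * n⁻¹) = n * (e * e) * n⁻¹ := by group
    rw [this, h1]
    group
  · show (n : Perm (Fin 6)) ((e : Perm (Fin 6)) ((n : Perm (Fin 6))⁻¹ 4)) = 4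
    rcases hn with ⟨h6, h7⟩ | ⟨h6, h7⟩
    · have h8 : (n : Perm (Fin 6))⁻¹ 4 = 4 := by rw [Perm.inv_eq_iff_eq, h6]
      rw [h8, h4, h6]
    · have h8 : (n : Perm (Fin 6))⁻¹ 4 = 5 := by rw [Perm.inv_eq_iff_eq, h7]
      rw [h8, h5, h7]
  · show (n : Perm (Fin 6)) ((e : Perm (Fin 6)) ((n : Perm (Fin 6))⁻¹ 5)) = 5
    rcases hn with ⟨h6, h7⟩ | ⟨h6, h7⟩
    · have h8 : (n : Perm (Fin 6))⁻¹ 5 = 5 := by rw [Perm.inv_eq_iff_eq, h7]
      rw [h8, h5, h7]
    · have h8 : (n : Perm (Fin 6))⁻¹ 5 = 4 := by rw [Perm.inv_eq_iff_eq, h6]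
      rw [h8, h4, h6]

theorem e_three (h : Ext π) (u : U) : ρ (h.s a3) u = ρ (h.s a1) (ρ (h.s a2) u) := by
  rw [← rho_mul, h.s_mul (by decide) (by decide) (by decide +kernel), show a1 * a2 = a3 by decide +kernel]

/-- all non-trivial elements of the Klein group have the same centre -/
theorem cc_all (h : Ext π) (M : Tri π ρ x y ω) {a : U} {l1 l2 : U →ₗ[F] F}
    (hc : Cc (ρ (h.s a1)) (ρ (h.s a2)) a l1 l2) {e : A6} (he : e ∈ E0) (he1 : e ≠ 1) : ∃ l, Tv (ρ (h.s e)) a l := by
  simp only [E0, Finset.mem_insert, Finset.mem_singleton] at he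
  rcases he with rfl | rfl | rfl | rfl
  · exact absurd rfl he1
  · exact ⟨l1, hc.v1⟩
  · exact ⟨l2, hc.v2⟩
  · have he : ∀ u, ρ (h.s a3) u = u + (l1 + l2) u • a := by
      intro u
      rw [e_three, hc.v2.eq, map_add, map_smul, hc.v1.eq u, hc.v1.eq a, hc.v1.la, zero_smul, add_zero,
        LinearMap.add_apply, add_smul]
      abel
    refine ⟨l1 + l2, hc.v1.a0, ?_, by rw [LinearMap.add_apply, hc.v1.la, hc.v2.la, add_zero], he⟩
    intro h0
    apply M.nt3 h
    apply LinearMap.ext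
    intro u
    rw [he, h0, LinearMap.zero_apply, zero_smul, add_zero]
    rfl

/-- all non-trivial elements of the Klein group have the same axis -/
theorem ca_all (h : Ext π) (M : Tri π ρ x y ω) {l : U →ₗ[F] F} {b1 b2 : U}
    (hc : Ca (ρ (h.s a1)) (ρ (h.s a2)) l b1 b2) {e : A6} (he : e ∈ E0) (he1 : e ≠ 1) : ∃ b, Tv (ρ (h.s e)) b l := by
  simp only [E0, Finset.mem_insert, Finset.mem_singleton] at he
  rcases he with rfl | rfl | rfl | rfl
  · exact absurd rfl he1
  · exact ⟨b1, hc.v1⟩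
  · exact ⟨b2, hc.v2⟩
  · have he : ∀ u, ρ (h.s a3) u = u + l u • (b1 + b2) := by
      intro u
      rw [e_three, hc.v2.eq, map_add, map_smul, hc.v1.eq u, hc.v1.eq b2, hc.v2.la, zero_smul, add_zero, smul_add]
      abel
    refine ⟨b1 + b2, ?_, hc.v1.l0, by rw [map_add, hc.v1.la, hc.v2.la, add_zero], he⟩
    intro h0
    apply M.nt3 h
    apply LinearMap.ext
    intro u
    rw [he, h0, smul_zero, add_zero]
    rfl

/-- the norm of the Klein group vanishes -/
theorem Tri.Nm_zero (h : Ext π) (M : Tri π ρ x y ω) (u : U) : Nm h ρ u = 0 := by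
  rw [Nm_eq, e_three]
  rcases M.dich0 h with ⟨a, l1, l2, hc⟩ | ⟨l, b1, b2, hc⟩
  · rw [hc.v2.eq, map_add, map_smul, hc.v1.eq u, hc.v1.eq a, hc.v1.la, zero_smul, add_zero]
    have e1 := add_self F u
    have e2 := add_self F (l1 u • a)
    have e3 := add_self F (l2 u • a)
    calc u + (u + l1 u • a) + (u + l2 u • a) + (u + l1 u • a + l2 u • a)
        = (u + u) + (u + u) + (l1 u • a + l1 u • a) + (l2 u • a + l2 u • a) := by abel
      _ = 0 := by rw [e1, e2, e3]; simp
  · rw [hc.v2.eq, map_add, map_smul, hc.v1.eq u, hc.v1.eq b2, hc.v2.la, zero_smul, add_zero]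
    have e1 := add_self F u
    have e2 := add_self F (l u • b1)
    have e3 := add_self F (l u • b2)
    calc u + (u + l u • b1) + (u + l u • b2) + (u + l u • b1 + l u • b2)
        = (u + u) + (u + u) + (l u • b1 + l u • b1) + (l u • b2 + l u • b2) := by abel
      _ = 0 := by rw [e1, e2, e3]; simp

/-- **a bilinear map from modules of different types to a three-dimensional module vanishes** -/
theorem prod_zero (h : Ext π) (M : Tri π ρ x y ω) (M' : Tri π ρ' x y ω') (M'' : Tri π ρ'' x y ω'')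
    {a : U} {l1 l2 : U →ₗ[F] F} (hc : Cc (ρ (h.s a1)) (ρ (h.s a2)) a l1 l2)
    {l : U' →ₗ[F] F} {b1 b2 : U'} (hc' : Ca (ρ' (h.s a1)) (ρ' (h.s a2)) l b1 b2)
    (m : U →ₗ[F] U' →ₗ[F] U'') (hm : ∀ b u w, ρ'' b (m u w) = m (ρ b u) (ρ' b w)) : m = 0 := by
  have hne := (M.centre h hc).2
  have hne' := (M'.axis h hc').2
  -- step 2
  have k1 : ∀ u w, l w • (m a (l2 u • b1) + m a (l1 u • b2)) = 0 := by
    intro u w
    have e0 := Tri.Nm_zero h M'' (m u w)
    rw [Nm_eq, hm, hm, hm, e_three (ρ := ρ), e_three (ρ := ρ'), hc.v1.eq u, hc.v2.eq u, hc'.v1.eq w, hc'.v2.eq w,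
      map_add (ρ (h.s a1)), map_smul (ρ (h.s a1)), hc.v1.eq u, hc.v1.eq a, hc.v1.la, zero_smul, add_zero,
      map_add (ρ' (h.s a1)), map_smul (ρ' (h.s a1)), hc'.v1.eq w, hc'.v1.eq b2, hc'.v2.la, zero_smul, add_zero] at e0
    simp only [map_add, map_smul, LinearMap.add_apply, LinearMap.smul_apply, smul_add, smul_smul] at e0 ⊢
    have f1 := add_self F (m u w)
    have f2 := add_self F (l w • m u b1)
    have f3 := add_self F (l w • m u b2)
    have f4 := add_self F (l1 u • m a w)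
    have f5 := add_self F (l2 u • m a w)
    have f6 := add_self F ((l1 u * l w) • m a b1)
    have f7 := add_self F ((l2 u * l w) • m a b2)
    rw [← e0]
    have g1 : (l w * l2 u) • m a b1 = (l2 u * l w) • m a b1 := by rw [mul_comm]
    have g2 : (l w * l1 u) • m a b2 = (l1 u * l w) • m a b2 := by rw [mul_comm]
    have g3 : (l w * l1 u) • m a b1 = (l1 u * l w) • m a b1 := by rw [mul_comm]
    have g4 : (l w * l2 u) • m a b2 = (l2 u * l w) • m a b2 := by rw [mul_comm]
    simp only [g1, g2, g3, g4]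
    symm
    calc _ = (m u w + m u w) + (m u w + m u w) + (l w • m u b1 + l w • m u b1) + (l w • m u b2 + l w • m u b2)
          + (l1 u • m a w + l1 u • m a w) + (l2 u • m a w + l2 u • m a w)
          + ((l1 u * l w) • m a b1 + (l1 u * l w) • m a b1) + ((l2 u * l w) • m a b2 + (l2 u * l w) • m a b2)
          + ((l2 u * l w) • m a b1 + (l1 u * l w) • m a b2) := by abel
      _ = (l2 u * l w) • m a b1 + (l1 u * l w) • m a b2 := by rw [f1, f2, f3, f4, f5, f6, f7]; simp
  obtain ⟨w0, hw0⟩ := exists_one hc'.v1.l0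
  have k2 : ∀ u, l2 u • m a b1 + l1 u • m a b2 = 0 := by
    intro u
    have h1 := k1 u w0
    rw [hw0, one_smul, map_smul, map_smul] at h1
    exact h1
  have k3 : m a b1 = 0 := by
    by_contra hn
    apply hne
    refine smul_of_ker_le hc.v1.l0 fun u hu => ?_
    have h1 := k2 u
    rw [hu, zero_smul, add_zero] at h1
    exact (smul_eq_zero.1 h1).resolve_right hn
  have k4 : m a b2 = 0 := by
    obtain ⟨u, hu⟩ := exists_one hc.v1.l0
    have h1 := k2 u
    rw [k3, smul_zero, zero_add, hu, one_smul] at h1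
    exact h1
  -- step 3: the kernel of `l` is spanned by `b1`, `b2`
  have k5 : ∀ w, l w = 0 → m a w = 0 := by
    intro w hw
    have hsp : w ∈ Submodule.span F ({b1, b2} : Set U') := by
      have hli : LinearIndependent F ![b1, b2] := by
        rw [LinearIndependent.pair_iff' hc'.v1.a0]
        exact fun c hcc => hne' ⟨c, hcc.symm⟩
      have hle : Submodule.span F ({b1, b2} : Set U') ≤ LinearMap.ker l := by
        rw [Submodule.span_le]
        rintro z (rfl | rfl)
        · exact hc'.v1.la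
        · exact hc'.v2.la
      have hd : finrank F (Submodule.span F ({b1, b2} : Set U')) = 2 := by
        have h1 := finrank_span_eq_card hli
        rw [Fintype.card_fin, Matrix.range_cons, Matrix.range_cons, Matrix.range_empty, Set.union_empty,
          Set.singleton_union] at h1
        exact h1
      have hk : finrank F (LinearMap.ker l) ≤ 2 := by
        have h1 := LinearMap.finrank_range_add_finrank_ker l
        rw [M'.dim] at h1
        have h2 : 0 < finrank F (LinearMap.range l) := by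
          rw [Module.finrank_pos_iff_exists_ne_zero]
          exact ⟨⟨l w0, w0, rfl⟩, fun he => one_ne_zero (hw0.symm.trans (congrArg Subtype.val he))⟩
        omega
      rw [Submodule.eq_of_le_of_finrank_le hle (by rw [hd]; exact hk)]
      exact hw
    obtain ⟨c1, c2, rfl⟩ := Submodule.mem_span_pair.1 hsp
    rw [map_add, map_smul, map_smul, k3, k4, smul_zero, smul_zero, add_zero]
  obtain ⟨q, hq⟩ : ∃ q, q = m a w0 := ⟨_, rfl⟩
  have k6 : ∀ w, m a w = l w • q := by
    intro w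
    have h1 := k5 (w - l w • w0) (by rw [map_sub, map_smul, hw0, smul_eq_mul, mul_one, sub_self])
    rw [map_sub, map_smul, ← hq, sub_eq_zero] at h1
    exact h1
  -- step 4
  by_cases hq0 : q = 0
  · rcases M.stable (W := LinearMap.ker m) (by
      intro b u hu
      rw [LinearMap.mem_ker] at hu ⊢
      apply LinearMap.ext
      intro w
      have h1 := hm b u (ρ' b⁻¹ w)
      rw [hu, ← rho_mul, mul_inv_cancel, rho_one, LinearMap.zero_apply, map_zero] at h1
      rw [← h1, LinearMap.zero_apply]) with h1 | h1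
    · exfalso
      have h2 : a ∈ LinearMap.ker m := by
        rw [LinearMap.mem_ker]
        apply LinearMap.ext
        intro w
        rw [k6, hq0, smul_zero, LinearMap.zero_apply]
      rw [h1] at h2
      exact hc.v1.a0 ((Submodule.mem_bot F).1 h2)
    · exact LinearMap.ker_eq_top.1 h1
  exfalso
  -- step 5: the stabilizer of the pair
  have A1 : ∀ n, Pr (π n) → ∃ c : F, ρ n a = c • a := by
    intro n hn
    have he := conj_E0 (π n) hn (e := a1) (by decide)
    have he1 : π n * a1 * (π n)⁻¹ ≠ 1 := by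
      intro h0
      have : a1 = 1 := by
        have h1 : a1 = (π n)⁻¹ * (π n * a1 * (π n)⁻¹) * π n := by group
        rw [h1, h0]
        group
      exact absurd this (by decide)
    obtain ⟨l', hl'⟩ := cc_all h M hc he he1
    -- the centre of the conjugate
    obtain ⟨u, hu⟩ := exists_one hc.v1.l0
    have h1 := push (h := h) (ρ := ρ) (a := a1) (by decide) n u
    rw [hc.v1.eq, hu, one_smul, map_add, hl'.eq] at h1
    exact ⟨l' (ρ n u), add_left_cancel h1⟩
  have L1 : ∀ n, Pr (π n) → ∀ w, l w = 0 → l (ρ' n w) = 0 := by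
    intro n hn w hw
    have he := conj_E0 (π n) hn (e := a1) (by decide)
    have he1 : π n * a1 * (π n)⁻¹ ≠ 1 := by
      intro h0
      have : a1 = 1 := by
        have h1 : a1 = (π n)⁻¹ * (π n * a1 * (π n)⁻¹) * π n := by group
        rw [h1, h0]
        group
      exact absurd this (by decide)
    obtain ⟨b', hb'⟩ := ca_all h M' hc' he he1
    have h1 := push (h := h) (ρ := ρ') (a := a1) (by decide) n w
    rw [hc'.v1.eq, hw, zero_smul, add_zero, hb'.eq] at h1
    have h2 : l (ρ' n w) • b' = 0 := by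
      have h3 : ρ' n w + 0 = ρ' n w + l (ρ' n w) • b' := by rw [add_zero]; exact h1
      exact (add_left_cancel h3).symm
    exact (smul_eq_zero.1 h2).resolve_right hb'.a0
  have Q1 : ∀ n, Pr (π n) → ∃ c : F, ρ'' n q = c • q := by
    intro n hn
    obtain ⟨c, hcc⟩ := A1 n hn
    refine ⟨c * l (ρ' n w0), ?_⟩
    have h1 := hm n a w0
    rw [← hq, hcc, map_smul, LinearMap.smul_apply, k6, smul_smul] at h1
    exact h1
  -- the involution `g1`
  obtain ⟨g, hg⟩ : ∃ g, g = h.s g1 := ⟨_, rfl⟩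
  have hgg : ∀ w, ρ' g (ρ' g w) = w := by
    intro w
    rw [hg]
    exact inv_inv h (by decide) w
  have R0 : ∀ w, m (ρ g a) w = l (ρ' g w) • ρ'' g q := by
    intro w
    have h1 := hm g a (ρ' g w)
    rw [hgg, k6, map_smul] at h1
    exact h1.symm
  have R1 : ∀ (t : P) (b : U') (l' : U →ₗ[F] F), Tv (ρ t) a l' → Tv (ρ' t) b l → (∀ w, ρ' t (ρ' t w) = w) → ∀ w,
      (l (ρ' g w) + l w * l (ρ' g b)) • ρ'' t (ρ'' g q) = l (ρ' g w) • ρ'' g q + (l' (ρ g a) * l w) • q := by
    intro t b l' v v' htt w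
    have h1 := hm t (ρ g a) (ρ' t w)
    rw [htt, v.eq, map_add, map_smul, LinearMap.add_apply, LinearMap.smul_apply, R0, R0, k6, v'.eq, map_add, map_add,
      map_smul (ρ' g), map_smul l, smul_eq_mul, smul_smul, map_smul] at h1
    exact h1
  by_cases hL : ∀ w, l w = 0 → l (ρ' g w) = 0
  · -- the axis is stable
    have h1 := gen_all h (C := fun b => ∀ w, l w = 0 → l (ρ' b w) = 0) (fun b b' hb hb' w hw => by
      rw [rho_mul]
      exact hb _ (hb' w hw)) L1 (by rw [← hg]; exact hL)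
    rcases M'.stable (W := LinearMap.ker l) (fun b w hw => h1 b w hw) with h2 | h2
    · have h3 : b1 ∈ LinearMap.ker l := hc'.v1.la
      rw [h2] at h3
      exact hc'.v1.a0 ((Submodule.mem_bot F).1 h3)
    · exact hc'.v1.l0 (LinearMap.ker_eq_top.1 h2)
  push Not at hL
  obtain ⟨y0, hy0, hy1⟩ := hL
  have R2 : ∀ (t : P) (b : U') (l' : U →ₗ[F] F), Tv (ρ t) a l' → Tv (ρ' t) b l → (∀ w, ρ' t (ρ' t w) = w) →
      l' (ρ g a) ≠ 0 → ∃ c : F, ρ'' g q = c • q := by
    intro t b l' v v' htt hne0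
    have h1 := R1 t b l' v v' htt y0
    rw [hy0, zero_mul, add_zero, mul_zero, zero_smul, add_zero] at h1
    have h2 : ρ'' t (ρ'' g q) = ρ'' g q := smul_right_injective _ hy1 h1
    have h3 := R1 t b l' v v' htt w0
    rw [h2, hw0, one_mul, mul_one, add_smul] at h3
    have h4 := add_left_cancel h3
    have h5 : l (ρ' g b) ≠ 0 := by
      intro h0
      rw [h0, zero_smul] at h4
      exact hne0 ((smul_eq_zero.1 h4.symm).resolve_right hq0)
    refine ⟨(l (ρ' g b))⁻¹ * l' (ρ g a), ?_⟩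
    rw [mul_smul, ← h4, smul_smul, inv_mul_cancel₀ h5, one_smul]
  by_cases h12 : l1 (ρ g a) = 0 ∧ l2 (ρ g a) = 0
  · -- the centre is stable
    have hgA : ∃ c : F, ρ g a = c • a := by
      by_contra hn
      apply hne
      -- two independent vectors in both kernels
      have hli : LinearIndependent F ![a, ρ g a] := by
        rw [LinearIndependent.pair_iff' hc.v1.a0]
        exact fun c hcc => hn ⟨c, hcc.symm⟩
      have hd : finrank F (Submodule.span F ({a, ρ g a} : Set U)) = 2 := by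
        have h1 := finrank_span_eq_card hli
        rw [Fintype.card_fin, Matrix.range_cons, Matrix.range_cons, Matrix.range_empty, Set.union_empty,
          Set.singleton_union] at h1
        exact h1
      have hle1 : Submodule.span F ({a, ρ g a} : Set U) ≤ LinearMap.ker l1 := by
        rw [Submodule.span_le]
        rintro z (rfl | rfl)
        · exact hc.v1.la
        · exact h12.1
      have hle2 : Submodule.span F ({a, ρ g a} : Set U) ≤ LinearMap.ker l2 := by
        rw [Submodule.span_le]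
        rintro z (rfl | rfl)
        · exact hc.v2.la
        · exact h12.2
      have hk : finrank F (LinearMap.ker l1) ≤ 2 := by
        obtain ⟨u0, hu0⟩ := exists_one hc.v1.l0
        have h1 := LinearMap.finrank_range_add_finrank_ker l1
        rw [M.dim] at h1
        have h2 : 0 < finrank F (LinearMap.range l1) := by
          rw [Module.finrank_pos_iff_exists_ne_zero]
          exact ⟨⟨l1 u0, u0, rfl⟩, fun he => one_ne_zero (hu0.symm.trans (congrArg Subtype.val he))⟩
        omega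
      have he := Submodule.eq_of_le_of_finrank_le hle1 (by rw [hd]; exact hk)
      refine smul_of_ker_le hc.v1.l0 fun u hu => ?_
      have h3 : u ∈ LinearMap.ker l1 := hu
      rw [← he] at h3
      exact hle2 h3
    have h1 := gen_all h (C := fun b => ∃ c : F, ρ b a = c • a) (fun b b' hb hb' => by
      obtain ⟨c, hcc⟩ := hb
      obtain ⟨c', hcc'⟩ := hb'
      exact ⟨c' * c, by rw [rho_mul, hcc', map_smul, hcc, smul_smul]⟩) A1 (by rw [← hg]; exact hgA)
    rcases M.stable (W := Submodule.span F {a}) (fun b w hw => by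
      obtain ⟨c, rfl⟩ := Submodule.mem_span_singleton.1 hw
      obtain ⟨d, hd⟩ := h1 b
      rw [map_smul, hd, smul_smul]
      exact Submodule.mem_span_singleton.2 ⟨_, rfl⟩) with h2 | h2
    · exact hc.v1.a0 (Submodule.span_singleton_eq_bot.1 h2)
    · have h3 := finrank_span_singleton (K := F) hc.v1.a0
      rw [h2, finrank_top, M.dim] at h3
      omega
  · -- the line of `q` is stable
    have hgQ : ∃ c : F, ρ'' g q = c • q := by
      by_cases h0 : l1 (ρ g a) = 0
      · exact R2 _ _ _ hc.v2 hc'.v2 (inv_inv h (by decide)) fun h' => h12 ⟨h0, h'⟩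
      · exact R2 _ _ _ hc.v1 hc'.v1 (inv_inv h (by decide)) h0
    have h1 := gen_all h (C := fun b => ∃ c : F, ρ'' b q = c • q) (fun b b' hb hb' => by
      obtain ⟨c, hcc⟩ := hb
      obtain ⟨c', hcc'⟩ := hb'
      exact ⟨c' * c, by rw [rho_mul, hcc', map_smul, hcc, smul_smul]⟩) Q1 (by rw [← hg]; exact hgQ)
    rcases M''.stable (W := Submodule.span F {q}) (fun b w hw => by
      obtain ⟨c, rfl⟩ := Submodule.mem_span_singleton.1 hw
      obtain ⟨d, hd⟩ := h1 b
      rw [map_smul, hd, smul_smul]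
      exact Submodule.mem_span_singleton.2 ⟨_, rfl⟩) with h2 | h2
    · exact hq0 (Submodule.span_singleton_eq_bot.1 h2)
    · have h3 := finrank_span_singleton (K := F) hq0
      rw [h2, finrank_top, M''.dim] at h3
      omega

/-! #### quotients, duals, tensor products -/

/-- the representation on a quotient -/
noncomputable def quo (ρ : Representation F P U) (S : Submodule F U) (hS : ∀ b, ∀ s ∈ S, ρ b s ∈ S) :
    Representation F P (U ⧸ S) where
  toFun b := S.mapQ S (ρ b) (hS b)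
  map_one' := by
    apply LinearMap.ext
    intro u
    obtain ⟨u, rfl⟩ := S.mkQ_surjective u
    show S.mkQ (ρ 1 u) = S.mkQ u
    rw [rho_one]
  map_mul' b b' := by
    apply LinearMap.ext
    intro u
    obtain ⟨u, rfl⟩ := S.mkQ_surjective u
    show S.mkQ (ρ (b * b') u) = S.mkQ (ρ b (ρ b' u))
    rw [rho_mul]

theorem quo_mk (S : Submodule F U) (hS : ∀ b, ∀ s ∈ S, ρ b s ∈ S) (b : P) (u : U) :
    quo ρ S hS b (S.mkQ u) = S.mkQ (ρ b u) := rfl

/-- the representation on a stable subspace -/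
noncomputable def sub (ρ : Representation F P U) (S : Submodule F U) (hS : ∀ b, ∀ s ∈ S, ρ b s ∈ S) :
    Representation F P S where
  toFun b := (ρ b).restrict (hS b)
  map_one' := LinearMap.ext fun u => Subtype.ext (rho_one (ρ := ρ) (u : U))
  map_mul' b b' := LinearMap.ext fun u => Subtype.ext (rho_mul (ρ := ρ) b b' (u : U))

theorem sub_coe (S : Submodule F U) (hS : ∀ b, ∀ s ∈ S, ρ b s ∈ S) (b : P) (u : S) :
    ((sub ρ S hS b u : S) : U) = ρ b u := rfl

theorem XY.quo (T : XY π ρ x y ω) (S : Submodule F U) (hS : ∀ b, ∀ s ∈ S, ρ b s ∈ S) : XY π (quo ρ S hS) x y ω := by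
  refine ⟨T.hx, T.hy, fun u => ?_, T.ne, T.cube⟩
  obtain ⟨u, rfl⟩ := S.mkQ_surjective u
  rw [quo_mk, quo_mk, quo_mk, quo_mk, T.comm, map_smul]

theorem XY.sub (T : XY π ρ x y ω) (S : Submodule F U) (hS : ∀ b, ∀ s ∈ S, ρ b s ∈ S) : XY π (sub ρ S hS) x y ω :=
  ⟨T.hx, T.hy, fun u => Subtype.ext (T.comm u), T.ne, T.cube⟩

theorem dual_eq (b : P) (f : Module.Dual F U) (u : U) : ρ.dual b f u = f (ρ b⁻¹ u) := rfl

theorem XY.dual (T : XY π ρ x y ω) : XY π ρ.dual x y ω⁻¹ := by
  refine ⟨T.hx, T.hy, fun f => ?_, inv_ne_one.2 T.ne, by rw [inv_pow, T.cube, inv_one]⟩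
  apply LinearMap.ext
  intro u
  rw [LinearMap.smul_apply, dual_eq, dual_eq, dual_eq, dual_eq]
  -- `y⁻¹ x⁻¹ = ω⁻¹ x⁻¹ y⁻¹`
  have h1 := T.comm (ρ x⁻¹ (ρ y⁻¹ u))
  have e1 : ρ x (ρ x⁻¹ (ρ y⁻¹ u)) = ρ y⁻¹ u := by rw [← rho_mul, mul_inv_cancel, rho_one]
  rw [e1, ← rho_mul y y⁻¹, mul_inv_cancel, rho_one] at h1
  have h2 : ρ y (ρ x⁻¹ (ρ y⁻¹ u)) = ω • ρ x⁻¹ u := by
    have h3 := congrArg (ρ x⁻¹) h1
    rw [← rho_mul, inv_mul_cancel, rho_one, map_smul] at h3
    exact h3
  have h3 := congrArg (ρ y⁻¹) h2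
  rw [← rho_mul, inv_mul_cancel, rho_one, map_smul] at h3
  rw [h3, map_smul, smul_smul, inv_mul_cancel₀ T.ne_zero, one_smul]

theorem XY.tprod {ω' : F} (T : XY π ρ x y ω) (T' : XY π ρ' x y ω') (hne : ω * ω' ≠ 1) :
    XY π (ρ.tprod ρ') x y (ω * ω') := by
  refine ⟨T.hx, T.hy, fun u => ?_, hne, by rw [mul_pow, T.cube, T'.cube, one_mul]⟩
  induction u using TensorProduct.induction_on with
  | zero => simp only [map_zero, smul_zero]
  | tmul u u' =>
    rw [Representation.tprod_apply, Representation.tprod_apply, TensorProduct.map_tmul, TensorProduct.map_tmul,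
      TensorProduct.map_tmul, TensorProduct.map_tmul, T.comm, T'.comm, TensorProduct.smul_tmul_smul]
  | add u u' h1 h2 => rw [map_add, map_add, h1, h2, map_add, map_add, smul_add]

theorem Tri.quo (T : XY π ρ x y ω) (hk : ∀ z, π z = 1 → ∃ c : F, ∀ u, ρ z u = c • u) (S : Submodule F U)
    (hS : ∀ b, ∀ s ∈ S, ρ b s ∈ S) (h3 : finrank F (U ⧸ S) = 3) : Tri π (Hexa.quo ρ S hS) x y ω := by
  refine ⟨T.quo S hS, h3, fun z hz => ?_⟩
  obtain ⟨c, hc⟩ := hk z hz
  refine ⟨c, fun u => ?_⟩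
  obtain ⟨u, rfl⟩ := S.mkQ_surjective u
  rw [quo_mk, hc, map_smul]

theorem Tri.sub (T : XY π ρ x y ω) (hk : ∀ z, π z = 1 → ∃ c : F, ∀ u, ρ z u = c • u) (S : Submodule F U)
    (hS : ∀ b, ∀ s ∈ S, ρ b s ∈ S) (h3 : finrank F S = 3) : Tri π (Hexa.sub ρ S hS) x y ω := by
  refine ⟨T.sub S hS, h3, fun z hz => ?_⟩
  obtain ⟨c, hc⟩ := hk z hz
  exact ⟨c, fun u => Subtype.ext (hc u)⟩

theorem Tri.dual (M : Tri π ρ x y ω) : Tri π ρ.dual x y ω⁻¹ := by
  refine ⟨M.T.dual, by rw [Subspace.dual_finrank_eq, M.dim], fun z hz => ?_⟩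
  obtain ⟨c, hc⟩ := M.ker z⁻¹ (by rw [map_inv, hz, inv_one])
  refine ⟨c, fun f => LinearMap.ext fun u => ?_⟩
  rw [dual_eq, hc, map_smul, LinearMap.smul_apply]

theorem Tv.dual (h : Ext π) {e : A6} (he : e * e = 1) {a : U} {l : U →ₗ[F] F} (v : Tv (ρ (h.s e)) a l) :
    Tv (ρ.dual (h.s e)) (l : Module.Dual F U) (Module.Dual.eval F U a) := by
  refine ⟨v.l0, ?_, v.la, fun f => LinearMap.ext fun u => ?_⟩
  · intro h0
    apply v.a0
    rw [← Module.forall_dual_apply_eq_zero_iff F]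
    intro f
    exact LinearMap.congr_fun h0 f
  · rw [dual_eq, inv_eq_of_mul_eq_one_left (h.s_spec he).2, v.eq, map_add, map_smul, LinearMap.add_apply,
      LinearMap.smul_apply, smul_eq_mul, smul_eq_mul, mul_comm]
    rfl

theorem Cc.dual (h : Ext π) {a : U} {l1 l2 : U →ₗ[F] F} (hc : Cc (ρ (h.s a1)) (ρ (h.s a2)) a l1 l2) :
    Ca (ρ.dual (h.s a1)) (ρ.dual (h.s a2)) (Module.Dual.eval F U a) (l1 : Module.Dual F U) l2 :=
  ⟨Tv.dual h (by decide) hc.v1, Tv.dual h (by decide) hc.v2⟩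

theorem Ca.dual (h : Ext π) {l : U →ₗ[F] F} {b1 b2 : U} (hc : Ca (ρ (h.s a1)) (ρ (h.s a2)) l b1 b2) :
    Cc (ρ.dual (h.s a1)) (ρ.dual (h.s a2)) (l : Module.Dual F U) (Module.Dual.eval F U b1)
      (Module.Dual.eval F U b2) :=
  ⟨Tv.dual h (by decide) hc.v1, Tv.dual h (by decide) hc.v2⟩

/-- **the tensor product of two modules of different types is irreducible** -/
theorem prod_irr (h : Ext π) (M : Tri π ρ x y ω) (M' : Tri π ρ' x y ω') (hne : ω * ω' ≠ 1)
    {a : U} {l1 l2 : U →ₗ[F] F} (hc : Cc (ρ (h.s a1)) (ρ (h.s a2)) a l1 l2)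
    {l : U' →ₗ[F] F} {b1 b2 : U'} (hc' : Ca (ρ' (h.s a1)) (ρ' (h.s a2)) l b1 b2)
    (S : Submodule F (TensorProduct F U U')) (hS : ∀ b, ∀ s ∈ S, (ρ.tprod ρ') b s ∈ S) : S = ⊥ ∨ S = ⊤ := by
  have T := M.T.tprod M'.T hne
  have hk : ∀ z, π z = 1 → ∃ c : F, ∀ u, (ρ.tprod ρ') z u = c • u := by
    intro z hz
    obtain ⟨c, hc⟩ := M.ker z hz
    obtain ⟨c', hc'⟩ := M'.ker z hz
    refine ⟨c * c', fun u => ?_⟩
    induction u using TensorProduct.induction_on with
    | zero => simp only [map_zero, smul_zero]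
    | tmul u u' => rw [Representation.tprod_apply, TensorProduct.map_tmul, hc, hc', TensorProduct.smul_tmul_smul]
    | add u u' h1 h2 => rw [map_add, h1, h2, smul_add]
  have hd : finrank F (TensorProduct F U U') = 9 := by rw [Module.finrank_tensorProduct, M.dim, M'.dim]
  obtain ⟨k, hk3⟩ := T.three_dvd S hS
  have hle := Submodule.finrank_le S
  rw [hd] at hle
  have hcase : k = 0 ∨ k = 1 ∨ k = 2 ∨ k = 3 := by omega
  rcases hcase with rfl | rfl | rfl | rfl
  · exact Or.inl (Submodule.finrank_eq_zero.1 (by omega))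
  · -- dimension 3: duals
    left
    have MS := (Tri.sub T hk S hS hk3).dual
    let m : Module.Dual F U' →ₗ[F] Module.Dual F U →ₗ[F] Module.Dual F S :=
      LinearMap.mk₂ F (fun g f => (TensorProduct.dualDistrib F U U' (f ⊗ₜ[F] g)) ∘ₗ S.subtype)
        (fun g g' f => by rw [TensorProduct.tmul_add, map_add, LinearMap.add_comp])
        (fun c g f => by rw [TensorProduct.tmul_smul, map_smul, LinearMap.smul_comp])
        (fun g f f' => by rw [TensorProduct.add_tmul, map_add, LinearMap.add_comp])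
        (fun c g f => by rw [← TensorProduct.smul_tmul', map_smul, LinearMap.smul_comp])
    have hmm : ∀ g f (s : S), m g f s = TensorProduct.dualDistrib F U U' (f ⊗ₜ[F] g) s := fun _ _ _ => rfl
    have key : ∀ b (f : Module.Dual F U) (g : Module.Dual F U') (s : TensorProduct F U U'),
        TensorProduct.dualDistrib F U U' (f ⊗ₜ[F] g) ((ρ.tprod ρ') b⁻¹ s) =
          TensorProduct.dualDistrib F U U' (ρ.dual b f ⊗ₜ[F] ρ'.dual b g) s := by
      intro b f g s
      induction s using TensorProduct.induction_on with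
      | zero => simp only [map_zero]
      | tmul u u' => rfl
      | add u u' h1 h2 => rw [map_add, map_add, h1, h2, map_add]
    have h0 := prod_zero h M'.dual M.dual MS (hc'.dual h) (hc.dual h) m (by
      intro b g f
      apply LinearMap.ext
      intro s
      rw [dual_eq, hmm, hmm, sub_coe, key])
    rw [eq_bot_iff]
    intro s hs
    rw [Submodule.mem_bot]
    have h4 : ∀ t : TensorProduct F (Module.Dual F U) (Module.Dual F U'), TensorProduct.dualDistrib F U U' t s = 0 := by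
      intro t
      induction t using TensorProduct.induction_on with
      | zero => rw [map_zero, LinearMap.zero_apply]
      | tmul f g =>
        have h5 := hmm g f ⟨s, hs⟩
        rw [h0] at h5
        exact h5.symm
      | add t t' h1 h2 => rw [map_add, LinearMap.add_apply, h1, h2, add_zero]
    rw [← Module.forall_dual_apply_eq_zero_iff F]
    intro f
    have h5 := h4 ((TensorProduct.dualDistribEquiv F U U').symm f)
    have h6 : TensorProduct.dualDistrib F U U' ((TensorProduct.dualDistribEquiv F U U').symm f) = f :=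
      (TensorProduct.dualDistribEquiv F U U').apply_symm_apply f
    rwa [h6] at h5
  · -- dimension 6: the quotient
    exfalso
    have h6 : finrank F (TensorProduct F U U' ⧸ S) = 3 := by
      have := Submodule.finrank_quotient_add_finrank S
      omega
    have MQ := Tri.quo T hk S hS h6
    have h0 := prod_zero h M M' MQ hc hc' ((TensorProduct.mk F U U').compr₂ S.mkQ) (by
      intro b u w
      rw [LinearMap.compr₂_apply, LinearMap.compr₂_apply, quo_mk]
      rfl)
    have h1 : S.mkQ = 0 := by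
      apply TensorProduct.ext
      exact h0
    have h2 : S = ⊤ := by
      rw [← Submodule.ker_mkQ S, h1, LinearMap.ker_zero]
    rw [h2, finrank_top, hd] at hk3
    omega
  · exact Or.inr (Submodule.eq_top_of_finrank_eq (by rw [hd]; omega))

end prod

end Cfsg.Agent.H906.E6.Hexa
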