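import Mathlib
import Cfsg.Agent.H163.E6.Bgrp
import Cfsg.Agent.H944.E6Tab
import Cfsg.Agent.H200.E6Two
import Cfsg.Agent.H882.E6Five
import Cfsg.Agent.H882.E6Thirty
import Cfsg.Agent.H952.F4.Scott
import Cfsg.Agent.H952.F4.Gen

/-!
# S5927, S5928, `p = 2`, three-fold cover of `A₆`: a stable subspace of dimension 3 (helper906)

Abstract part (`Hexa`): `P → A₆` a central extension with kernel of exponent 3, `v` a vector whose line is stable
under the stabilizer of the point `5`. Then there is a stable subspace of dimension 3 (the hexacode, or the span of the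
six lines).

`SixC.exists_three`: for a three-fold cover `Cover φ ω` in characteristic 2, a stable subspace of dimension three in one of
the two 27-dimensional modules.
-/

set_option autoImplicit false


namespace Cfsg.Agent.H906.E6.Hexa

open Module Equiv

/-- the alternating group -/
abbrev A6 := ↥(alternatingGroup (Fin 6))

def mk (σ : Perm (Fin 6)) (h : Perm.sign σ = 1) : A6 := ⟨σ, Perm.mem_alternatingGroup.2 h⟩

def a1 : A6 := mk (swap 0 1 * swap 2 3) (by decide)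
def a2 : A6 := mk (swap 0 2 * swap 1 3) (by decide)
def a3 : A6 := mk (swap 0 3 * swap 1 2) (by decide)
def g1 : A6 := mk (swap 0 1 * swap 3 4) (by decide)
def g2 : A6 := mk (swap 2 4 * swap 3 5) (by decide)
def e0 : A6 := mk (swap 0 4 * swap 1 2) (by decide)
def e1 : A6 := mk (swap 1 4 * swap 0 2) (by decide)
def e2 : A6 := mk (swap 2 4 * swap 0 1) (by decide)
def h1 : A6 := mk (swap 0 1 * swap 4 5) (by decide)
def h2 : A6 := mk (swap 0 4 * swap 1 5) (by decide)
def h3 : A6 := mk (swap 0 5 * swap 1 4) (by decide)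
/-- `(0 1 2)` -/
def tx : A6 := mk (swap 0 1 * swap 1 2) (by decide)
/-- `(3 4 5)` -/
def ty : A6 := mk (swap 3 4 * swap 4 5) (by decide)

/-- the Klein group on `{0, 1, 2, 3}` -/
def E0 : Finset A6 := {1, a1, a2, a3}

theorem four_aux : ∀ σ : Perm (Fin 6), σ 4 = 4 → σ 5 = 5 → (∀ i, σ (σ i) = i) → Perm.sign σ = 1 →
    σ = 1 ∨ σ = swap 0 1 * swap 2 3 ∨ σ = swap 0 2 * swap 1 3 ∨ σ = swap 0 3 * swap 1 2 := by decide +kernel

theorem mem_E0 (a : A6) : a ∈ E0 ↔ a * a = 1 ∧ (a : Perm (Fin 6)) 4 = 4 ∧ (a : Perm (Fin 6)) 5 = 5 := by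
  constructor
  · intro h
    simp only [E0, Finset.mem_insert, Finset.mem_singleton] at h
    rcases h with rfl | rfl | rfl | rfl <;> decide
  · rintro ⟨h1, h4, h5⟩
    have h2 : ∀ i, (a : Perm (Fin 6)) ((a : Perm (Fin 6)) i) = i := by
      intro i
      have := congrArg (fun b : A6 => (b : Perm (Fin 6)) i) h1
      exact this
    have h6 := four_aux a h4 h5 h2 (Perm.mem_alternatingGroup.1 a.2)
    simp only [E0, Finset.mem_insert, Finset.mem_singleton]
    rcases h6 with h6 | h6 | h6 | h6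
    · exact Or.inl (Subtype.ext h6)
    · exact Or.inr (Or.inl (Subtype.ext h6))
    · exact Or.inr (Or.inr (Or.inl (Subtype.ext h6)))
    · exact Or.inr (Or.inr (Or.inr (Subtype.ext h6)))

theorem E0_closed : ∀ a ∈ E0, ∀ b ∈ E0, a * b = b * a ∧ a * b ∈ E0 := by decide +kernel

/-- stabilizer of the pair `{4, 5}` -/
def Pr (a : A6) : Prop := ((a : Perm (Fin 6)) 4 = 4 ∧ (a : Perm (Fin 6)) 5 = 5) ∨
  ((a : Perm (Fin 6)) 4 = 5 ∧ (a : Perm (Fin 6)) 5 = 4)

instance (a : A6) : Decidable (Pr a) := by unfold Pr; infer_instance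

/-- representatives of the pairs -/
def ns : List A6 := [1, a1, a2, a3, mk (swap 4 5 * swap 0 1) (by decide), mk (swap 4 5 * swap 0 3) (by decide),
  mk (swap 4 5 * swap 1 3) (by decide), mk (swap 4 5 * swap 2 3) (by decide),
  mk (swap 0 1 * swap 1 3) (by decide), mk (swap 0 1 * swap 0 3) (by decide), mk (swap 0 1 * swap 1 2) (by decide),
  mk (swap 0 1 * swap 0 2) (by decide)]

theorem pairs : ∀ p q : Fin 6, p ≠ q → ∃ n ∈ ns, Pr n ∧ ∃ k ∈ ([1, g1, g2] : List A6),
    (((n * k : A6)⁻¹ : A6) : Perm (Fin 6)) p = 4 ∧ (((n * k : A6)⁻¹ : A6) : Perm (Fin 6)) q = 5 ∨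
    (((n * k : A6)⁻¹ : A6) : Perm (Fin 6)) p = 5 ∧ (((n * k : A6)⁻¹ : A6) : Perm (Fin 6)) q = 4 := by
  decide +kernel

/-! ### lifts of involutions -/

/-- a central extension with kernel of exponent 3 -/
structure Ext {P : Type*} [Group P] (π : P →* A6) : Prop where
  surj : Function.Surjective π
  cen : ∀ z, π z = 1 → ∀ b, b * z = z * b
  cube : ∀ z, π z = 1 → z ^ 3 = 1

section ext

variable {P : Type*} [Group P] {π : P →* A6}

theorem Ext.exists_sq (h : Ext π) {a : A6} (ha : a * a = 1) : ∃ b, π b = a ∧ b * b = 1 := by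
  obtain ⟨b, rfl⟩ := h.surj a
  have hz : π (b * b) = 1 := by rw [map_mul, ha]
  have h1 := h.cen _ hz b
  have h3 := h.cube _ hz
  refine ⟨b * (b * b), by rw [map_mul, map_mul, ha, mul_one], ?_⟩
  have h4 : b * (b * b) * (b * (b * b)) = (b * b) ^ 3 := by
    rw [pow_succ, pow_succ, pow_one]
    simp only [mul_assoc]
  rw [h4, h3]

theorem Ext.sq_unique (h : Ext π) {b b' : P} (hb : π b = π b') (h1 : b * b = 1) (h2 : b' * b' = 1) : b = b' := by
  obtain ⟨z, rfl⟩ : ∃ z, b' = b * z := ⟨b⁻¹ * b', by group⟩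
  have hz : π z = 1 := by
    rw [map_mul] at hb
    exact (mul_eq_left.1 hb.symm)
  have h3 := h.cen z hz b
  have h4 : z * z = 1 := by
    have h5 : b * z * (b * z) = b * b * (z * z) := by
      calc b * z * (b * z) = b * (z * b) * z := by simp only [mul_assoc]
        _ = b * (b * z) * z := by rw [h3]
        _ = b * b * (z * z) := by simp only [mul_assoc]
    rw [h5, h1, one_mul] at h2
    exact h2
  have h5 := h.cube z hz
  rw [pow_succ, pow_two, h4, one_mul] at h5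
  rw [h5, mul_one]

/-- the lift of order two -/
noncomputable def Ext.s (h : Ext π) (a : A6) : P := if ha : a * a = 1 then (h.exists_sq ha).choose else 1

theorem Ext.s_spec (h : Ext π) {a : A6} (ha : a * a = 1) : π (h.s a) = a ∧ h.s a * h.s a = 1 := by
  rw [Ext.s, dif_pos ha]
  exact (h.exists_sq ha).choose_spec

theorem Ext.s_one (h : Ext π) : h.s 1 = 1 := by
  have h1 := h.s_spec (one_mul (1 : A6))
  exact h.sq_unique (h1.1.trans (map_one π).symm) h1.2 (one_mul 1)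

theorem Ext.s_conj (h : Ext π) {a : A6} (ha : a * a = 1) (b : P) : b * h.s a * b⁻¹ = h.s (π b * a * (π b)⁻¹) := by
  have h1 := h.s_spec ha
  have ha' : π b * a * (π b)⁻¹ * (π b * a * (π b)⁻¹) = 1 := by
    have : π b * a * (π b)⁻¹ * (π b * a * (π b)⁻¹) = π b * (a * a) * (π b)⁻¹ := by group
    rw [this, ha]
    group
  have h2 := h.s_spec ha'
  refine h.sq_unique ?_ ?_ h2.2
  · rw [map_mul, map_mul, map_inv, h1.1, h2.1]
  · have : b * h.s a * b⁻¹ * (b * h.s a * b⁻¹) = b * (h.s a * h.s a) * b⁻¹ := by group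
    rw [this, h1.2]
    group

theorem Ext.s_mul (h : Ext π) {a a' : A6} (ha : a * a = 1) (ha' : a' * a' = 1) (hc : a * a' = a' * a) :
    h.s a * h.s a' = h.s (a * a') := by
  have h1 := h.s_spec ha
  have h1' := h.s_spec ha'
  have hcc : h.s a * h.s a' = h.s a' * h.s a := by
    have h2 := h.s_conj ha' (h.s a)
    rw [h1.1, hc, mul_inv_cancel_right] at h2
    rw [← mul_inv_eq_iff_eq_mul, h2]
  have haa : a * a' * (a * a') = 1 := by
    calc a * a' * (a * a') = a * (a' * a) * a' := by simp only [mul_assoc]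
      _ = a * (a * a') * a' := by rw [hc]
      _ = a * a * (a' * a') := by simp only [mul_assoc]
      _ = 1 := by rw [ha, ha', one_mul]
  have h2 := h.s_spec haa
  refine h.sq_unique (by rw [map_mul, h1.1, h1'.1, h2.1]) ?_ h2.2
  calc h.s a * h.s a' * (h.s a * h.s a') = h.s a * (h.s a' * h.s a) * h.s a' := by simp only [mul_assoc]
    _ = h.s a * (h.s a * h.s a') * h.s a' := by rw [hcc]
    _ = h.s a * h.s a * (h.s a' * h.s a') := by simp only [mul_assoc]
    _ = 1 := by rw [h1.2, h1'.2, one_mul]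

end ext

/-! ### the lines and the operator `N` -/

section main

variable {F : Type*} [Field F] [CharP F 2] {U : Type*} [AddCommGroup U] [Module F U] {P : Type*} [Group P]
  {π : P →* A6} {ρ : Representation F P U}

omit [CharP F 2] in
theorem rho_mul (b b' : P) (u : U) : ρ (b * b') u = ρ b (ρ b' u) := by rw [map_mul]; rfl

omit [CharP F 2] in
theorem rho_one (u : U) : ρ 1 u = u := by rw [map_one]; rfl

omit [CharP F 2] in
theorem rho_inj (b : P) {u w : U} (h : ρ b u = ρ b w) : u = w := by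
  have h1 := congrArg (ρ b⁻¹) h
  rwa [← rho_mul, ← rho_mul, inv_mul_cancel, rho_one, rho_one] at h1

/-- the situation -/
structure Six (h : Ext π) (ρ : Representation F P U) (vv : Fin 6 → U) : Prop where
  ne : ∀ i, vv i ≠ 0
  line : ∀ b i, ∃ c : F, ρ b (vv i) = c • vv ((π b : Perm (Fin 6)) i)

variable {h : Ext π} {vv : Fin 6 → U}

omit [CharP F 2] in
theorem Six.coef_ne (S : Six h ρ vv) {b : P} {i j : Fin 6} {c : F} (hc : ρ b (vv i) = c • vv j) : c ≠ 0 := by
  rintro rfl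
  rw [zero_smul] at hc
  exact S.ne i (rho_inj b (hc.trans (map_zero (ρ b)).symm))

theorem Six.fix (S : Six h ρ vv) {a : A6} (ha : a * a = 1) {i : Fin 6} (hi : (a : Perm (Fin 6)) i = i) :
    ρ (h.s a) (vv i) = vv i := by
  obtain ⟨c, hc⟩ := S.line (h.s a) i
  have h1 := h.s_spec ha
  rw [h1.1, hi] at hc
  have h2 : (c * c) • vv i = vv i := by
    rw [mul_smul, ← hc, ← map_smul, ← hc, ← rho_mul, h1.2, rho_one]
  have h3 : (c * c - 1) • vv i = 0 := by rw [sub_smul, h2, one_smul, sub_self]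
  have h4 : c * c - 1 = 0 := (smul_eq_zero.1 h3).resolve_right (S.ne i)
  have h5 : (c - 1) * (c - 1) = 0 := by
    have h6 : (2 : F) = 0 := CharTwo.two_eq_zero
    linear_combination h4 + (1 - c) * h6
  have h6 : c = 1 := sub_eq_zero.1 (mul_self_eq_zero.1 h5)
  rw [hc, h6, one_smul]

/-- the norm of the Klein group -/
noncomputable def Nm (h : Ext π) (ρ : Representation F P U) (u : U) : U := ∑ a ∈ E0, ρ (h.s a) u

omit [CharP F 2] in
theorem Nm_add (u w : U) : Nm h ρ (u + w) = Nm h ρ u + Nm h ρ w := by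
  rw [Nm, Nm, Nm, ← Finset.sum_add_distrib]
  exact Finset.sum_congr rfl fun a _ => map_add _ _ _

omit [CharP F 2] in
theorem Nm_smul (c : F) (u : U) : Nm h ρ (c • u) = c • Nm h ρ u := by
  rw [Nm, Nm, Finset.smul_sum]
  exact Finset.sum_congr rfl fun a _ => map_smul _ _ _

omit [CharP F 2] in
theorem Nm_eq (u : U) : Nm h ρ u = u + ρ (h.s a1) u + ρ (h.s a2) u + ρ (h.s a3) u := by
  rw [Nm, E0, Finset.sum_insert (by decide), Finset.sum_insert (by decide), Finset.sum_insert (by decide),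
    Finset.sum_singleton, h.s_one, rho_one]
  abel

omit [CharP F 2] in
theorem sq_of_mem {a : A6} (ha : a ∈ E0) : a * a = 1 := ((mem_E0 a).1 ha).1

omit [CharP F 2] in
/-- elements stabilizing the pair `{4, 5}` commute with the norm -/
theorem Nm_comm (b : P) (hb : Pr (π b)) (u : U) : Nm h ρ (ρ b u) = ρ b (Nm h ρ u) := by
  rw [Nm, Nm, map_sum]
  symm
  refine Finset.sum_bij (fun a _ => π b * a * (π b)⁻¹) ?_ ?_ ?_ ?_
  · intro a ha
    rw [mem_E0] at ha ⊢
    obtain ⟨h1, h4, h5⟩ := ha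
    refine ⟨?_, ?_, ?_⟩
    · have : π b * a * (π b)⁻¹ * (π b * a * (π b)⁻¹) = π b * (a * a) * (π b)⁻¹ := by group
      rw [this, h1]
      group
    · show (π b : Perm (Fin 6)) ((a : Perm (Fin 6)) ((π b : Perm (Fin 6))⁻¹ 4)) = 4
      rcases hb with ⟨h6, h7⟩ | ⟨h6, h7⟩
      · have h8 : (π b : Perm (Fin 6))⁻¹ 4 = 4 := by rw [Perm.inv_eq_iff_eq, h6]
        rw [h8, h4, h6]
      · have h8 : (π b : Perm (Fin 6))⁻¹ 4 = 5 := by rw [Perm.inv_eq_iff_eq, h7]
        rw [h8, h5, h7]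
    · show (π b : Perm (Fin 6)) ((a : Perm (Fin 6)) ((π b : Perm (Fin 6))⁻¹ 5)) = 5
      rcases hb with ⟨h6, h7⟩ | ⟨h6, h7⟩
      · have h8 : (π b : Perm (Fin 6))⁻¹ 5 = 5 := by rw [Perm.inv_eq_iff_eq, h7]
        rw [h8, h5, h7]
      · have h8 : (π b : Perm (Fin 6))⁻¹ 5 = 4 := by rw [Perm.inv_eq_iff_eq, h6]
        rw [h8, h4, h6]
  · intro a _ a' _ haa
    have := mul_right_cancel haa
    exact mul_left_cancel this
  · intro a ha
    refine ⟨(π b)⁻¹ * a * π b, ?_, by group⟩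
    rw [mem_E0] at ha ⊢
    obtain ⟨h1, h4, h5⟩ := ha
    refine ⟨?_, ?_, ?_⟩
    · have : (π b)⁻¹ * a * π b * ((π b)⁻¹ * a * π b) = (π b)⁻¹ * (a * a) * π b := by group
      rw [this, h1]
      group
    · show (π b : Perm (Fin 6))⁻¹ ((a : Perm (Fin 6)) ((π b : Perm (Fin 6)) 4)) = 4
      rw [Perm.inv_eq_iff_eq]
      rcases hb with ⟨h6, h7⟩ | ⟨h6, h7⟩
      · rw [h6, h4]
      · rw [h6, h5]
    · show (π b : Perm (Fin 6))⁻¹ ((a : Perm (Fin 6)) ((π b : Perm (Fin 6)) 5)) = 5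
      rw [Perm.inv_eq_iff_eq]
      rcases hb with ⟨h6, h7⟩ | ⟨h6, h7⟩
      · rw [h7, h5]
      · rw [h7, h4]
  · intro a ha
    rw [← h.s_conj (sq_of_mem ha) b, ← rho_mul, ← rho_mul, inv_mul_cancel_right]

omit [CharP F 2] in
/-- the norm absorbs the Klein group -/
theorem Nm_absorb {e : A6} (he : e ∈ E0) (u : U) : Nm h ρ (ρ (h.s e) u) = Nm h ρ u := by
  rw [Nm, Nm]
  refine Finset.sum_bij (fun a _ => a * e) ?_ ?_ ?_ ?_
  · exact fun a ha => (E0_closed a ha e he).2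
  · exact fun a _ a' _ haa => mul_right_cancel haa
  · intro a ha
    refine ⟨a * e, (E0_closed a ha e he).2, ?_⟩
    rw [mul_assoc, sq_of_mem he, mul_one]
  · intro a ha
    rw [← h.s_mul (sq_of_mem ha) (sq_of_mem he) (E0_closed a ha e he).1, rho_mul]

theorem add_self (F : Type*) [Field F] [CharP F 2] {U : Type*} [AddCommGroup U] [Module F U] (u : U) : u + u = 0 := by
  rw [← two_smul F, CharTwo.two_eq_zero, zero_smul]

theorem four_smul (F : Type*) [Field F] [CharP F 2] {U : Type*} [AddCommGroup U] [Module F U] (u : U) :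
    u + u + u + u = 0 := by
  rw [add_self F, zero_add, add_self F]

theorem Nm_Nm (u : U) : Nm h ρ (Nm h ρ u) = 0 := by
  rw [Nm_eq (ρ := ρ) u, Nm_add, Nm_add, Nm_add, Nm_absorb (by decide), Nm_absorb (by decide), Nm_absorb (by decide)]
  exact four_smul F _

/-- the lines outside the support -/
theorem Six.Nm_out (S : Six h ρ vv) {i : Fin 6} (hi : i = 4 ∨ i = 5) : Nm h ρ (vv i) = 0 := by
  have key : ∀ a ∈ E0, ρ (h.s a) (vv i) = vv i := by
    intro a ha
    have h1 := (mem_E0 a).1 ha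
    refine S.fix h1.1 ?_
    rcases hi with rfl | rfl
    · exact h1.2.1
    · exact h1.2.2
  rw [Nm_eq, key a1 (by decide), key a2 (by decide), key a3 (by decide)]
  exact four_smul F _

omit [CharP F 2] in
theorem trans_E0 : ∀ i j : Fin 6, i ≠ 4 → i ≠ 5 → j ≠ 4 → j ≠ 5 → ∃ e ∈ E0, (e : Perm (Fin 6)) j = i := by
  decide +kernel

omit [CharP F 2] in
/-- the lines of the support -/
theorem Six.Nm_in (S : Six h ρ vv) {i j : Fin 6} (hi4 : i ≠ 4) (hi5 : i ≠ 5) (hj4 : j ≠ 4) (hj5 : j ≠ 5) :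
    ∃ c : F, Nm h ρ (vv i) = c • Nm h ρ (vv j) := by
  obtain ⟨e, he, hei⟩ := trans_E0 i j hi4 hi5 hj4 hj5
  obtain ⟨c, hc⟩ := S.line (h.s e) j
  rw [(h.s_spec (sq_of_mem he)).1, hei] at hc
  have hc0 := S.coef_ne hc
  refine ⟨c⁻¹, ?_⟩
  rw [← Nm_absorb he (vv j), hc, Nm_smul, smul_smul, inv_mul_cancel₀ hc0, one_smul]

omit [CharP F 2] in
/-- an element past a lift -/
theorem push {a : A6} (ha : a * a = 1) (b : P) (u : U) :
    ρ b (ρ (h.s a) u) = ρ (h.s (π b * a * (π b)⁻¹)) (ρ b u) := by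
  rw [← h.s_conj ha b, ← rho_mul, ← rho_mul, inv_mul_cancel_right]

/-- second double coset -/
theorem Six.kill_two (S : Six h ρ vv) : Nm h ρ (ρ (h.s g2) (Nm h ρ (vv 0))) = 0 := by
  have hg2 : g2 * g2 = 1 := by decide
  have hk := (h.s_spec hg2).1
  have h0 : ρ (h.s g2) (vv 0) = vv 0 := S.fix hg2 (by decide)
  have e1 : g2 * a1 * g2⁻¹ = h1 := by decide +kernel
  have e2 : g2 * a2 * g2⁻¹ = h2 := by decide +kernel
  have e3 : g2 * a3 * g2⁻¹ = h3 := by decide +kernel
  rw [Nm_eq (ρ := ρ) (vv 0), map_add, map_add, map_add, push (a := a1) (by decide) (h.s g2) (vv 0),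
    push (a := a2) (by decide) (h.s g2) (vv 0), push (a := a3) (by decide) (h.s g2) (vv 0), hk, e1, e2, e3,
    h0, Nm_add, Nm_add, Nm_add]
  have k1 : Nm h ρ (ρ (h.s h1) (vv 0)) = Nm h ρ (vv 0) := by
    rw [← Nm_absorb (e := a1) (by decide) (ρ (h.s h1) (vv 0)), ← rho_mul, h.s_mul (by decide) (by decide) (by decide +kernel),
      S.fix (by decide +kernel) (by decide)]
  have k2 : Nm h ρ (ρ (h.s h2) (vv 0)) = 0 := by
    obtain ⟨c, hc⟩ := S.line (h.s h2) 0
    rw [(h.s_spec (a := h2) (by decide)).1, show (h2 : Perm (Fin 6)) 0 = 4 by decide] at hc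
    rw [hc, Nm_smul, S.Nm_out (Or.inl rfl), smul_zero]
  have k3 : Nm h ρ (ρ (h.s h3) (vv 0)) = 0 := by
    obtain ⟨c, hc⟩ := S.line (h.s h3) 0
    rw [(h.s_spec (a := h3) (by decide)).1, show (h3 : Perm (Fin 6)) 0 = 5 by decide] at hc
    rw [hc, Nm_smul, S.Nm_out (Or.inr rfl), smul_zero]
  rw [k1, k2, k3, add_zero, add_zero, add_self F]

/-- the commuting 3-elements -/
structure XY (π : P →* A6) (ρ : Representation F P U) (x y : P) (ω : F) : Prop where
  hx : π x = tx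
  hy : π y = ty
  comm : ∀ u, ρ x (ρ y u) = ω • ρ y (ρ x u)
  ne : ω ≠ 1
  cube : ω ^ 3 = 1

omit [CharP F 2] in
theorem XY.quad {x y : P} {ω : F} (T : XY π ρ x y ω) : ω ^ 2 + ω + 1 = 0 := by
  have h1 : (ω - 1) * (ω ^ 2 + ω + 1) = 0 := by linear_combination T.cube
  exact (mul_eq_zero.1 h1).resolve_left (sub_ne_zero.2 T.ne)

omit [CharP F 2] in
theorem XY.ne_zero {x y : P} {ω : F} (T : XY π ρ x y ω) : ω ≠ 0 := by
  rintro rfl
  have := T.cube
  simp at this

/-- first double coset -/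
theorem Six.kill_one (S : Six h ρ vv) {x y : P} {ω : F} (T : XY π ρ x y ω) :
    Nm h ρ (ρ (h.s g1) (Nm h ρ (vv 0))) = 0 := by
  obtain ⟨c, hc⟩ := S.Nm_in (i := 0) (j := 3) (by decide) (by decide) (by decide) (by decide)
  have hg1 : g1 * g1 = 1 := by decide
  have hk := (h.s_spec hg1).1
  obtain ⟨d, hd⟩ := S.line (h.s g1) 3
  rw [hk, show (g1 : Perm (Fin 6)) 3 = 4 by decide] at hd
  have q1 : g1 * a1 * g1⁻¹ = e2 := by decide +kernel
  have q2 : g1 * a2 * g1⁻¹ = e0 := by decide +kernel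
  have q3 : g1 * a3 * g1⁻¹ = e1 := by decide +kernel
  rw [hc, map_smul, Nm_smul, Nm_eq (ρ := ρ) (vv 3), map_add, map_add, map_add,
    push (a := a1) (by decide) (h.s g1) (vv 3), push (a := a2) (by decide) (h.s g1) (vv 3),
    push (a := a3) (by decide) (h.s g1) (vv 3), hk, q1, q2, q3, hd, map_smul, map_smul, map_smul, Nm_add, Nm_add, Nm_add, Nm_smul, Nm_smul, Nm_smul,
    Nm_smul, S.Nm_out (Or.inl rfl), smul_zero, zero_add]
  have hprx : Pr (π x) := by rw [T.hx]; decide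
  -- the eigenvalues of `x`
  obtain ⟨α3, h3⟩ := S.line x 3
  obtain ⟨α4, h4⟩ := S.line x 4
  rw [T.hx, show (tx : Perm (Fin 6)) 3 = 3 by decide] at h3
  rw [T.hx, show (tx : Perm (Fin 6)) 4 = 4 by decide] at h4
  obtain ⟨β, hβ⟩ := S.line y 3
  rw [T.hy, show (ty : Perm (Fin 6)) 3 = 4 by decide] at hβ
  have hβ0 := S.coef_ne hβ
  have hα : α4 = ω * α3 := by
    have h5 := T.comm (vv 3)
    rw [h3, hβ, map_smul, map_smul, h4, hβ, smul_smul, smul_smul, smul_smul] at h5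
    have h6 : (β * α4 - ω * α3 * β) • vv 4 = 0 := by rw [sub_smul, h5, sub_self]
    have h7 := (smul_eq_zero.1 h6).resolve_right (S.ne 4)
    have h8 : β * (α4 - ω * α3) = 0 := by linear_combination h7
    exact sub_eq_zero.1 ((mul_eq_zero.1 h8).resolve_left hβ0)
  have hα4 := S.coef_ne h4
  have hα3 : α3 ≠ 0 := by
    rintro rfl
    rw [mul_zero] at hα
    exact hα4 hα
  -- `x` acts on the norm of the line 3
  have hxN : ρ x (Nm h ρ (vv 3)) = α3 • Nm h ρ (vv 3) := by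
    rw [← Nm_comm x hprx, h3, Nm_smul]
  -- one step
  have step : ∀ e e' : A6, e * e = 1 → tx * e * tx⁻¹ = e' → ∀ t : F, Nm h ρ (ρ (h.s e) (vv 4)) = t • Nm h ρ (vv 3) →
      Nm h ρ (ρ (h.s e') (vv 4)) = (α4⁻¹ * (t * α3)) • Nm h ρ (vv 3) := by
    intro e e' he hee t ht
    have h5 := push (h := h) (ρ := ρ) he x (vv 4)
    rw [T.hx, hee, h4, map_smul] at h5
    have h6 : Nm h ρ (ρ (h.s e') (vv 4)) = α4⁻¹ • Nm h ρ (ρ x (ρ (h.s e) (vv 4))) := by
      rw [h5, Nm_smul, smul_smul, inv_mul_cancel₀ hα4, one_smul]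
    rw [h6, Nm_comm x hprx, ht, map_smul, hxN, smul_smul, smul_smul, mul_assoc]
  obtain ⟨c0, hc0⟩ := S.line (h.s e0) 4
  rw [(h.s_spec (a := e0) (by decide)).1, show (e0 : Perm (Fin 6)) 4 = 0 by decide] at hc0
  have s0 : Nm h ρ (ρ (h.s e0) (vv 4)) = (c0 * c) • Nm h ρ (vv 3) := by
    rw [hc0, Nm_smul, hc, smul_smul]
  have s1 := step e0 e1 (by decide) (by decide +kernel) _ s0
  have s2 := step e1 e2 (by decide) (by decide +kernel) _ s1
  rw [s0, s1, s2, smul_smul, smul_smul, smul_smul, ← add_smul, ← add_smul]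
  have key : d * (α4⁻¹ * (α4⁻¹ * (c0 * c * α3) * α3)) + d * (c0 * c) + d * (α4⁻¹ * (c0 * c * α3)) = 0 := by
    have hω := T.ne_zero
    rw [hα]
    field_simp
    linear_combination (d * c0 * c) * T.quad
  rw [key, zero_smul, smul_zero]

theorem Six.kill_all (S : Six h ρ vv) {x y : P} {ω : F} (T : XY π ρ x y ω) (b : P) :
    Nm h ρ (ρ b (Nm h ρ (vv 0))) = 0 := by
  have hne : (π b : Perm (Fin 6)) 4 ≠ (π b : Perm (Fin 6)) 5 := by
    intro he
    have h45 : (4 : Fin 6) = 5 := (π b : Perm (Fin 6)).injective he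
    exact absurd h45 (by decide)
  obtain ⟨n, -, hn, k, hk, hb⟩ := pairs ((π b : Perm (Fin 6)) 4) ((π b : Perm (Fin 6)) 5) hne
  obtain ⟨bn, rfl⟩ := h.surj n
  have hkk : k * k = 1 := by
    have : ∀ k ∈ ([1, g1, g2] : List A6), k * k = 1 := by decide +kernel
    exact this k hk
  have hs := (h.s_spec hkk).1
  obtain ⟨b', rfl⟩ : ∃ b', b = bn * (h.s k) * b' := ⟨(bn * h.s k)⁻¹ * b, by group⟩
  have hb' : Pr (π b') := by
    have h1 : π (bn * h.s k * b') = (π bn * k) * π b' := by rw [map_mul, map_mul, hs]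
    rw [h1] at hb
    have h2 : ∀ i : Fin 6, (((π bn * k : A6)⁻¹ : A6) : Perm (Fin 6)) ((((π bn * k) * π b' : A6) : Perm (Fin 6)) i)
        = (π b' : Perm (Fin 6)) i := by
      intro i
      have h3 : (π bn * k : A6)⁻¹ * ((π bn * k) * π b') = π b' := inv_mul_cancel_left _ _
      have h4 := congrArg (fun t : A6 => (t : Perm (Fin 6)) i) h3
      exact h4
    rw [h2, h2] at hb
    exact hb
  rw [rho_mul, rho_mul, Nm_comm bn hn, ← Nm_comm b' hb']
  obtain ⟨c, hc⟩ := S.line b' 0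
  have hi : ∀ i : Fin 6, i ≠ 4 → i ≠ 5 → ((π b' : Perm (Fin 6)) i ≠ 4 ∧ (π b' : Perm (Fin 6)) i ≠ 5) := by
    intro i h4 h5
    have hinj := (π b' : Perm (Fin 6)).injective
    rcases hb' with ⟨h6, h7⟩ | ⟨h6, h7⟩
    · exact ⟨fun he => h4 (hinj (he.trans h6.symm)), fun he => h5 (hinj (he.trans h7.symm))⟩
    · exact ⟨fun he => h5 (hinj (he.trans h7.symm)), fun he => h4 (hinj (he.trans h6.symm))⟩
  have h00 := hi 0 (by decide) (by decide)
  obtain ⟨c', hc'⟩ := S.Nm_in (i := (π b' : Perm (Fin 6)) 0) (j := 0) h00.1 h00.2 (by decide) (by decide)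
  rw [hc, Nm_smul, hc', smul_smul, map_smul, Nm_smul]
  have h9 : Nm h ρ (ρ (h.s k) (Nm h ρ (vv 0))) = 0 := by
    simp only [List.mem_cons, List.not_mem_nil, or_false] at hk
    rcases hk with rfl | rfl | rfl
    · rw [h.s_one, rho_one, Nm_Nm]
    · exact S.kill_one T
    · exact S.kill_two
  rw [h9, smul_zero, map_zero]

/-! ### dimensions -/

omit [CharP F 2] in
/-- the dimension of a stable subspace is divisible by 3 -/
theorem XY.three_dvd [Module.Finite F U] {x y : P} {ω : F} (T : XY π ρ x y ω) (W : Submodule F U)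
    (hW : ∀ b, ∀ w ∈ W, ρ b w ∈ W) : 3 ∣ finrank F W := by
  have hres : ∀ b, ∃ A : W →ₗ[F] W, (∀ w : W, ((A w : W) : U) = ρ b w) ∧ LinearMap.det A ≠ 0 := by
    intro b
    refine ⟨(ρ b).restrict (hW b), fun w => rfl, ?_⟩
    have h1 : (ρ b).restrict (hW b) * (ρ b⁻¹).restrict (hW b⁻¹) = 1 := by
      refine LinearMap.ext fun w => Subtype.ext ?_
      show ρ b (ρ b⁻¹ w) = w
      rw [← rho_mul, mul_inv_cancel, rho_one]
    have h2 := congrArg LinearMap.det h1
    rw [map_mul, map_one] at h2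
    exact left_ne_zero_of_mul_eq_one h2
  obtain ⟨A, hA, hA0⟩ := hres x
  obtain ⟨B, hB, hB0⟩ := hres y
  have h1 : A * B = ω • (B * A) := by
    refine LinearMap.ext fun w => Subtype.ext ?_
    show ((A (B w) : W) : U) = ω • ((B (A w) : W) : U)
    rw [hA, hB, hB, hA, T.comm]
  have h2 := congrArg LinearMap.det h1
  rw [map_mul, LinearMap.det_smul, map_mul] at h2
  have h3 : ω ^ finrank F W = 1 := by
    have h4 : (LinearMap.det A * LinearMap.det B) * (ω ^ finrank F W - 1) = 0 := by linear_combination -h2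
    exact sub_eq_zero.1 ((mul_eq_zero.1 h4).resolve_left (mul_ne_zero hA0 hB0))
  have h5 : orderOf ω = 3 := orderOf_eq_prime T.cube T.ne
  rw [← h5]
  exact orderOf_dvd_of_pow_eq_one h3

theorem trans_five : ∀ i : Fin 6, ∃ a ∈ ([1, mk (swap 0 5 * swap 1 2) (by decide), mk (swap 1 5 * swap 0 2) (by decide),
    mk (swap 2 5 * swap 0 1) (by decide), mk (swap 3 5 * swap 0 1) (by decide),
    mk (swap 4 5 * swap 0 1) (by decide)] : List A6), (a : Perm (Fin 6)) 5 = i := by decide +kernel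

/-- a stable subspace of dimension three, the lines given -/
theorem Six.exists_three [Module.Finite F U] (S : Six h ρ vv) {x y : P} {ω : F} (T : XY π ρ x y ω) :
    ∃ W : Submodule F U, (∀ b, ∀ w ∈ W, ρ b w ∈ W) ∧ finrank F W = 3 := by
  obtain ⟨M, hM⟩ : ∃ M, M = Submodule.span F (Set.range vv) := ⟨_, rfl⟩
  have hvM : ∀ i, vv i ∈ M := fun i => hM ▸ Submodule.subset_span ⟨i, rfl⟩
  have hMs : ∀ b, ∀ w ∈ M, ρ b w ∈ M := by
    intro b
    have h1 : M ≤ M.comap (ρ b) := by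
      conv_lhs => rw [hM]
      rw [Submodule.span_le]
      rintro _ ⟨i, rfl⟩
      obtain ⟨c, hc⟩ := S.line b i
      show ρ b (vv i) ∈ M
      rw [hc]
      exact M.smul_mem _ (hvM _)
    exact fun w hw => h1 hw
  have hM6 : finrank F M ≤ 6 := by
    rw [hM]
    exact (finrank_range_le_card vv).trans (by simp)
  have hM0 : 0 < finrank F M := by
    rw [Module.finrank_pos_iff_exists_ne_zero]
    exact ⟨⟨vv 0, hvM 0⟩, fun he => S.ne 0 (congrArg Subtype.val he)⟩
  obtain ⟨m, hm⟩ := T.three_dvd M hMs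
  have hm2 : m = 1 ∨ m = 2 := by omega
  rcases hm2 with rfl | rfl
  · exact ⟨M, hMs, hm⟩
  -- dimension 6
  have hli : LinearIndependent F vv := by
    rw [linearIndependent_iff_card_eq_finrank_span, Set.finrank, ← hM, hm]
    simp
  have hN0 : Nm h ρ (vv 0) ≠ 0 := by
    intro hN
    obtain ⟨c1, hc1⟩ := S.line (h.s a1) 0
    obtain ⟨c2, hc2⟩ := S.line (h.s a2) 0
    obtain ⟨c3, hc3⟩ := S.line (h.s a3) 0
    rw [(h.s_spec (a := a1) (by decide)).1, show (a1 : Perm (Fin 6)) 0 = 1 by decide] at hc1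
    rw [(h.s_spec (a := a2) (by decide)).1, show (a2 : Perm (Fin 6)) 0 = 2 by decide] at hc2
    rw [(h.s_spec (a := a3) (by decide)).1, show (a3 : Perm (Fin 6)) 0 = 3 by decide] at hc3
    rw [Nm_eq, hc1, hc2, hc3] at hN
    have h1 := Fintype.linearIndependent_iff.1 hli ![1, c1, c2, c3, 0, 0] (by
      rw [Fin.sum_univ_six]
      simpa using hN) 0
    simp at h1
  obtain ⟨C, hC⟩ : ∃ C, C = Submodule.span F (Set.range fun b : P => ρ b (Nm h ρ (vv 0))) := ⟨_, rfl⟩
  have hCs : ∀ b, ∀ w ∈ C, ρ b w ∈ C := by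
    intro b
    have h1 : C ≤ C.comap (ρ b) := by
      conv_lhs => rw [hC]
      rw [Submodule.span_le]
      rintro _ ⟨b', rfl⟩
      show ρ b (ρ b' (Nm h ρ (vv 0))) ∈ C
      rw [← rho_mul, hC]
      exact Submodule.subset_span ⟨b * b', rfl⟩
    exact fun w hw => h1 hw
  have hNC : Nm h ρ (vv 0) ∈ C := by
    rw [hC]
    exact Submodule.subset_span ⟨1, rho_one _⟩
  have hNM : Nm h ρ (vv 0) ∈ M := by
    rw [Nm]
    exact M.sum_mem fun a _ => hMs _ _ (hvM 0)
  have hCM : C ≤ M := by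
    rw [hC, Submodule.span_le]
    rintro _ ⟨b, rfl⟩
    exact hMs b _ hNM
  have hCN : ∀ w ∈ C, Nm h ρ w = 0 := by
    intro w hw
    rw [hC] at hw
    induction hw using Submodule.span_induction with
    | mem w hw =>
      obtain ⟨b, rfl⟩ := hw
      exact S.kill_all T b
    | zero =>
      have := Nm_smul (h := h) (ρ := ρ) (0 : F) (0 : U)
      rwa [zero_smul, zero_smul] at this
    | add u w _ _ hu hw => rw [Nm_add, hu, hw, add_zero]
    | smul c w _ hw => rw [Nm_smul, hw, smul_zero]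
  have hC0 : 0 < finrank F C := by
    rw [Module.finrank_pos_iff_exists_ne_zero]
    exact ⟨⟨_, hNC⟩, fun he => hN0 (congrArg Subtype.val he)⟩
  have hC6 : finrank F C < 6 := by
    refine lt_of_le_of_ne ((Submodule.finrank_mono hCM).trans hM6) fun he => hN0 (hCN _ ?_)
    have : C = M := Submodule.eq_of_le_of_finrank_eq hCM (by rw [he, hm])
    rw [this]
    exact hvM 0
  obtain ⟨k, hk⟩ := T.three_dvd C hCs
  exact ⟨C, hCs, by omega⟩

/-- **a stable subspace of dimension three** -/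
theorem exists_three [Module.Finite F U] (h : Ext π) {x y : P} {ω : F} (T : XY π ρ x y ω) {v : U} (hv : v ≠ 0)
    (hl : ∀ b, (π b : Perm (Fin 6)) 5 = 5 → ∃ c : F, ρ b v = c • v) :
    ∃ W : Submodule F U, (∀ b, ∀ w ∈ W, ρ b w ∈ W) ∧ finrank F W = 3 := by
  have h1 : ∀ i : Fin 6, ∃ g : P, (π g : Perm (Fin 6)) 5 = i := by
    intro i
    obtain ⟨a, -, ha⟩ := trans_five i
    obtain ⟨g, rfl⟩ := h.surj a
    exact ⟨g, ha⟩
  choose g hg using h1
  have S : Six h ρ fun i => ρ (g i) v := by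
    refine ⟨fun i h0 => hv (rho_inj (g i) (h0.trans (map_zero (ρ (g i))).symm)), fun b i => ?_⟩
    obtain ⟨j, hj⟩ : ∃ j, j = (π b : Perm (Fin 6)) i := ⟨_, rfl⟩
    rw [← hj]
    obtain ⟨c, hc⟩ := hl ((g j)⁻¹ * b * g i) (by
      have h2 : (π ((g j)⁻¹ * b * g i) : Perm (Fin 6)) 5
          = (π (g j) : Perm (Fin 6))⁻¹ ((π b : Perm (Fin 6)) ((π (g i) : Perm (Fin 6)) 5)) := by
        rw [map_mul, map_mul, map_inv]
        rfl
      rw [h2, hg, ← hj, Perm.inv_eq_iff_eq, hg])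
    refine ⟨c, ?_⟩
    rw [← map_smul, ← hc, ← rho_mul, ← rho_mul]
    congr 2
    group
  exact S.exists_three T

end main

end Cfsg.Agent.H906.E6.Hexa

namespace Cfsg.Agent.H906.E6.SixC

open Cfsg Cfsg.Lie Module Equiv
open Cfsg.Agent.ChevalleyStructure.E6Min.Tables Cfsg.Agent.ChevalleyStructure.E6Min.Basic
  Cfsg.Agent.ChevalleyStructure.E6Min.Adjoint
open Cfsg.Agent.H952.F4 (ev es matRep tf MaxAlt)
open Cfsg.Agent.H163.E6
open Cfsg.Agent.H906.E6.Hexa (A6 tx ty Ext XY)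

universe u

/-! ### the embedding of `A₅` as a point stabilizer -/

/-- the embedding -/
def j : ↥(alternatingGroup (Fin 5)) →* A6 where
  toFun σ := ⟨Perm.extendDomain (σ : Perm (Fin 5)) (finSuccAboveEquiv (5 : Fin 6)), by
    rw [Perm.mem_alternatingGroup, Perm.sign_extendDomain]
    exact Perm.mem_alternatingGroup.1 σ.2⟩
  map_one' := Subtype.ext (Perm.extendDomain_one _)
  map_mul' σ τ := Subtype.ext (Perm.extendDomain_mul _ _ _).symm

theorem j_injective : Function.Injective j := by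
  intro σ τ h
  exact Subtype.ext (Perm.extendDomainHom_injective (finSuccAboveEquiv (5 : Fin 6)) (congrArg Subtype.val h))

theorem j_surj {g : A6} (hg : (g : Perm (Fin 6)) 5 = 5) : ∃ σ, j σ = g := by
  have hp : ∀ x : Fin 6, (x ≠ 5) ↔ ((g : Perm (Fin 6)) x ≠ 5) := by
    intro x
    have h1 : (g : Perm (Fin 6)) x = 5 ↔ x = 5 := by
      constructor
      · intro h
        exact (g : Perm (Fin 6)).injective (h.trans hg.symm)
      · rintro rfl
        exact hg
    exact not_iff_not.2 h1.symm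
  let e := finSuccAboveEquiv (5 : Fin 6)
  let τ : Perm {x : Fin 6 // x ≠ 5} := (g : Perm (Fin 6)).subtypePerm fun x => (hp x).symm
  let σ : Perm (Fin 5) := e.symm.permCongr τ
  have hσ : Perm.extendDomain σ e = (g : Perm (Fin 6)) := by
    ext x
    by_cases hx : x = 5
    · subst hx
      rw [Perm.extendDomain_apply_not_subtype (p := fun x : Fin 6 => x ≠ 5) σ e (by simp), hg]
    · rw [Perm.extendDomain_apply_subtype (p := fun x : Fin 6 => x ≠ 5) σ e hx]
      simp [σ, τ, Equiv.permCongr_apply]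
  have hs : Perm.sign σ = 1 := by
    rw [← Perm.sign_extendDomain σ e, hσ]
    exact Perm.mem_alternatingGroup.1 g.2
  exact ⟨⟨σ, Perm.mem_alternatingGroup.2 hs⟩, Subtype.ext hσ⟩

theorem real_five : ∀ a : ↥(alternatingGroup (Fin 5)), a ^ 5 = 1 → ∃ k : ↥(alternatingGroup (Fin 5)), k * a * k⁻¹ = a⁻¹ := by
  decide +kernel

variable {F : Type u} [Field F] [Finite F] {H : Subgroup ↥(chevE6.group F)} {φ : A6 →* ↥(chevE6.group F)}

omit [Finite F] in
theorem eq_one_of_id {z : ↥(Zgrp F)} {ρ : Representation F ↥(Zgrp F) (I27 → F)} (hρ : ρ = V F ∨ ρ = V' F)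
    (hz : ∀ w, ρ z w = w) : z = 1 := by
  rcases hρ with rfl | rfl
  · exact V_injective fun x => by rw [hz, map_one]; rfl
  · have h1 : Act.gz z = 1 := V_injective fun x => by rw [Act.V_gz, hz, map_one]; rfl
    have h2 := congrArg Act.gz h1
    have h3 : Act.gz (1 : ↥(Zgrp F)) = 1 := by
      have := Act.gz_mul (1 : ↥(Zgrp F)) 1
      rw [mul_one] at this
      exact (mul_eq_left.1 this.symm)
    rwa [Act.gz_gz, h3] at h2

/-- a vector whose line is stable under a point stabilizer -/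
theorem exists_line [CharP F 2] (hφ : Function.Injective φ) {ω : Fˣ} (hc : Cover φ ω) :
    ∃ ρ : Representation F ↥(Zgrp F) (I27 → F), (ρ = V F ∨ ρ = V' F) ∧ ∃ v, v ≠ 0 ∧
      ∀ b : ↥(φ.range.comap (ad F)), (Cov.pr hφ b : Perm (Fin 6)) 5 = 5 → ∃ c : F, ρ b v = c • v := by
  have : Fact (Nat.Prime 2) := ⟨Nat.prime_two⟩
  obtain ⟨ψ, hψ⟩ : ∃ ψ : ↥(alternatingGroup (Fin 5)) →* ↥(Zgrp F), Lift (φ.comp j) ψ := by
    rcases Cov.exists_lift (n := 5) le_rfl (φ := φ.comp j) (hφ.comp j_injective) with h | ⟨h | h, -⟩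
    · exact h
    · omega
    · omega
  have hψ' : ∀ a, ad F (ψ a) = φ (j a) := hψ
  -- it is enough to have a fixed vector
  have key : ∀ ρ : Representation F ↥(Zgrp F) (I27 → F), (ρ = V F ∨ ρ = V' F) →
      Representation.invariants (MonoidHom.comp ρ ψ) ≠ ⊥ →
      ∃ ρ : Representation F ↥(Zgrp F) (I27 → F), (ρ = V F ∨ ρ = V' F) ∧ ∃ v, v ≠ 0 ∧
      ∀ b : ↥(φ.range.comap (ad F)), (Cov.pr hφ b : Perm (Fin 6)) 5 = 5 → ∃ c : F, ρ b v = c • v := by
    intro ρ hρ hne
    obtain ⟨v, hv, hv0⟩ := Submodule.exists_mem_ne_zero_of_ne_bot hne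
    refine ⟨ρ, hρ, v, hv0, fun b hb => ?_⟩
    obtain ⟨a, ha⟩ := j_surj hb
    rw [Representation.mem_invariants] at hv
    have h1 : ad F (b : ↥(Zgrp F)) = ad F (ψ a) := by rw [hψ', ha, Cov.phi_pr]
    obtain ⟨d, hd⟩ := exists_smul (z := (b : ↥(Zgrp F)) * (ψ a)⁻¹) (by rw [map_mul, map_inv, h1, mul_inv_cancel]) hρ
    refine ⟨d, ?_⟩
    have h2 : ρ (ψ a) v = v := hv a
    rw [← hd]
    conv_rhs => rw [← h2]
    rw [← rho_mul, inv_mul_cancel_right]
  by_contra hcon
  have h1 : Representation.invariants (MonoidHom.comp (V F) ψ) = ⊥ := by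
    by_contra hne
    exact hcon (key (V F) (Or.inl rfl) hne)
  have h2 : Representation.invariants (MonoidHom.comp (V' F) ψ) = ⊥ := by
    by_contra hne
    exact hcon (key (V' F) (Or.inr rfl) hne)
  have h3 := H882.E6Five.dual_bot Act.tf_act ψ h2
  obtain ⟨x, y, hgen, hx, hy, hxy⟩ := H952.F4.Gen.gen5
  have hsc := H952.F4.Scott.scott (MonoidHom.comp (V F) ψ : Representation F _ (I27 → F)) hgen
  rw [h1, h3, finrank_bot, finrank_bot] at hsc
  have hord : ∀ {a : ↥(alternatingGroup (Fin 5))} {m : Multiset ℕ} {k : ℕ}, (a : Perm (Fin 5)).cycleType = m → m.lcm = k →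
      orderOf a = k := by
    intro a m k ha hm
    rw [← Subgroup.orderOf_coe, ← Perm.lcm_cycleType, ha, hm]
  have ox : orderOf x = 2 := hord hx (by decide)
  have oy : orderOf y = 3 := hord hy (by decide)
  have oz : orderOf (x * y) = 5 := hord hxy (by decide)
  have e2 : 15 ≤ ev (V F (ψ x)) 1 := Tor.two_two _ (by
    rw [← map_mul, ← pow_two, ← ox, pow_orderOf_eq_one, map_one])
  have e3 : ev (V F (ψ y)) 1 = 9 := by
    have h4 : orderOf (j y) = 3 := by rw [orderOf_injective j j_injective, oy]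
    exact (Cov.type_thirty (Or.inl rfl) hφ hc h4 (hψ' y)).2.1
  have e5 : 5 ≤ ev (V F (ψ (x * y))) 1 := by
    have h4 : (x * y) ^ 5 = 1 := orderOf_dvd_iff_pow_eq_one.1 (by rw [oz])
    have h5 : ψ (x * y) ≠ 1 := by
      intro h6
      have h7 : φ (j (x * y)) = 1 := by rw [← hψ', h6, map_one]
      have h8 : x * y = 1 := j_injective (hφ (by rw [h7, map_one, map_one]))
      rw [h8, orderOf_one] at oz
      omega
    obtain ⟨k, hk⟩ := real_five _ h4
    have h6 := (Tor.tab (F := F) 2).five (by norm_num) (ψ (x * y)) h5 (by rw [← map_pow, h4, map_one])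
      ⟨ψ k, by rw [← map_inv, ← map_mul, ← map_mul, hk, map_inv]⟩
    omega
  have hdim : finrank F (I27 → F) = 27 := by
    rw [Module.finrank_fintype_fun_eq_card]
    decide
  rw [hdim] at hsc
  have hsc' : ev (V F (ψ x)) 1 + ev (V F (ψ y)) 1 + ev (V F (ψ (x * y))) 1 ≤ 27 + 0 + 0 := hsc
  omega

/-- **A stable subspace of dimension three.** -/
theorem exists_three [CharP F 2] (hφ : Function.Injective φ) {ω : Fˣ} (hc : Cover φ ω) :
    ∃ ρ : Representation F ↥(Zgrp F) (I27 → F), (ρ = V F ∨ ρ = V' F) ∧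
      ∃ W : Submodule F (I27 → F), Stab ρ φ.range W ∧ finrank F ↥W = 3 := by
  obtain ⟨ρ, hρ, v, hv, hl⟩ := exists_line hφ hc
  have hE : Ext (Cov.pr hφ) := by
    refine ⟨Cov.pr_surjective hφ, fun z hz b => ?_, fun z hz => ?_⟩
    · exact Subtype.ext (Cov.ker_comm ((Cov.pr_eq_one hφ z).1 hz) b)
    · exact Subtype.ext (Cov.ker_pow ((Cov.pr_eq_one hφ z).1 hz))
  obtain ⟨x, hx⟩ := Cov.pr_surjective hφ tx
  obtain ⟨y, hy⟩ := Cov.pr_surjective hφ ty
  have hx' : ad F (x : ↥(Zgrp F)) = φ tx := by rw [← hx, Cov.phi_pr]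
  have hy' : ad F (y : ↥(Zgrp F)) = φ ty := by rw [← hy, Cov.phi_pr]
  have hcm : tx * ty = ty * tx := by decide +kernel
  obtain ⟨z, hz⟩ : ∃ z : ↥(Zgrp F), z = x * y * (x : ↥(Zgrp F))⁻¹ * (y : ↥(Zgrp F))⁻¹ := ⟨_, rfl⟩
  have hz1 : ad F z = 1 := by
    rw [hz, map_mul, map_mul, map_mul, map_inv, map_inv, hx', hy', ← map_inv, ← map_inv, ← map_mul, ← map_mul, ← map_mul,
      hcm, mul_inv_cancel_right, mul_inv_cancel, map_one]
  have hz0 : z ≠ 1 := by
    intro h0
    have h1 := Cov.not_comm (n := 6) (Or.inl rfl) hφ hc (a := tx) (b := ty) (by decide +kernel) (by decide +kernel)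
      (show ∀ i, _ from by decide +kernel) hx' hy'
    rw [← hz, h0] at h1
    have h2 : ((1 : ↥(Zgrp F)) : GL I27 F) = scal 1 := by rw [Cov.scal_one]; rfl
    rw [h2] at h1
    rcases h1 with ⟨-, h1⟩ | ⟨-, h1⟩
    · exact hc.1 (Cov.scal_injective h1).symm
    · exact hc.1 (inv_eq_one.1 (Cov.scal_injective h1).symm)
  obtain ⟨d, hd⟩ := exists_smul hz1 hρ
  have hd1 : d ≠ 1 := by
    rintro rfl
    exact hz0 (eq_one_of_id hρ fun w => by rw [hd, one_smul])
  have hd3 : d ^ 3 = 1 := by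
    have h1 : ρ (z ^ 3) v = v := by rw [Cov.ker_pow hz1, map_one]; rfl
    rw [pow_succ, pow_two, rho_mul, rho_mul, hd, hd, hd, smul_smul, smul_smul] at h1
    have h2 : (d * d * d - 1) • v = 0 := by rw [sub_smul, h1, one_smul, sub_self]
    have h3 := (smul_eq_zero.1 h2).resolve_right hv
    linear_combination h3
  have hT : XY (Cov.pr hφ) (MonoidHom.comp ρ (φ.range.comap (ad F)).subtype : Representation F _ (I27 → F)) x y d := by
    refine ⟨hx, hy, fun w => ?_, hd1, hd3⟩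
    show ρ (x : ↥(Zgrp F)) (ρ (y : ↥(Zgrp F)) w) = d • ρ (y : ↥(Zgrp F)) (ρ (x : ↥(Zgrp F)) w)
    rw [← hd, ← rho_mul, ← rho_mul, ← rho_mul, hz]
    congr 2
    group
  obtain ⟨W, hW, h3⟩ := H906.E6.Hexa.exists_three hE hT hv fun b hb => hl b hb
  exact ⟨ρ, hρ, W, fun g hg w hw => hW ⟨g, hg⟩ w hw, h3⟩

end Cfsg.Agent.H906.E6.SixC
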