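import Mathlib
import Cfsg.Agent.H958.SixC.Defs

/-!
# S5927, S5928: `sixc_two`, BOX R (helper906)

The three-dimensional modules of `3·A₆` in characteristic 2 (`irr_three`, `hex3`, `exists_kf`), and the irreducibility of the
tensor product of two of them of different types: `H958.SixC.boxR`.
-/

set_option autoImplicit false
set_option linter.unusedSectionVars false

namespace Cfsg.Agent.H906.E6.SixR

open Module
open scoped TensorProduct
open Cfsg.Agent.H952.F4 (ev)
open Cfsg.Agent.H958.SixC (xx Half Full St KF Ch)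

/-! ### generalities -/

section
variable {F : Type*} [Field F] {P : Type*} [Group P] {X : Type*} [AddCommGroup X] [Module F X] {ρ : Representation F P X}

theorem rmul (a b : P) (v : X) : ρ (a * b) v = ρ a (ρ b v) := by rw [map_mul]; rfl

theorem rone (v : X) : ρ 1 v = v := by rw [map_one]; rfl

theorem rinv (a : P) (v : X) : ρ a⁻¹ (ρ a v) = v := by rw [← rmul, inv_mul_cancel, rone]

theorem rinv' (a : P) (v : X) : ρ a (ρ a⁻¹ v) = v := by rw [← rmul, mul_inv_cancel, rone]

theorem rinj (a : P) {v w : X} (h : ρ a v = ρ a w) : v = w := by rw [← rinv (ρ := ρ) a v, h, rinv]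

theorem rinv_eq (a : P) {v w : X} (h : ρ a v = w) : ρ a⁻¹ w = v := by rw [← h, rinv]

/-- stability under generators -/
theorem st_of_gen [FiniteDimensional F X] {s : Set P} (hs : Subgroup.closure s = ⊤) {W : Submodule F X}
    (h : ∀ g ∈ s, ∀ w ∈ W, ρ g w ∈ W) : St ρ W := by
  intro g
  have hg : g ∈ Subgroup.closure s := by rw [hs]; trivial
  induction hg using Subgroup.closure_induction with
  | mem x hx => exact h x hx
  | one => intro w hw; rw [rone]; exact hw
  | mul x y _ _ hx hy => intro w hw; rw [rmul]; exact hx _ (hy _ hw)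
  | inv x _ hx =>
    intro w hw
    have h1 : W.map (ρ x) = W := by
      refine Submodule.eq_of_le_of_finrank_eq ?_ ?_
      · rintro _ ⟨v, hv, rfl⟩
        exact hx v hv
      · exact (Submodule.equivMapOfInjective (ρ x) (fun v w h => rinj x h) W).finrank_eq.symm
    have h2 : w ∈ W.map (ρ x) := by rw [h1]; exact hw
    obtain ⟨v, hv, rfl⟩ := h2
    rw [rinv]
    exact hv

theorem fix_of_gen {s : Set P} (hs : Subgroup.closure s = ⊤) {w : X} (h : ∀ g ∈ s, ρ g w = w) (g : P) : ρ g w = w := by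
  have hg : g ∈ Subgroup.closure s := by rw [hs]; trivial
  induction hg using Subgroup.closure_induction with
  | mem x hx => exact h x hx
  | one => exact rone w
  | mul x y _ _ hx hy => rw [rmul, hy, hx]
  | inv x _ hx => exact rinv_eq x hx

end

variable {F : Type*} [Field F] [CharP F 2] {P : Type*} [Group P]

theorem smul_of_ker_le {X : Type*} [AddCommGroup X] [Module F X] {l m : X →ₗ[F] F} (hl : l ≠ 0)
    (h : ∀ x, l x = 0 → m x = 0) : ∃ c : F, ∀ x, m x = c * l x := by
  obtain ⟨x0, hx0⟩ : ∃ x, l x ≠ 0 := by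
    by_contra hcon
    push Not at hcon
    exact hl (LinearMap.ext hcon)
  refine ⟨m x0 / l x0, fun x => ?_⟩
  have h1 := h (x - (l x / l x0) • x0) (by rw [map_sub, map_smul, smul_eq_mul, div_mul_cancel₀ _ hx0, sub_self])
  rw [map_sub, map_smul, smul_eq_mul, sub_eq_zero] at h1
  rw [h1]
  field_simp

theorem sq_one {m : F} (h : m * m = 1) : m = 1 := by
  have h1 : (m - 1) * (m - 1) = 0 := by
    have h2 : (2 : F) = 0 := CharTwo.two_eq_zero
    linear_combination h + (1 - m) * h2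
  exact sub_eq_zero.1 (mul_self_eq_zero.1 h1)

section
variable {X : Type*} [AddCommGroup X] [Module F X] {ρ : Representation F P X}

theorem add_self (F : Type*) [Field F] [CharP F 2] {X : Type*} [AddCommGroup X] [Module F X] (v : X) : v + v = 0 := by
  rw [← two_smul F v, CharTwo.two_eq_zero, zero_smul]

theorem quad {ζ : P} {c : F} (hc : Ch ρ ζ c) : c ^ 2 + c + 1 = 0 := by
  have h : (c - 1) * (c ^ 2 + c + 1) = 0 := by linear_combination hc.cube
  rcases mul_eq_zero.1 h with h | h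
  · exact absurd (sub_eq_zero.1 h) hc.ne
  · exact h

/-- eigenvectors of an element `y` of order three conjugate to `ζ y` -/
theorem exists_eig {ζ y : P} {c : F} (hc : Ch ρ ζ c) (hy : y ^ 3 = 1) {W : Submodule F X} (hW : ∀ w ∈ W, ρ y w ∈ W)
    (hW0 : W ≠ ⊥) : ∃ w ∈ W, w ≠ 0 ∧ ∃ i : ℕ, ρ y w = c ^ i • w := by
  obtain ⟨w, hw, hw0⟩ := Submodule.exists_mem_ne_zero_of_ne_bot hW0
  have hq := quad hc
  have h3 : ρ y (ρ y (ρ y w)) = w := by
    rw [← rmul, ← rmul, ← pow_three', hy, rone]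
  have hc3 := hc.cube
  by_contra hcon
  push Not at hcon
  have key : ∀ i : ℕ, w + c ^ (2 * i) • ρ y w + c ^ i • ρ y (ρ y w) = 0 := by
    intro i
    by_contra h0
    refine hcon _ (W.add_mem (W.add_mem hw (W.smul_mem _ (hW _ hw))) (W.smul_mem _ (hW _ (hW _ hw)))) h0 i ?_
    have e3 : c ^ (3 * i) = 1 := by rw [pow_mul, hc3, one_pow]
    rw [map_add, map_add, map_smul, map_smul, h3, smul_add, smul_add, smul_smul, smul_smul, ← pow_add, ← pow_add,
      show i + 2 * i = 3 * i by ring, e3, one_smul, show i + i = 2 * i by ring]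
    abel
  have k0 := key 0
  have k1 := key 1
  have k2 := key 2
  rw [mul_zero, pow_zero, one_smul, one_smul] at k0
  have c4 : c ^ (2 * 2) = c := by linear_combination c * hc3
  rw [c4] at k2
  rw [mul_one, pow_one] at k1
  apply hw0
  have hs : (1 + c ^ 2 + c) • ρ y w = 0 := by rw [show 1 + c ^ 2 + c = 0 by linear_combination hq, zero_smul]
  have hs' : (1 + c ^ 2 + c) • ρ y (ρ y w) = 0 := by rw [show 1 + c ^ 2 + c = 0 by linear_combination hq, zero_smul]
  have e : (w + ρ y w + ρ y (ρ y w)) + (w + c ^ 2 • ρ y w + c • ρ y (ρ y w)) + (w + c • ρ y w + c ^ 2 • ρ y (ρ y w))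
      = (w + w) + w + (1 + c ^ 2 + c) • ρ y w + (1 + c ^ 2 + c) • ρ y (ρ y w) := by
    simp only [add_smul, one_smul]
    abel
  rw [k0, k1, k2, hs, hs', add_self F w] at e
  simpa using e.symm

theorem eig_shift {ζ y b : P} {c : F} (hc : Ch ρ ζ c) (hb : b * y * b⁻¹ = ζ * y) {w : X} {m : F} (hw : ρ y w = m • w) :
    ρ y (ρ b w) = (c ^ 2 * m) • ρ b w := by
  have h1 : b * y = ζ * y * b := by rw [← hb]; group
  have h2 : ρ b (ρ y w) = c • ρ y (ρ b w) := by rw [← rmul, h1, rmul, rmul, hc.act]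
  rw [hw, map_smul] at h2
  rw [mul_smul, h2, smul_smul, ← pow_succ, hc.cube, one_smul]

/-- fixed vectors of an element `y` of order three conjugate to `ζ y` -/
theorem exists_fix {ζ y : P} {c : F} (hc : Ch ρ ζ c) (hy : y ^ 3 = 1) (ht : ∃ b, b * y * b⁻¹ = ζ * y) [Nontrivial X] :
    ∃ w : X, w ≠ 0 ∧ ρ y w = w := by
  obtain ⟨b, hb⟩ := ht
  obtain ⟨w, -, hw0, i, hi⟩ := exists_eig (ρ := ρ) hc hy (W := ⊤) (fun _ _ => trivial) top_ne_bot
  have h0 : ∀ {v : X}, v ≠ 0 → ρ b v ≠ 0 := fun hv h => hv (rinj b (h.trans (map_zero _).symm))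
  have h1 := eig_shift hc hb hi
  have h2 := eig_shift hc hb h1
  have hc3 := hc.cube
  have hr : i % 3 = 0 ∨ i % 3 = 1 ∨ i % 3 = 2 := by omega
  have hi3 : c ^ i = c ^ (i % 3) := by
    conv_lhs => rw [← Nat.div_add_mod i 3]
    rw [pow_add, pow_mul, hc3, one_pow, one_mul]
  rcases hr with h | h | h
  · refine ⟨w, hw0, ?_⟩
    rw [hi, hi3, h, pow_zero, one_smul]
  · refine ⟨ρ b w, h0 hw0, ?_⟩
    rw [h1, hi3, h, pow_one, ← pow_succ, hc3, one_smul]
  · refine ⟨ρ b (ρ b w), h0 (h0 hw0), ?_⟩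
    rw [h2, hi3, h, show c ^ 2 * (c ^ 2 * c ^ 2) = (c ^ 3) ^ 2 by ring, hc3, one_pow, one_smul]

/-- the 3-dimensional modules are irreducible -/
theorem irr_three [FiniteDimensional F X] {ζ y : P} {c : F} (hc : Ch ρ ζ c) (hy : y ^ 3 = 1)
    (ht : ∃ b, b * y * b⁻¹ = ζ * y) (d : finrank F X = 3) {W : Submodule F X} (hW : St ρ W) : W = ⊥ ∨ W = ⊤ := by
  by_cases hW0 : W = ⊥
  · exact Or.inl hW0
  right
  obtain ⟨b, hb⟩ := ht
  obtain ⟨w, hw, hw0, i, hi⟩ := exists_eig hc hy (W := W) (fun w hw => hW y w hw) hW0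
  have h0 : ∀ {v : X}, v ≠ 0 → ρ b v ≠ 0 := fun hv h => hv (rinj b (h.trans (map_zero _).symm))
  have h1 := eig_shift hc hb hi
  have h2 := eig_shift hc hb h1
  have hc3 := hc.cube
  have hq := quad hc
  have hc0 : c ≠ 0 := by
    rintro rfl
    norm_num at hc3
  have hm : c ^ i ≠ 0 := pow_ne_zero _ hc0
  have hc2 : c ^ 2 ≠ 1 := by
    intro h
    exact hc.ne (sq_one (by rw [← pow_two, h]))
  have hc4 : c ^ 2 * c ^ 2 ≠ 1 := by
    intro h
    exact hc.ne (by linear_combination h - c * hc3)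
  have hli := Module.End.eigenvectors_linearIndependent' (ρ y) ![c ^ i, c ^ 2 * c ^ i, c ^ 2 * (c ^ 2 * c ^ i)]
    (by
      intro p q hpq
      have e1 : c ^ 2 * c ^ i ≠ c ^ i := fun h => hc2 (mul_right_cancel₀ hm (h.trans (one_mul _).symm))
      have e2 : c ^ 2 * (c ^ 2 * c ^ i) ≠ c ^ i := fun h => hc4 (mul_right_cancel₀ hm
        ((mul_assoc _ _ _).trans (h.trans (one_mul _).symm)))
      have e3 : c ^ 2 * (c ^ 2 * c ^ i) ≠ c ^ 2 * c ^ i := fun h => e1 (mul_left_cancel₀ (pow_ne_zero 2 hc0) h)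
      fin_cases p <;> fin_cases q <;> simp at hpq ⊢
      · exact e1 hpq.symm
      · exact e2 hpq.symm
      · exact e1 hpq
      · exact hpq.elim (fun h => e1 h.symm) hc0
      · exact e2 hpq
      · exact hpq.elim (fun h => e1 h) hc0)
    ![w, ρ b w, ρ b (ρ b w)]
    (by
      intro p
      fin_cases p
      · exact ⟨Module.End.mem_eigenspace_iff.2 hi, hw0⟩
      · exact ⟨Module.End.mem_eigenspace_iff.2 h1, h0 hw0⟩
      · exact ⟨Module.End.mem_eigenspace_iff.2 h2, h0 (h0 hw0)⟩)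
  have hfr := finrank_span_eq_card hli
  rw [Fintype.card_fin] at hfr
  have hle : Submodule.span F (Set.range ![w, ρ b w, ρ b (ρ b w)]) ≤ W := by
    rw [Submodule.span_le]
    rintro _ ⟨p, rfl⟩
    fin_cases p
    · exact hw
    · exact hW b _ hw
    · exact hW b _ (hW b _ hw)
  have h3 := Submodule.finrank_mono hle
  rw [hfr] at h3
  refine Submodule.eq_top_of_finrank_eq ?_
  have h4 := Submodule.finrank_le W
  rw [d] at h4 ⊢
  omega

end

section
variable {X : Type*} [AddCommGroup X] [Module F X] {ρ : Representation F P X}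

/-- coordinates -/
theorem coord [FiniteDimensional F X] (d : finrank F X = 3) {w0 w1 w2 : X}
    (li : ∀ α β γ : F, α • w0 + β • w1 + γ • w2 = 0 → α = 0 ∧ β = 0 ∧ γ = 0) (v : X) :
    ∃ α β γ : F, v = α • w0 + β • w1 + γ • w2 := by
  have hli : LinearIndependent F ![w0, w1, w2] := by
    rw [Fintype.linearIndependent_iff]
    intro g hg
    rw [Fin.sum_univ_three] at hg
    obtain ⟨h0, h1, h2⟩ := li _ _ _ hg
    intro i
    fin_cases i
    · exact h0
    · exact h1
    · exact h2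
  have hsp := hli.span_eq_top_of_card_eq_finrank' (by rw [Fintype.card_fin, d])
  have hv : v ∈ Submodule.span F (Set.range ![w0, w1, w2]) := by rw [hsp]; trivial
  obtain ⟨g, hg⟩ := (Submodule.mem_span_range_iff_exists_fun F).1 hv
  rw [Fin.sum_univ_three] at hg
  exact ⟨g 0, g 1, g 2, hg.symm⟩

theorem finrank_span_pair_le (v w : X) : finrank F ↥(Submodule.span F {v, w}) ≤ 2 := by
  classical
  have h := finrank_span_finset_le_card (R := F) ({v, w} : Finset X)
  rw [Finset.coe_insert, Finset.coe_singleton] at h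
  exact h.trans Finset.card_le_two

/-- the 3-dimensional module with a fixed vector of `⟨z, xx z g⟩` -/
theorem hex3 [FiniteDimensional F X] {ζ z g β : P} {b : F} (hh : Half ζ z g β) (hb : ∀ v, ρ β v = b • v)
    (hb2 : b ^ 2 + b + 1 = 0) (d : finrank F X = 3) (irr : ∀ W : Submodule F X, St ρ W → W = ⊥ ∨ W = ⊤)
    {u : X} (k : KF ρ z g u) (n : u ≠ 0) :
    (∀ v, ρ z (ρ z (ρ z v)) = v + b • ρ z v + b • ρ z (ρ z v)) ∧ ∀ v, ρ z v = v → ∃ s : F, v = s • u := by
  obtain ⟨kz, kx⟩ := k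
  have h2 : (2 : F) = 0 := CharTwo.two_eq_zero
  have hb3 : b ^ 3 = 1 := by linear_combination (b - 1) * hb2
  have hb0 : b ≠ 0 := by
    rintro rfl
    norm_num at hb2
  obtain ⟨w0, hw0⟩ : ∃ w, w = ρ g u := ⟨_, rfl⟩
  obtain ⟨w1, hw1⟩ : ∃ w, w = ρ z w0 := ⟨_, rfl⟩
  obtain ⟨w2, hw2⟩ : ∃ w, w = ρ z w1 := ⟨_, rfl⟩
  obtain ⟨w3, hw3⟩ : ∃ w, w = ρ z w2 := ⟨_, rfl⟩
  obtain ⟨w4, hw4⟩ : ∃ w, w = ρ z w3 := ⟨_, rfl⟩
  have hw5 : ρ z w4 = w0 := by
    rw [hw4, hw3, hw2, hw1, ← rmul, ← rmul, ← rmul, ← rmul, show z * z * z * z * z = z ^ 5 by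
      simp only [pow_succ, pow_zero, one_mul], hh.z5, rone]
  have gg : ∀ v, ρ g (ρ g v) = v := fun v => by rw [← rmul, hh.gg, rone]
  have g0 : ρ g w0 = u := by rw [hw0, gg]
  have w00 : w0 ≠ 0 := by
    intro h
    rw [h, map_zero] at g0
    exact n g0.symm
  have kz' : ρ z⁻¹ u = u := rinv_eq z kz
  have i0 : ρ z⁻¹ w0 = w4 := rinv_eq z hw5
  have i4 : ρ z⁻¹ w4 = w3 := rinv_eq z hw4.symm
  have g4 : ρ g w4 = w4 := by
    have h := congrArg (fun t => ρ t u) hh.r4
    simp only [rmul] at h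
    rw [kx, kz', kx, kz, kx, ← hw0, i0] at h
    have h' : ρ z (ρ g w4) = w0 := by rw [← gg (ρ z (ρ g w4)), h, hw0]
    exact rinj z (h'.trans hw5.symm)
  have g1 : ρ g w1 = b • w2 := by
    have h := congrArg (fun t => ρ t u) hh.r2
    simp only [rmul] at h
    rw [hb, map_smul, map_smul, map_smul, map_smul, map_smul, kz', kx, kz', kx, kz, ← hw0, ← hw1] at h
    have h' : ρ z⁻¹ (ρ z⁻¹ (ρ g w1)) = b • w0 := by rw [← gg (ρ z⁻¹ (ρ z⁻¹ (ρ g w1))), h, map_smul, hw0]
    rw [← rinv' (ρ := ρ) z (ρ g w1), ← rinv' (ρ := ρ) z (ρ z⁻¹ (ρ g w1)), h', map_smul, map_smul, ← hw1, ← hw2]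
  have g2 : ρ g w2 = b ^ 2 • w1 := by
    have h := congrArg (ρ g) g1
    rw [gg, map_smul] at h
    rw [h, smul_smul, ← pow_succ, hb3, one_smul]
  have g3 : ρ g w3 = w3 := by
    have h := kx
    rw [xx] at h
    simp only [rmul] at h
    rw [← hw0, i0, i4] at h
    have h' : ρ z (ρ z (ρ g w3)) = w0 := by rw [← gg (ρ z (ρ z (ρ g w3))), h, hw0]
    exact rinj z (rinj z (h'.trans (by rw [← hw4, hw5])))
  -- `w0`, `w1`, `w2` are independent
  have hC : u ∉ Submodule.span F {w0, w1} ∨ w2 ∉ Submodule.span F {w0, w1} := by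
    by_contra hcon
    push Not at hcon
    obtain ⟨hu, hw2m⟩ := hcon
    have m0 : w0 ∈ Submodule.span F {w0, w1} := Submodule.subset_span (by simp)
    have m1 : w1 ∈ Submodule.span F {w0, w1} := Submodule.subset_span (by simp)
    have hst : St ρ (Submodule.span F {w0, w1}) := by
      refine st_of_gen hh.gen ?_
      intro a ha w hw
      obtain ⟨p, q, rfl⟩ := Submodule.mem_span_pair.1 hw
      rw [map_add, map_smul, map_smul]
      rcases ha with rfl | ha
      · rw [← hw1, ← hw2]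
        exact Submodule.add_mem _ (Submodule.smul_mem _ _ m1) (Submodule.smul_mem _ _ hw2m)
      · rw [Set.mem_singleton_iff.1 ha, g0, g1]
        exact Submodule.add_mem _ (Submodule.smul_mem _ _ hu) (Submodule.smul_mem _ _ (Submodule.smul_mem _ _ hw2m))
    rcases irr _ hst with h | h
    · rw [h, Submodule.mem_bot] at m0
      exact w00 m0
    · have h3 := finrank_span_pair_le (F := F) w0 w1
      rw [h, finrank_top, d] at h3
      omega
  have hw2n : w2 ∉ Submodule.span F {w0, w1} := by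
    intro hw2m
    rcases hC with hC | hC
    · apply hC
      obtain ⟨p, q, hpq⟩ := Submodule.mem_span_pair.1 hw2m
      have h := congrArg (ρ g) hpq
      rw [map_add, map_smul, map_smul, g0, g1, g2] at h
      by_cases hp : p = 0
      · rw [hp, zero_smul, zero_add] at h hpq
        -- `w2 = q w1`, `w1 = q w0`
        have e1 : w1 = q • w0 := by
          apply rinj (ρ := ρ) z
          rw [map_smul, ← hw1, ← hw2, hpq]
        have e2 := congrArg (ρ g) e1
        rw [map_smul, g0, g1] at e2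
        have hq : q ≠ 0 := by
          rintro rfl
          rw [zero_smul] at e1
          rw [e1] at hw1
          exact w00 (rinj z (hw1.symm.trans (map_zero _).symm))
        have e3 : u = (q⁻¹ * b) • w2 := by
          rw [mul_smul, e2, smul_smul, inv_mul_cancel₀ hq, one_smul]
        rw [e3]
        exact Submodule.smul_mem _ _ hw2m
      · have e3 : u = p⁻¹ • (b ^ 2 • w1 - q • b • w2) := by
          rw [← h, add_sub_cancel_right, smul_smul, inv_mul_cancel₀ hp, one_smul]
        rw [e3]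
        exact Submodule.smul_mem _ _ (Submodule.sub_mem _ (Submodule.smul_mem _ _ (Submodule.subset_span (by simp)))
          (Submodule.smul_mem _ _ (Submodule.smul_mem _ _ hw2m)))
    · exact hC hw2m
  have hli : ∀ α β γ : F, α • w0 + β • w1 + γ • w2 = 0 → α = 0 ∧ β = 0 ∧ γ = 0 := by
    intro α β γ h
    have hγ : γ = 0 := by
      by_contra hγ
      apply hw2n
      have e : w2 = -(γ⁻¹ • (α • w0 + β • w1)) := by
        rw [eq_neg_iff_add_eq_zero, ← smul_right_injective _ hγ |>.eq_iff]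
        simp only [smul_add, smul_smul, mul_inv_cancel₀ hγ, ← mul_assoc, one_mul, smul_zero]
        rw [← h]
        abel
      rw [e]
      exact Submodule.neg_mem _ (Submodule.smul_mem _ _ (Submodule.add_mem _
        (Submodule.smul_mem _ _ (Submodule.subset_span (by simp))) (Submodule.smul_mem _ _ (Submodule.subset_span (by simp)))))
    subst hγ
    rw [zero_smul, add_zero] at h
    have hβ : β = 0 := by
      by_contra hβ
      apply hw2n
      -- `w1 = m w0`
      have e : w1 = (-(β⁻¹ * α)) • w0 := by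
        have h' := congrArg (fun t => β⁻¹ • t) h
        simp only [smul_add, smul_smul, inv_mul_cancel₀ hβ, one_smul, smul_zero] at h'
        rw [neg_smul, eq_neg_iff_add_eq_zero, add_comm]
        exact h'
      have e2 : w2 = (-(β⁻¹ * α)) • w1 := by rw [hw2, e, map_smul, ← hw1, e]
      rw [e2]
      exact Submodule.smul_mem _ _ (Submodule.subset_span (by simp))
    subst hβ
    rw [zero_smul, add_zero] at h
    exact ⟨(smul_eq_zero.1 h).resolve_right w00, rfl, rfl⟩
  have heq : ∀ {α β γ α' β' γ' : F}, α • w0 + β • w1 + γ • w2 = α' • w0 + β' • w1 + γ' • w2 → α = α' ∧ β = β' ∧ γ = γ' := by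
    intro α β γ α' β' γ' h
    have h' : (α - α') • w0 + (β - β') • w1 + (γ - γ') • w2 = 0 := by
      rw [sub_smul, sub_smul, sub_smul, ← sub_eq_zero.2 h]
      abel
    obtain ⟨e1, e2, e3⟩ := hli _ _ _ h'
    exact ⟨sub_eq_zero.1 e1, sub_eq_zero.1 e2, sub_eq_zero.1 e3⟩
  obtain ⟨A, B, C, h3⟩ := coord d hli w3
  obtain ⟨x0, x1, x2, hu⟩ := coord d hli u
  -- the equations
  have E1 : x2 * A = x0 ∧ x0 + x2 * B = x1 ∧ x1 + x2 * C = x2 := by
    have h := kz
    rw [hu, map_add, map_add, map_smul, map_smul, map_smul, ← hw1, ← hw2, ← hw3, h3] at h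
    refine heq (Eq.trans ?_ h)
    simp only [smul_add, smul_smul, add_smul]
    abel
  have E2 : A * x0 = A ∧ A * x1 + C * b ^ 2 = B ∧ A * x2 + B * b = C := by
    have h := g3
    rw [h3, map_add, map_add, map_smul, map_smul, map_smul, g0, g1, g2, hu] at h
    refine heq (Eq.trans ?_ h)
    simp only [smul_add, smul_smul, add_smul]
    abel
  have E3 : x0 * x0 = 1 ∧ x0 * x1 + x2 * b ^ 2 = 0 ∧ x0 * x2 + x1 * b = 0 := by
    have h : ρ g u = w0 := hw0.symm
    rw [hu, map_add, map_add, map_smul, map_smul, map_smul, g0, g1, g2, hu] at h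
    refine heq (Eq.trans ?_ (h.trans (show w0 = (1 : F) • w0 + (0 : F) • w1 + (0 : F) • w2 by
      rw [one_smul, zero_smul, zero_smul, add_zero, add_zero])))
    simp only [smul_add, smul_smul, add_smul]
    abel
  obtain ⟨a1, a2, a3⟩ := E1
  obtain ⟨b1, b2, b3⟩ := E2
  obtain ⟨c1, c2, c3⟩ := E3
  have x01 : x0 = 1 := sq_one c1
  subst x01
  have x21 : x2 = b * x1 := by linear_combination c3 - x1 * b * h2
  subst x21
  have x10 : x1 ≠ 0 := by
    rintro rfl
    rw [mul_zero, zero_mul] at a1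
    exact zero_ne_one a1
  have hCb : C = b := by
    have h : x1 * (b * (C - b)) = 0 := by linear_combination a3 - x1 * hb2 + b * x1 * h2 - 0 * h2
    rcases mul_eq_zero.1 h with h | h
    · exact absurd h x10
    · rcases mul_eq_zero.1 h with h | h
      · exact absurd h hb0
      · exact sub_eq_zero.1 h
  subst hCb
  have hBC : B = C := by
    have h : C * (B - C) = 0 := by linear_combination b3 - a1 - hb2 + C * h2
    rcases mul_eq_zero.1 h with h | h
    · exact absurd h hb0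
    · exact sub_eq_zero.1 h
  subst hBC
  have hbx : B * x1 = 1 := by linear_combination -a2 + x1 * hb2 - x1 * h2
  have hA1 : A = 1 := by linear_combination a1 - A * hbx
  subst hA1
  rw [one_smul] at h3
  constructor
  · have q0 : ρ z (ρ z (ρ z w0)) = w0 + B • ρ z w0 + B • ρ z (ρ z w0) := by rw [← hw1, ← hw2, ← hw3, h3]
    have q1 : ρ z (ρ z (ρ z w1)) = w1 + B • ρ z w1 + B • ρ z (ρ z w1) := by
      have h := congrArg (ρ z) q0
      rw [map_add, map_add, map_smul, map_smul, ← hw1] at h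
      exact h
    have q2 : ρ z (ρ z (ρ z w2)) = w2 + B • ρ z w2 + B • ρ z (ρ z w2) := by
      have h := congrArg (ρ z) q1
      rw [map_add, map_add, map_smul, map_smul, ← hw2] at h
      exact h
    intro v
    obtain ⟨α, β, γ, rfl⟩ := coord d hli v
    simp only [map_add, map_smul]
    rw [q0, q1, q2]
    module
  · intro v hv
    obtain ⟨α, β, γ, rfl⟩ := coord d hli v
    rw [map_add, map_add, map_smul, map_smul, map_smul, ← hw1, ← hw2, ← hw3, h3] at hv
    have h : γ = α ∧ α + B * γ = β ∧ β + B * γ = γ := by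
      refine heq (Eq.trans ?_ hv)
      module
    obtain ⟨e1, e2, e3⟩ := h
    subst e1
    refine ⟨γ, ?_⟩
    have hx1 : x1 = B ^ 2 := by linear_combination B ^ 2 * hbx - x1 * hb3
    have e4 : β = γ * x1 := by rw [hx1]; linear_combination -e2 - γ * hb2 + γ * (1 + B) * h2
    rw [hu, hbx, e4]
    module

end

/-! ### vectors and functionals fixed by `A₅` -/

theorem xx_sq {z g : P} (h : g * g = 1) : xx z g * xx z g = 1 := by
  have h1 : xx z g = (g * z * z) * g * (g * z * z)⁻¹ := by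
    rw [xx, mul_inv_rev, mul_inv_rev, inv_eq_of_mul_eq_one_left h]
    simp only [mul_assoc]
  rw [h1]
  calc (g * z * z) * g * (g * z * z)⁻¹ * ((g * z * z) * g * (g * z * z)⁻¹)
      = (g * z * z) * (g * g) * (g * z * z)⁻¹ := by group
    _ = 1 := by rw [h, mul_one, mul_inv_cancel]

section
variable {X : Type*} [AddCommGroup X] [Module F X] {ρ : Representation F P X}

theorem two_ev [FiniteDimensional F X] {T : X →ₗ[F] X} (hT : ∀ v, T (T v) = v) : finrank F X ≤ 2 * ev T 1 := by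
  have h := LinearMap.finrank_range_add_finrank_ker (T - 1)
  have h1 : LinearMap.range (T - 1) ≤ Module.End.eigenspace T 1 := by
    rintro _ ⟨v, rfl⟩
    rw [Module.End.mem_eigenspace_iff, one_smul, LinearMap.sub_apply, Module.End.one_apply, map_sub, hT]
    rw [sub_eq_sub_iff_add_eq_add, add_self F, add_self F]
  have h2 : LinearMap.ker (T - 1) ≤ Module.End.eigenspace T 1 := by
    intro v hv
    rw [LinearMap.mem_ker, LinearMap.sub_apply, Module.End.one_apply, sub_eq_zero] at hv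
    rw [Module.End.mem_eigenspace_iff, one_smul, hv]
  have h3 := Submodule.finrank_mono h1
  have h4 := Submodule.finrank_mono h2
  rw [ev]
  omega

theorem exists_kf [FiniteDimensional F X] {ζ z g β : P} {c : F} (hh : Half ζ z g β) (hc : Ch ρ ζ c)
    (d : finrank F X = 3) {u : X} (hu : ρ z u = u) (n : u ≠ 0) :
    (∃ w, w ≠ 0 ∧ KF ρ z g w) ∨ ∃ f : X →ₗ[F] F, f ≠ 0 ∧ (∀ v, f (ρ z v) = f v) ∧ ∀ v, f (ρ (xx z g) v) = f v := by
  have hx2 := xx_sq (z := z) hh.gg
  let θ : FreeGroup Bool →* P := FreeGroup.lift (fun i => if i then xx z g else xx z g * z)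
  have t1 : θ (FreeGroup.of true) = xx z g := by rw [FreeGroup.lift_apply_of]; rfl
  have t2 : θ (FreeGroup.of false) = xx z g * z := by rw [FreeGroup.lift_apply_of]; rfl
  have t3 : θ (FreeGroup.of true * FreeGroup.of false) = z := by
    rw [map_mul, t1, t2, ← mul_assoc, hx2, one_mul]
  have hgen : Subgroup.closure {FreeGroup.of true, FreeGroup.of false} = (⊤ : Subgroup (FreeGroup Bool)) := by
    rw [← FreeGroup.closure_range_of]
    congr 1
    ext v
    constructor
    · rintro (rfl | h)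
      · exact ⟨true, rfl⟩
      · exact ⟨false, (Set.mem_singleton_iff.1 h).symm⟩
    · rintro ⟨i, rfl⟩
      cases i
      · exact Or.inr rfl
      · exact Or.inl rfl
  have hsc := H952.F4.Scott.scott (MonoidHom.comp ρ θ : Representation F _ X) hgen
  have e1 : ev ((MonoidHom.comp ρ θ) (FreeGroup.of true)) 1 = ev (ρ (xx z g)) 1 := by rw [MonoidHom.comp_apply, t1]
  have e2 : ev ((MonoidHom.comp ρ θ) (FreeGroup.of false)) 1 = ev (ρ (xx z g * z)) 1 := by rw [MonoidHom.comp_apply, t2]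
  have e3 : ev ((MonoidHom.comp ρ θ) (FreeGroup.of true * FreeGroup.of false)) 1 = ev (ρ z) 1 := by
    rw [MonoidHom.comp_apply, t3]
  have f1 := two_ev (F := F) (T := ρ (xx z g)) (fun v => by rw [← rmul, hx2, rone])
  have f2 : 0 < ev (ρ (xx z g * z)) 1 := by
    have : Nontrivial X := ⟨u, 0, n⟩
    obtain ⟨w, hw0, hw⟩ := exists_fix (ρ := ρ) hc hh.c3 hh.t3
    rw [ev, Module.finrank_pos_iff_exists_ne_zero]
    exact ⟨⟨w, Module.End.mem_eigenspace_iff.2 (by rw [hw, one_smul])⟩, fun h => hw0 (congrArg Subtype.val h)⟩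
  have f3 : 0 < ev (ρ z) 1 := by
    rw [ev, Module.finrank_pos_iff_exists_ne_zero]
    exact ⟨⟨u, Module.End.mem_eigenspace_iff.2 (by rw [hu, one_smul])⟩, fun h => n (congrArg Subtype.val h)⟩
  have hz : z = xx z g * (xx z g * z) := by rw [← mul_assoc, hx2, one_mul]
  by_cases h1 : Representation.invariants (MonoidHom.comp ρ θ) = ⊥
  · right
    have h2 : (Representation.dual (MonoidHom.comp ρ θ : Representation F _ X)).invariants ≠ ⊥ := by
      intro h2
      rw [h1, h2, finrank_bot, finrank_bot, add_zero, add_zero] at hsc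
      have hsc' : ev ((MonoidHom.comp ρ θ) (FreeGroup.of true)) 1 + ev ((MonoidHom.comp ρ θ) (FreeGroup.of false)) 1 +
        ev ((MonoidHom.comp ρ θ) (FreeGroup.of true * FreeGroup.of false)) 1 ≤ finrank F X := hsc
      rw [e1, e2, e3] at hsc'
      omega
    obtain ⟨f, hf, hf0⟩ := Submodule.exists_mem_ne_zero_of_ne_bot h2
    rw [Representation.mem_invariants] at hf
    have hf1 : ∀ p v, f (ρ (θ p) v) = f v := by
      intro p v
      have h := LinearMap.congr_fun (hf p⁻¹) v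
      have h' : f (ρ (θ (p⁻¹)⁻¹) v) = f v := h
      rw [inv_inv] at h'
      exact h'
    refine ⟨f, hf0, fun v => ?_, fun v => ?_⟩
    · have h := hf1 (FreeGroup.of true * FreeGroup.of false) v
      rwa [t3] at h
    · have h := hf1 (FreeGroup.of true) v
      rwa [t1] at h
  · left
    obtain ⟨v, hv, hv0⟩ := Submodule.exists_mem_ne_zero_of_ne_bot h1
    rw [Representation.mem_invariants] at hv
    refine ⟨v, hv0, ?_, ?_⟩
    · have h : ρ (θ (FreeGroup.of true * FreeGroup.of false)) v = v := hv _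
      rwa [t3] at h
    · have h : ρ (θ (FreeGroup.of true)) v = v := hv _
      rwa [t1] at h

/-- the sum of the powers of `z` -/
def pz (ρ : Representation F P X) (z : P) (v : X) : X :=
  v + ρ z v + ρ z (ρ z v) + ρ z (ρ z (ρ z v)) + ρ z (ρ z (ρ z (ρ z v)))

theorem pz_fix {z : P} (z5 : z ^ 5 = 1) (v : X) : ρ z (pz ρ z v) = pz ρ z v := by
  have h : ρ z (ρ z (ρ z (ρ z (ρ z v)))) = v := by
    rw [← rmul, ← rmul, ← rmul, ← rmul, show z * z * z * z * z = z ^ 5 by
      simp only [pow_succ, pow_zero, one_mul], z5, rone]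
  simp only [pz, map_add]
  rw [h]
  abel

theorem pz_fn {z : P} {Y : Type*} [AddCommGroup Y] [Module F Y] {f : X →ₗ[F] Y} (hf : ∀ v, f (ρ z v) = f v) (v : X) :
    f (pz ρ z v) = f v := by
  simp only [pz, map_add, hf]
  rw [add_self F, zero_add, add_self F, zero_add]

theorem eig_one {z x : P} (z5 : z ^ 5 = 1) (hx : x * x = 1) (hx3 : (x * z) ^ 3 = 1) {q : X} (hq : q ≠ 0) {l m : F}
    (h1 : ρ z q = l • q) (h2 : ρ x q = m • q) : l = 1 ∧ m = 1 := by
  have hm : m = 1 := by
    apply sq_one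
    have h := h2
    have h' : ρ x (ρ x q) = q := by rw [← rmul, hx, rone]
    rw [h2, map_smul, h2, smul_smul] at h'
    exact smul_left_injective F hq (h'.trans (one_smul F q).symm)
  subst hm
  rw [one_smul] at h2
  have e1 : ρ (x * z) q = l • q := by rw [rmul, h1, map_smul, h2]
  have e3 : l ^ 3 = 1 := by
    have h : ρ (x * z) (ρ (x * z) (ρ (x * z) q)) = q := by
      rw [← rmul, ← rmul, ← pow_three', hx3, rone]
    rw [e1, map_smul, e1, map_smul, map_smul, e1, smul_smul, smul_smul] at h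
    exact smul_left_injective F hq ((by rw [pow_three, mul_assoc] at *; exact h : l ^ 3 • q = q).trans (one_smul F q).symm)
  have e5 : l ^ 5 = 1 := by
    have h : ρ z (ρ z (ρ z (ρ z (ρ z q)))) = q := by
      rw [← rmul, ← rmul, ← rmul, ← rmul, show z * z * z * z * z = z ^ 5 by
        simp only [pow_succ, pow_zero, one_mul], z5, rone]
    simp only [h1, map_smul, smul_smul] at h
    exact smul_left_injective F hq ((by rw [show l ^ 5 = l * (l * (l * (l * l))) by ring]; simpa only [mul_assoc] using h :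
      l ^ 5 • q = q).trans (one_smul F q).symm)
  exact ⟨by linear_combination (l ^ 3 + 1) * e3 - l * e5, rfl⟩

/-- the same for functionals -/
theorem eig_one' {z x : P} (z5 : z ^ 5 = 1) (hx : x * x = 1) (hx3 : (x * z) ^ 3 = 1) {f : X →ₗ[F] F} (hf : f ≠ 0) {l m : F}
    (h1 : ∀ v, f (ρ z v) = l * f v) (h2 : ∀ v, f (ρ x v) = m * f v) : l = 1 ∧ m = 1 := by
  obtain ⟨q, hq⟩ : ∃ q, f q ≠ 0 := by
    by_contra hcon
    push Not at hcon
    exact hf (LinearMap.ext hcon)
  have hm : m = 1 := by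
    apply sq_one
    have h' : f (ρ x (ρ x q)) = f q := by rw [← rmul, hx, rone]
    rw [h2, h2, ← mul_assoc] at h'
    exact mul_right_cancel₀ hq (h'.trans (one_mul _).symm)
  subst hm
  have e1 : ∀ v, f (ρ (x * z) v) = l * f v := fun v => by rw [rmul, h2, h1, one_mul]
  have e3 : l ^ 3 = 1 := by
    have h : f (ρ (x * z) (ρ (x * z) (ρ (x * z) q))) = f q := by
      rw [← rmul, ← rmul, ← pow_three', hx3, rone]
    rw [e1, e1, e1] at h
    exact mul_right_cancel₀ hq (by linear_combination h)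
  have e5 : l ^ 5 = 1 := by
    have h : f (ρ z (ρ z (ρ z (ρ z (ρ z q))))) = f q := by
      rw [← rmul, ← rmul, ← rmul, ← rmul, show z * z * z * z * z = z ^ 5 by
        simp only [pow_succ, pow_zero, one_mul], z5, rone]
    simp only [h1] at h
    exact mul_right_cancel₀ hq (by linear_combination h)
  exact ⟨by linear_combination (l ^ 3 + 1) * e3 - l * e5, rfl⟩

/-- `X` of dimension 3, with a vector `u` fixed by `⟨z, x⟩` and a functional `f` fixed by `⟨z, y⟩` -/
structure Ty (ρ : Representation F P X) (z x y : P) (u : X) (f : X →ₗ[F] F) (b : F) : Prop where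
  z5 : z ^ 5 = 1
  xx : x * x = 1
  yy : y * y = 1
  x3 : (x * z) ^ 3 = 1
  y3 : (y * z) ^ 3 = 1
  gen : Subgroup.closure {z, x, y} = ⊤
  irr : ∀ W : Submodule F X, St ρ W → W = ⊥ ∨ W = ⊤
  nofix : ∀ v : X, (∀ g, ρ g v = v) → v = 0
  d : finrank F X = 3
  uz : ρ z u = u
  ux : ρ x u = u
  fz : ∀ v, f (ρ z v) = f v
  fy : ∀ v, f (ρ y v) = f v
  fu : f u = 1
  hu : ∀ v, ρ z v = v → ∃ s : F, v = s • u
  cub : ∀ v, ρ z (ρ z (ρ z v)) = v + b • ρ z v + b • ρ z (ρ z v)

variable {z x y : P} {u : X} {f : X →ₗ[F] F} {b : F}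

theorem Ty.f_ne (T : Ty ρ z x y u f b) : f ≠ 0 := by
  intro h
  have h1 := T.fu
  rw [h, LinearMap.zero_apply] at h1
  exact zero_ne_one h1

theorem Ty.u_ne (T : Ty ρ z x y u f b) : u ≠ 0 := by
  intro h
  have h1 := T.fu
  rw [h, map_zero] at h1
  exact zero_ne_one h1

theorem Ty.pz_eq (T : Ty ρ z x y u f b) (v : X) : pz ρ z v = f v • u := by
  obtain ⟨s, hs⟩ := T.hu _ (pz_fix T.z5 v)
  have h := congrArg f hs
  rw [pz_fn T.fz, map_smul, T.fu, smul_eq_mul, mul_one] at h
  rw [hs, h]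

/-- subspaces stable under `⟨z, x⟩` in the kernel of `f` -/
theorem Ty.low [FiniteDimensional F X] (T : Ty ρ z x y u f b) {Q : Submodule F X} (h1 : ∀ q ∈ Q, ρ z q ∈ Q) (h2 : ∀ q ∈ Q, ρ x q ∈ Q)
    (h3 : ∀ q ∈ Q, f q = 0) : Q = ⊥ := by
  have hle : Q ≤ LinearMap.ker f := fun q hq => h3 q hq
  have hk := Module.Dual.finrank_ker_add_one_of_ne_zero (f := f) T.f_ne
  rw [T.d] at hk
  have hd := Submodule.finrank_mono hle
  by_contra hQ
  have hQ1 : finrank F Q ≠ 0 := fun h => hQ (Submodule.finrank_eq_zero.1 h)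
  rcases (by omega : finrank F Q = 1 ∨ finrank F Q = 2) with h | h
  · obtain ⟨⟨q, hq⟩, hq0, hq1⟩ := finrank_eq_one_iff'.1 h
    have hq0' : q ≠ 0 := fun h => hq0 (Subtype.ext h)
    obtain ⟨l, hl⟩ := hq1 ⟨_, h1 q hq⟩
    obtain ⟨m, hm⟩ := hq1 ⟨_, h2 q hq⟩
    have hl' : ρ z q = l • q := (congrArg Subtype.val hl).symm
    have hm' : ρ x q = m • q := (congrArg Subtype.val hm).symm
    obtain ⟨rfl, rfl⟩ := eig_one T.z5 T.xx T.x3 hq0' hl' hm'
    rw [one_smul] at hl'
    obtain ⟨s, hs⟩ := T.hu q hl'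
    have h4 := h3 q hq
    rw [hs, map_smul, T.fu, smul_eq_mul, mul_one] at h4
    rw [h4, zero_smul] at hs
    exact hq0' hs
  · have hQk : Q = LinearMap.ker f := Submodule.eq_of_le_of_finrank_eq hle (by omega)
    have hst : St ρ Q := by
      refine st_of_gen T.gen ?_
      rintro a (rfl | rfl | ha) w hw
      · exact h1 w hw
      · exact h2 w hw
      · rw [Set.mem_singleton_iff.1 ha]
        rw [hQk, LinearMap.mem_ker] at hw ⊢
        rw [T.fy, hw]
    rcases T.irr _ hst with h5 | h5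
    · exact hQ h5
    · rw [h5, finrank_top, T.d] at h
      omega

/-- subspaces stable under `⟨z, y⟩` containing `u` -/
theorem Ty.high [FiniteDimensional F X] (T : Ty ρ z x y u f b) {Q : Submodule F X} (h1 : ∀ q ∈ Q, ρ z q ∈ Q) (h2 : ∀ q ∈ Q, ρ y q ∈ Q)
    (h3 : u ∈ Q) : Q = ⊤ := by
  by_contra hQ
  have hd := Submodule.finrank_lt hQ
  rw [T.d] at hd
  have hQ1 : finrank F Q ≠ 0 := fun h => T.u_ne ((Submodule.mem_bot F).1 ((Submodule.finrank_eq_zero.1 h) ▸ h3))
  rcases (by omega : finrank F Q = 1 ∨ finrank F Q = 2) with h | h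
  · obtain ⟨m, hm⟩ := (finrank_eq_one_iff_of_nonzero' (⟨u, h3⟩ : Q) (fun h => T.u_ne (congrArg Subtype.val h))).1 h
      ⟨_, h2 u h3⟩
    have hm' : ρ y u = m • u := (congrArg Subtype.val hm).symm
    obtain ⟨-, rfl⟩ := eig_one T.z5 T.yy T.y3 T.u_ne (l := 1) (by rw [one_smul, T.uz]) hm'
    rw [one_smul] at hm'
    refine T.u_ne (T.nofix u fun g => fix_of_gen T.gen ?_ g)
    rintro a (rfl | rfl | ha)
    · exact T.uz
    · exact T.ux
    · rw [Set.mem_singleton_iff.1 ha, hm']
  · obtain ⟨l, hl0, hl⟩ := Submodule.exists_le_ker_of_lt_top Q (lt_top_iff_ne_top.2 hQ)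
    have hk := Module.Dual.finrank_ker_add_one_of_ne_zero (f := l) hl0
    rw [T.d] at hk
    have hQk : Q = LinearMap.ker l := Submodule.eq_of_le_of_finrank_eq hl (by omega)
    have hz : ∃ c : F, ∀ v, (l ∘ₗ ρ z) v = c * l v := smul_of_ker_le hl0 fun v hv => by
      have h4 : v ∈ Q := by rw [hQk]; exact hv
      have h5 := h1 v h4
      rw [hQk] at h5
      exact h5
    have hy : ∃ c : F, ∀ v, (l ∘ₗ ρ y) v = c * l v := smul_of_ker_le hl0 fun v hv => by
      have h4 : v ∈ Q := by rw [hQk]; exact hv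
      have h5 := h2 v h4
      rw [hQk] at h5
      exact h5
    obtain ⟨c1, hc1⟩ := hz
    obtain ⟨c2, hc2⟩ := hy
    obtain ⟨rfl, rfl⟩ := eig_one' T.z5 T.yy T.y3 hl0 hc1 hc2
    apply hl0
    apply LinearMap.ext
    intro v
    have h6 := pz_fn (ρ := ρ) (z := z) (f := l) (fun v => (hc1 v).trans (one_mul _)) v
    rw [T.pz_eq, map_smul, LinearMap.mem_ker.1 (hQk ▸ h3 : u ∈ LinearMap.ker l), smul_zero] at h6
    exact h6.symm

end

/-! ### the tensor product -/

section
variable {X₁ X₂ : Type*} [AddCommGroup X₁] [Module F X₁] [AddCommGroup X₂] [Module F X₂]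
  {ρ₁ : Representation F P X₁} {ρ₂ : Representation F P X₂}

/-- contraction with a functional -/
noncomputable def Fn (f : X₁ →ₗ[F] F) : X₁ ⊗[F] X₂ →ₗ[F] X₂ := (TensorProduct.lid F X₂).toLinearMap ∘ₗ LinearMap.rTensor X₂ f

theorem Fn_tmul (f : X₁ →ₗ[F] F) (x : X₁) (y : X₂) : Fn f (x ⊗ₜ[F] y) = f x • y := by
  rw [Fn, LinearMap.comp_apply, LinearMap.rTensor_tmul]
  exact TensorProduct.lid_tmul _ _

theorem Fn_act (f : X₁ →ₗ[F] F) (k : P) (t : X₁ ⊗[F] X₂) : Fn f ((ρ₁.tprod ρ₂) k t) = ρ₂ k (Fn (f ∘ₗ ρ₁ k) t) := by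
  induction t using TensorProduct.induction_on with
  | zero => simp only [map_zero]
  | tmul x y =>
    rw [Representation.tprod_apply, TensorProduct.map_tmul, Fn_tmul, Fn_tmul, map_smul]
    rfl
  | add t t' h h' => rw [map_add, map_add, h, h', map_add, map_add]

theorem Fn_zero (t : X₁ ⊗[F] X₂) : Fn (0 : X₁ →ₗ[F] F) t = 0 := by
  induction t using TensorProduct.induction_on with
  | zero => simp only [map_zero]
  | tmul x y => rw [Fn_tmul, LinearMap.zero_apply, zero_smul]
  | add t t' h h' => rw [map_add, h, h', add_zero]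

theorem Fn_add (f g : X₁ →ₗ[F] F) (t : X₁ ⊗[F] X₂) : Fn (f + g) t = Fn f t + Fn g t := by
  induction t using TensorProduct.induction_on with
  | zero => simp only [map_zero, add_zero]
  | tmul x y => rw [Fn_tmul, Fn_tmul, Fn_tmul, LinearMap.add_apply, add_smul]
  | add t t' h h' => rw [map_add, h, h', map_add, map_add]; abel

theorem Fn_smul (f : X₁ →ₗ[F] F) (r : F) (t : X₁ ⊗[F] X₂) : Fn (r • f) t = r • Fn f t := by
  induction t using TensorProduct.induction_on with
  | zero => simp only [map_zero, smul_zero]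
  | tmul x y => rw [Fn_tmul, Fn_tmul, LinearMap.smul_apply, smul_smul, smul_eq_mul]
  | add t t' h h' => rw [map_add, h, h', map_add, smul_add]

theorem Fn_inj [FiniteDimensional F X₁] {t : X₁ ⊗[F] X₂} (h : ∀ f : X₁ →ₗ[F] F, Fn f t = 0) : t = 0 := by
  have key : ∀ t : X₁ ⊗[F] X₂, t = ∑ i, (Module.finBasis F X₁) i ⊗ₜ[F] Fn ((Module.finBasis F X₁).coord i) t := by
    intro t
    induction t using TensorProduct.induction_on with
    | zero => simp only [map_zero, TensorProduct.tmul_zero, Finset.sum_const_zero]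
    | tmul x y =>
      simp only [Fn_tmul, TensorProduct.tmul_smul]
      simp only [TensorProduct.smul_tmul']
      rw [← TensorProduct.sum_tmul]
      congr 1
      exact ((Module.finBasis F X₁).sum_repr x).symm
    | add t t' h h' =>
      simp only [map_add, TensorProduct.tmul_add]
      rw [Finset.sum_add_distrib, ← h, ← h']
  rw [key t]
  exact Finset.sum_eq_zero fun i _ => by rw [h, TensorProduct.tmul_zero]

variable [FiniteDimensional F X₁] [FiniteDimensional F X₂] {z x y : P} {u₁ : X₁} {u₂ : X₂} {f₁ : X₁ →ₗ[F] F} {f₂ : X₂ →ₗ[F] F} {b b' : F}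

/-- vectors of the tensor product fixed by `z` -/
theorem fix_t (T₁ : Ty ρ₁ z x y u₁ f₁ b) (T₂ : Ty ρ₂ z y x u₂ f₂ b') (hb : b + b' = 1) {t : X₁ ⊗[F] X₂}
    (ht : (ρ₁.tprod ρ₂) z t = t) : ∃ s : F, t = s • (u₁ ⊗ₜ[F] u₂) := by
  obtain ⟨A, hA⟩ : ∃ A : X₁ ⊗[F] X₂ →ₗ[F] X₁ ⊗[F] X₂, A = LinearMap.rTensor X₂ (ρ₁ z) := ⟨_, rfl⟩
  obtain ⟨C, hC⟩ : ∃ C : X₁ ⊗[F] X₂ →ₗ[F] X₁ ⊗[F] X₂, C = LinearMap.lTensor X₁ (ρ₂ z) := ⟨_, rfl⟩
  have At : ∀ v w, A (v ⊗ₜ[F] w) = ρ₁ z v ⊗ₜ[F] w := fun v w => by rw [hA, LinearMap.rTensor_tmul]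
  have Ct : ∀ v w, C (v ⊗ₜ[F] w) = v ⊗ₜ[F] ρ₂ z w := fun v w => by rw [hC, LinearMap.lTensor_tmul]
  have hAC : ∀ t, C (A t) = (ρ₁.tprod ρ₂) z t := by
    intro t
    induction t using TensorProduct.induction_on with
    | zero => simp only [map_zero]
    | tmul v w => rw [Representation.tprod_apply, TensorProduct.map_tmul, At, Ct]
    | add t t' h h' => rw [map_add, map_add, h, h', map_add]
  have hCA : ∀ t, C (A t) = A (C t) := by
    intro t
    induction t using TensorProduct.induction_on with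
    | zero => simp only [map_zero]
    | tmul v w => rw [At, Ct, Ct, At]
    | add t t' h h' => rw [map_add, map_add, h, h', map_add, map_add]
  have A3 : ∀ t, A (A (A t)) = t + b • A t + b • A (A t) := by
    intro t
    induction t using TensorProduct.induction_on with
    | zero => simp only [map_zero, smul_zero, add_zero]
    | tmul v w =>
      rw [At, At, At, T₁.cub, TensorProduct.add_tmul, TensorProduct.add_tmul, TensorProduct.smul_tmul', TensorProduct.smul_tmul']
    | add t t' h h' => simp only [map_add, h, h', smul_add]; abel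
  have C3 : ∀ t, C (C (C t)) = t + b' • C t + b' • C (C t) := by
    intro t
    induction t using TensorProduct.induction_on with
    | zero => simp only [map_zero, smul_zero, add_zero]
    | tmul v w =>
      rw [Ct, Ct, Ct, T₂.cub, TensorProduct.tmul_add, TensorProduct.tmul_add, TensorProduct.tmul_smul, TensorProduct.tmul_smul]
    | add t t' h h' => simp only [map_add, h, h', smul_add]; abel
  have Ainj : ∀ {t t'}, A t = A t' → t = t' := by
    intro t t' h
    have h1 : ∀ t, t = A (A (A t)) + b • A t + b • A (A t) := by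
      intro t
      rw [A3]
      have e1 := add_self F (b • A t)
      have e2 := add_self F (b • A (A t))
      calc t = t + (b • A t + b • A t) + (b • A (A t) + b • A (A t)) := by rw [e1, e2, add_zero, add_zero]
        _ = _ := by abel
    rw [h1 t, h1 t', h]
  -- `C` is inverse to `A` on `t`
  have c1 : C (A t) = t := by rw [hAC, ht]
  have c2 : C (A (A t)) = A t := by rw [hCA, c1]
  have c3 : C (A (A (A t))) = A (A t) := by rw [hCA, c2]
  have hE := C3 (A (A (A t)))
  rw [c3, c2, c1, A3] at hE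
  have hA1 : A t = t := by
    have e1 := add_self F (b • A t)
    have hs : (b + b') • (A t + A (A t)) = 0 := by
      have h2 : (b + b') • (A t + A (A t)) = (t + b • A t + b • A (A t) + b' • A (A t) + b' • A t) - t := by module
      rw [h2, ← hE, sub_self]
    rw [hb, one_smul] at hs
    have h3 : A (A t) = A t := by
      have h4 := add_self F (A t)
      rw [← h4] at hs
      exact (add_left_cancel hs)
    exact Ainj h3
  have hC1 : C t = t := by
    have h := c1
    rw [hA1] at h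
    exact h
  have key : ∀ t, t + A t + A (A t) + A (A (A t)) + A (A (A (A t))) = u₁ ⊗ₜ[F] Fn f₁ t := by
    intro t
    induction t using TensorProduct.induction_on with
    | zero => simp only [map_zero, TensorProduct.tmul_zero, add_zero]
    | tmul v w =>
      rw [At, At, At, At, ← TensorProduct.add_tmul, ← TensorProduct.add_tmul, ← TensorProduct.add_tmul, ← TensorProduct.add_tmul,
        Fn_tmul, TensorProduct.tmul_smul, TensorProduct.smul_tmul', ← T₁.pz_eq]
      rfl
    | add t t' h h' =>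
      rw [map_add (Fn f₁), TensorProduct.tmul_add, ← h, ← h']
      simp only [map_add]
      abel
  have h5 := key t
  rw [hA1, hA1, hA1, hA1, add_self F, zero_add, add_self F, zero_add] at h5
  have hFC : ∀ t, Fn f₁ (C t) = ρ₂ z (Fn f₁ t) := by
    intro t
    induction t using TensorProduct.induction_on with
    | zero => simp only [map_zero]
    | tmul v w => rw [Ct, Fn_tmul, Fn_tmul, map_smul]
    | add t t' h h' => rw [map_add, map_add, h, h', map_add, map_add]
  obtain ⟨s, hs⟩ := T₂.hu (Fn f₁ t) (by rw [← hFC, hC1])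
  refine ⟨s, ?_⟩
  rw [← TensorProduct.tmul_smul, ← hs]
  exact h5

/-- stable subspaces without vectors fixed by `z` -/
theorem bot_t (T₁ : Ty ρ₁ z x y u₁ f₁ b) (T₂ : Ty ρ₂ z y x u₂ f₂ b') {N : Submodule F (X₁ ⊗[F] X₂)} (hN : St (ρ₁.tprod ρ₂) N)
    (h0 : ∀ t ∈ N, (ρ₁.tprod ρ₂) z t = t → t = 0) : N = ⊥ := by
  have hf : ∀ {k : P}, (∀ v, f₁ (ρ₁ k v) = f₁ v) → ∀ t, Fn f₁ ((ρ₁.tprod ρ₂) k t) = ρ₂ k (Fn f₁ t) := by
    intro k hk t
    have e : f₁ ∘ₗ ρ₁ k = f₁ := LinearMap.ext hk
    rw [Fn_act, e]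
  have hQ : N.map (Fn f₁) = ⊥ := by
    refine T₂.low ?_ ?_ ?_
    · rintro _ ⟨t, ht, rfl⟩
      exact ⟨_, hN z t ht, hf T₁.fz t⟩
    · rintro _ ⟨t, ht, rfl⟩
      exact ⟨_, hN y t ht, hf T₁.fy t⟩
    · rintro _ ⟨t, ht, rfl⟩
      have hp : pz (ρ₁.tprod ρ₂) z t ∈ N :=
        N.add_mem (N.add_mem (N.add_mem (N.add_mem ht (hN z _ ht)) (hN z _ (hN z _ ht))) (hN z _ (hN z _ (hN z _ ht))))
          (hN z _ (hN z _ (hN z _ (hN z _ ht))))
      have hp0 := h0 _ hp (pz_fix T₁.z5 t)
      have h1 := pz_fn (ρ := ρ₁.tprod ρ₂) (z := z) (f := f₂ ∘ₗ Fn f₁) (fun v => by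
        rw [LinearMap.comp_apply, LinearMap.comp_apply, hf T₁.fz, T₂.fz]) t
      rw [hp0, map_zero, LinearMap.comp_apply] at h1
      exact h1.symm
  have hg : ∀ g, ∀ t ∈ N, Fn (f₁ ∘ₗ ρ₁ g) t = 0 := by
    intro g t ht
    have h1 : Fn f₁ ((ρ₁.tprod ρ₂) g t) ∈ N.map (Fn f₁) := ⟨_, hN g t ht, rfl⟩
    rw [hQ, Submodule.mem_bot, Fn_act] at h1
    exact rinj g (h1.trans (map_zero _).symm)
  -- the functionals killing `N`
  let D : Submodule F (Module.Dual F X₁) :=
    { carrier := {f | ∀ t ∈ N, Fn f t = 0}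
      zero_mem' := fun t _ => Fn_zero t
      add_mem' := fun {f g} hf hg t ht => (Fn_add f g t).trans (by rw [hf t ht, hg t ht, add_zero])
      smul_mem' := fun r f hf t ht => (Fn_smul f r t).trans (by rw [hf t ht, smul_zero]) }
  let W : Submodule F X₁ :=
    { carrier := {v | ∀ g, f₁ (ρ₁ g v) = 0}
      zero_mem' := fun g => by rw [map_zero, map_zero]
      add_mem' := fun {v w} hv hw g => by rw [map_add, map_add, hv g, hw g, add_zero]
      smul_mem' := fun r v hv g => by rw [map_smul, map_smul, hv g, smul_zero] }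
  have hW : W = ⊥ := by
    rcases T₁.irr W (fun g v hv h => by rw [← rmul]; exact hv _) with h | h
    · exact h
    · exfalso
      have h1 : u₁ ∈ W := by rw [h]; trivial
      have h2 : f₁ (ρ₁ 1 u₁) = 0 := h1 1
      rw [rone, T₁.fu] at h2
      exact one_ne_zero h2
  have hDc : D.dualCoannihilator = ⊥ := by
    rw [eq_bot_iff, ← hW]
    intro v hv g
    exact (Submodule.mem_dualCoannihilator v).1 hv (f₁ ∘ₗ ρ₁ g) (hg g)
  have hD : D = ⊤ := by
    rw [← Subspace.dualCoannihilator_dualAnnihilator_eq (W := D), hDc, Submodule.dualAnnihilator_bot]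
  rw [eq_bot_iff]
  intro t ht
  refine (Submodule.mem_bot F).2 (Fn_inj fun f => ?_)
  have h1 : f ∈ D := by rw [hD]; trivial
  exact h1 t ht

/-- stable subspaces containing `u₁ ⊗ u₂` -/
theorem top_t (T₁ : Ty ρ₁ z x y u₁ f₁ b) (T₂ : Ty ρ₂ z y x u₂ f₂ b') {N : Submodule F (X₁ ⊗[F] X₂)} (hN : St (ρ₁.tprod ρ₂) N)
    (h0 : u₁ ⊗ₜ[F] u₂ ∈ N) : N = ⊤ := by
  have hact : ∀ g v w, v ⊗ₜ[F] w ∈ N → ρ₁ g v ⊗ₜ[F] ρ₂ g w ∈ N := by
    intro g v w h
    have h1 := hN g _ h
    rwa [Representation.tprod_apply, TensorProduct.map_tmul] at h1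
  have h1 : ∀ w, u₁ ⊗ₜ[F] w ∈ N := by
    have hU : N.comap (TensorProduct.mk F X₁ X₂ u₁) = ⊤ := by
      refine T₂.high ?_ ?_ h0
      · intro w hw
        have h := hact z _ _ hw
        rwa [T₁.uz] at h
      · intro w hw
        have h := hact x _ _ hw
        rwa [T₁.ux] at h
    intro w
    have h : w ∈ N.comap (TensorProduct.mk F X₁ X₂ u₁) := by rw [hU]; trivial
    exact h
  let W : Submodule F X₁ :=
    { carrier := {v | ∀ w, v ⊗ₜ[F] w ∈ N}
      zero_mem' := fun w => by rw [TensorProduct.zero_tmul]; exact N.zero_mem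
      add_mem' := fun {v v'} hv hv' w => by rw [TensorProduct.add_tmul]; exact N.add_mem (hv w) (hv' w)
      smul_mem' := fun r v hv w => by rw [← TensorProduct.smul_tmul']; exact N.smul_mem _ (hv w) }
  have hW : W = ⊤ := by
    rcases T₁.irr W (fun g v hv w => by
      have h := hact g v (ρ₂ g⁻¹ w) (hv _)
      rwa [rinv'] at h) with h | h
    · exfalso
      have h2 : u₁ ∈ W := h1
      rw [h, Submodule.mem_bot] at h2
      exact T₁.u_ne h2
    · exact h
  rw [eq_top_iff]
  intro t _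
  induction t using TensorProduct.induction_on with
  | zero => exact N.zero_mem
  | tmul v w =>
    have h : v ∈ W := by rw [hW]; trivial
    exact h w
  | add t t' h h' => exact N.add_mem (h trivial) (h' trivial)

/-- **the tensor product is irreducible** -/
theorem irr_t (T₁ : Ty ρ₁ z x y u₁ f₁ b) (T₂ : Ty ρ₂ z y x u₂ f₂ b') (hb : b + b' = 1) {N : Submodule F (X₁ ⊗[F] X₂)}
    (hN : St (ρ₁.tprod ρ₂) N) : N = ⊥ ∨ N = ⊤ := by
  by_cases h0 : u₁ ⊗ₜ[F] u₂ ∈ N
  · exact Or.inr (top_t T₁ T₂ hN h0)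
  · refine Or.inl (bot_t T₁ T₂ hN fun t ht hz => ?_)
    obtain ⟨s, rfl⟩ := fix_t T₁ T₂ hb hz
    by_cases hs : s = 0
    · rw [hs, zero_smul]
    · exfalso
      apply h0
      have h := N.smul_mem s⁻¹ ht
      rwa [smul_smul, inv_mul_cancel₀ hs, one_smul] at h

end

end Cfsg.Agent.H906.E6.SixR

namespace Cfsg.Agent.H958.SixC

open Module
open scoped TensorProduct
open Cfsg.Agent.H952.F4 (ev)
open Cfsg.Agent.H906.E6.SixR

section
variable {F : Type*} [Field F] [CharP F 2] {P : Type*} [Group P] {X : Type*} [AddCommGroup X] [Module F X]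
  {ρ : Representation F P X}

theorem act_inv {ζ : P} {c : F} (hc : Ch ρ ζ c) (v : X) : ρ ζ⁻¹ v = c ^ 2 • v := by
  apply rinj (ρ := ρ) ζ
  rw [rinv', map_smul, hc.act, smul_smul, ← pow_succ, hc.cube, one_smul]

/-- the facts on a three-dimensional module with a vector fixed by `⟨z, xx z g⟩` -/
theorem exists_ty [FiniteDimensional F X] {ζ z g g' β β' : P} {c b : F} (hc : Ch ρ ζ c) (hh : Half ζ z g β) (hh' : Half ζ z g' β')
    (hb : ∀ v, ρ β v = b • v) (hb2 : b ^ 2 + b + 1 = 0) (gen : Subgroup.closure {z, xx z g, xx z g'} = ⊤)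
    (d : finrank F X = 3) {u : X} (k : KF ρ z g u) (n : u ≠ 0) : ∃ f : X →ₗ[F] F, Ty ρ z (xx z g) (xx z g') u f b := by
  have irr : ∀ W : Submodule F X, St ρ W → W = ⊥ ∨ W = ⊤ := fun W hW => irr_three hc hh.c3 hh.t3 d hW
  obtain ⟨cub, hu⟩ := hex3 hh hb hb2 d irr k n
  have nofix : ∀ v : X, (∀ g, ρ g v = v) → v = 0 := by
    intro v hv
    by_contra hv0
    have h := hv ζ
    rw [hc.act] at h
    exact hc.ne (smul_left_injective F hv0 (h.trans (one_smul F v).symm))
  rcases exists_kf hh' hc d k.1 n with ⟨w, hw0, hw⟩ | ⟨f, hf0, hfz, hfx⟩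
  · exfalso
    obtain ⟨s, hs⟩ := hu w hw.1
    have hs0 : s ≠ 0 := by
      rintro rfl
      rw [zero_smul] at hs
      exact hw0 hs
    have hux : ρ (xx z g') u = u := by
      have h := hw.2
      rw [hs, map_smul] at h
      exact smul_right_injective X hs0 h
    refine n (nofix u fun a => fix_of_gen gen ?_ a)
    rintro a (rfl | rfl | ha)
    · exact k.1
    · exact k.2
    · rw [Set.mem_singleton_iff.1 ha, hux]
  · have hfu : f u ≠ 0 := by
      intro h
      apply hf0
      apply LinearMap.ext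
      intro v
      obtain ⟨s, hs⟩ := hu _ (pz_fix hh.z5 v)
      have h1 := pz_fn (ρ := ρ) (z := z) (f := f) hfz v
      rw [hs, map_smul, h, smul_zero] at h1
      exact h1.symm
    refine ⟨(f u)⁻¹ • f, ?_⟩
    exact
      { z5 := hh.z5
        xx := xx_sq hh.gg
        yy := xx_sq hh'.gg
        x3 := hh.c3
        y3 := hh'.c3
        gen := gen
        irr := irr
        nofix := nofix
        d := d
        uz := k.1
        ux := k.2
        fz := fun v => by rw [LinearMap.smul_apply, LinearMap.smul_apply, hfz]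
        fy := fun v => by rw [LinearMap.smul_apply, LinearMap.smul_apply, hfx]
        fu := by rw [LinearMap.smul_apply, smul_eq_mul, inv_mul_cancel₀ hfu]
        hu := hu
        cub := cub }

end

section
variable {F : Type*} [Field F] [CharP F 2] {P : Type*} [Group P]

/-- **BOX R** -/
theorem boxR {ζ z g₁ g₂ β t a : P} (hF : Full ζ z g₁ g₂ β t a) {c : F} {X₁ X₂ Y : Type*} [AddCommGroup X₁] [Module F X₁]
    [FiniteDimensional F X₁] [AddCommGroup X₂] [Module F X₂] [FiniteDimensional F X₂] [AddCommGroup Y] [Module F Y]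
    (ρ₁ : Representation F P X₁) (ρ₂ : Representation F P X₂) (σ : Representation F P Y) (hc₁ : Ch ρ₁ ζ c) (hc₂ : Ch ρ₂ ζ c)
    (d₁ : finrank F X₁ = 3) (d₂ : finrank F X₂ = 3) {u₁ : X₁} {u₂ : X₂} (k₁ : KF ρ₁ z g₁ u₁) (n₁ : u₁ ≠ 0)
    (k₂ : KF ρ₂ z g₂ u₂) (n₂ : u₂ ≠ 0) (B : X₁ →ₗ[F] X₂ →ₗ[F] Y) (hB : ∀ g x y, σ g (B x y) = B (ρ₁ g x) (ρ₂ g y))
    (hne : B ≠ 0) (R : Submodule F Y) (hR : R = Submodule.span F {y | ∃ x₁ x₂, y = B x₁ x₂}) :
    finrank F ↥R = 9 ∧ B u₁ u₂ ≠ 0 ∧ (∀ y ∈ R, σ z y = y → ∃ s : F, y = s • B u₁ u₂) ∧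
      ∀ X : Submodule F Y, X ≤ R → St σ X → X = ⊥ ∨ X = R := by
  have hc3 := hc₁.cube
  have hq := quad hc₁
  have h2 : (2 : F) = 0 := CharTwo.two_eq_zero
  have q2 : (c ^ 2) ^ 2 + c ^ 2 + 1 = 0 := by linear_combination c * hc3 + hq
  have s12 : c + c ^ 2 = 1 := by linear_combination hq - h2
  have gen' : Subgroup.closure {z, xx z g₂, xx z g₁} = ⊤ := by
    rw [← hF.gen12]
    congr 1
    rw [Set.pair_comm]
  obtain ⟨b, b', hb, hb', hbq, hbq', hs⟩ : ∃ b b' : F, (∀ v, ρ₁ β v = b • v) ∧ (∀ v, ρ₂ β⁻¹ v = b' • v) ∧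
      b ^ 2 + b + 1 = 0 ∧ b' ^ 2 + b' + 1 = 0 ∧ b + b' = 1 := by
    rcases hF.beta with h | h
    · refine ⟨c, c ^ 2, fun v => ?_, fun v => ?_, hq, q2, s12⟩
      · rw [h, hc₁.act]
      · rw [h, act_inv hc₂]
    · refine ⟨c ^ 2, c, fun v => ?_, fun v => ?_, q2, hq, by rw [add_comm, s12]⟩
      · rw [h, act_inv hc₁]
      · rw [h, inv_inv, hc₂.act]
  obtain ⟨f₁, T₁⟩ := exists_ty hc₁ hF.h1 hF.h2 hb hbq hF.gen12 d₁ k₁ n₁
  obtain ⟨f₂, T₂⟩ := exists_ty hc₂ hF.h2 hF.h1 hb' hbq' gen' d₂ k₂ n₂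
  have heq : ∀ g t, σ g (TensorProduct.lift B t) = TensorProduct.lift B ((ρ₁.tprod ρ₂) g t) := by
    intro g t
    induction t using TensorProduct.induction_on with
    | zero => simp only [map_zero]
    | tmul v w => rw [Representation.tprod_apply, TensorProduct.map_tmul, TensorProduct.lift.tmul, TensorProduct.lift.tmul, hB]
    | add t t' h h' => rw [map_add, map_add, map_add, h, h', map_add]
  have hker : LinearMap.ker (TensorProduct.lift B) = ⊥ := by
    rcases irr_t T₁ T₂ hs (N := LinearMap.ker (TensorProduct.lift B)) (fun g t ht => by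
      rw [LinearMap.mem_ker] at ht ⊢
      rw [← heq, ht, map_zero]) with h | h
    · exact h
    · exfalso
      apply hne
      apply LinearMap.ext
      intro v
      apply LinearMap.ext
      intro w
      have h1 : v ⊗ₜ[F] w ∈ LinearMap.ker (TensorProduct.lift B) := by rw [h]; trivial
      rw [LinearMap.mem_ker, TensorProduct.lift.tmul] at h1
      rw [h1]
      rfl
  have hinj : Function.Injective (TensorProduct.lift B) := LinearMap.ker_eq_bot.1 hker
  have hRr : R = LinearMap.range (TensorProduct.lift B) := by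
    rw [hR]
    apply le_antisymm
    · rw [Submodule.span_le]
      rintro _ ⟨v, w, rfl⟩
      exact ⟨v ⊗ₜ[F] w, TensorProduct.lift.tmul v w⟩
    · rintro _ ⟨t, rfl⟩
      induction t using TensorProduct.induction_on with
      | zero => rw [map_zero]; exact Submodule.zero_mem _
      | tmul v w => exact Submodule.subset_span ⟨v, w, TensorProduct.lift.tmul v w⟩
      | add t t' h h' => rw [map_add]; exact Submodule.add_mem _ h h'
  have hfix : ∀ y ∈ R, σ z y = y → ∃ s : F, y = s • B u₁ u₂ := by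
    rw [hRr]
    rintro _ ⟨t, rfl⟩ ht
    rw [heq] at ht
    obtain ⟨s, hs⟩ := fix_t T₁ T₂ hs (hinj ht)
    refine ⟨s, ?_⟩
    rw [hs, map_smul, TensorProduct.lift.tmul]
  refine ⟨?_, ?_, hfix, ?_⟩
  · rw [hRr, LinearMap.finrank_range_of_inj hinj, Module.finrank_tensorProduct, d₁, d₂]
  · intro h0
    have h1 : u₁ ⊗ₜ[F] u₂ = 0 := hinj (by rw [TensorProduct.lift.tmul, h0, map_zero])
    have h3 : Fn f₁ (u₁ ⊗ₜ[F] u₂) = 0 := by rw [h1, map_zero]
    rw [Fn_tmul, T₁.fu, one_smul] at h3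
    exact n₂ h3
  · intro S hSR hS
    rcases irr_t T₁ T₂ hs (N := S.comap (TensorProduct.lift B)) (fun g t ht => by
      rw [Submodule.mem_comap] at ht ⊢
      rw [← heq]
      exact hS g _ ht) with h1 | h1
    · left
      rw [eq_bot_iff]
      intro s hs
      have h0 := hSR hs
      rw [hRr] at h0
      obtain ⟨t, rfl⟩ := h0
      have h2 : t ∈ S.comap (TensorProduct.lift B) := hs
      rw [h1, Submodule.mem_bot] at h2
      rw [h2, map_zero]
      exact Submodule.zero_mem _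
    · right
      refine le_antisymm hSR ?_
      rw [hRr]
      rintro _ ⟨t, rfl⟩
      have h2 : t ∈ S.comap (TensorProduct.lift B) := by rw [h1]; trivial
      exact h2

end

end Cfsg.Agent.H958.SixC
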